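import Cfsg.Agent.H556.GTwoNilAbs

/-!
# Groups acting on an elementary abelian group of order 8 (helper556)

`three_dvd` : if an element of order prime to 6 and an involution act non-trivially on an elementary abelian group of
order 8, the order of the group is divisible by 3 (transvections of `GL₃(2)`).
-/

set_option autoImplicit false
set_option linter.unusedSectionVars false

namespace Cfsg.Agent.H556.GTwoNil

open Subgroup

variable {H : Type*} [Group H] [Finite H]

theorem three_dvd_of_cycle {v w y : H} (h1 : y * v * y⁻¹ = w) (hne : w ≠ v)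
    (h3 : y ^ 3 * v * (y ^ 3)⁻¹ = v) : 3 ∣ Nat.card H := by
  have h4 : 3 ∣ orderOf y := by
    by_contra hcon
    have hcop : Nat.Coprime (orderOf y) 3 := ((Nat.Prime.coprime_iff_not_dvd Nat.prime_three).mpr hcon).symm
    have hy3 : Commute (y ^ 3) v := mul_inv_eq_iff_eq_mul.mp h3
    have hmem : y ∈ zpowers (y ^ 3) := by
      obtain ⟨k, hk⟩ := exists_pow_eq_self_of_coprime (x := y) (n := 3) hcop.symm
      exact ⟨k, by simpa using hk⟩
    obtain ⟨k, hk⟩ := hmem
    have h5 : Commute y v := by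
      rw [← hk]
      exact hy3.zpow_left k
    apply hne
    rw [← h1, h5.eq]; group
  exact h4.trans (orderOf_dvd_natCard y)

theorem three_dvd (E : Subgroup H) (h8 : Nat.card E = 8) (hsq : ∀ x ∈ E, x * x = 1) {r n : ℕ}
    [hr : Fact r.Prime] (h5 : 5 ≤ r) {g : H} (hg : g ^ r ^ n = 1) (hgN : g ∈ normalizer (E : Set H))
    (hgC : g ∉ centralizer (E : Set H)) {x : H} (hxN : x ∈ normalizer (E : Set H))
    (hx2 : x * x ∈ centralizer (E : Set H)) (hxC : x ∉ centralizer (E : Set H)) : 3 ∣ Nat.card H := by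
  classical
  have : Fintype H := Fintype.ofFinite H
  have hinv : ∀ v ∈ E, v⁻¹ = v := fun v hv => inv_eq_of_mul_eq_one_left (hsq v hv)
  have hab : ∀ v ∈ E, ∀ w ∈ E, v * w = w * v := by
    intro v hv w hw
    have h3 := hinv _ (mul_mem hv hw)
    rw [mul_inv_rev, hinv v hv, hinv w hw] at h3
    exact h3.symm
  have hconj : ∀ a ∈ normalizer (E : Set H), ∀ v ∈ E, a * v * a⁻¹ ∈ E := fun a ha v hv =>
    (mem_normalizer_iff.mp ha v).mp hv
  -- the fixed points of `g`
  have hgfix : r = 7 ∧ ∀ v ∈ E, g * v = v * g → v = 1 := by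
    set C : Subgroup H := E ⊓ centralizer {g} with hC
    have h1 := count hg (E : Set H) (fun y hy => hconj g hgN y hy)
    have h2 : Nat.card {y : H // y ∈ (E : Set H) ∧ g * y = y * g} = Nat.card C := by
      refine Nat.card_congr (Equiv.subtypeEquivRight fun y => ?_)
      rw [hC, mem_inf, mem_centralizer_singleton_iff]
      exact and_congr_right fun _ => eq_comm
    rw [h2] at h1
    have h1' : Nat.card E ≡ Nat.card C [MOD r] := h1
    rw [h8] at h1'
    have hlt : Nat.card C < 8 := by
      rw [← h8]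
      have hle : C ≤ E := inf_le_left
      refine lt_of_le_of_ne (Nat.le_of_dvd Nat.card_pos (card_dvd_of_le hle)) fun he => ?_
      have h3 : C = E := eq_of_le_of_card_ge hle he.ge
      apply hgC
      rw [mem_centralizer_iff]
      intro y hy
      have hy' : y ∈ E := hy
      rw [← h3, hC, mem_inf, mem_centralizer_singleton_iff] at hy'
      exact hy'.2
    have hdv : Nat.card C ∣ 8 := by rw [← h8]; exact card_dvd_of_le inf_le_left
    have hd : r ∣ 8 - Nat.card C := (Nat.modEq_iff_dvd' hlt.le).mp h1'.symm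
    have hcard : r = 7 ∧ Nat.card C = 1 := by
      have hC' : Nat.card C ∈ Nat.divisors 8 := Nat.mem_divisors.mpr ⟨hdv, by norm_num⟩
      have h6 : Nat.divisors 8 = {1, 2, 4, 8} := by decide
      rw [h6] at hC'
      simp only [Finset.mem_insert, Finset.mem_singleton] at hC'
      rcases hC' with h | h | h | h
      · rw [h] at hd
        exact ⟨(Nat.prime_dvd_prime_iff_eq hr.out (by norm_num)).mp hd, h⟩
      · rw [h] at hd
        exfalso
        have h6 : r ∣ 2 * 3 := hd
        rcases (hr.out.dvd_mul).mp h6 with h | h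
        · have := Nat.le_of_dvd (by norm_num) h
          omega
        · have := Nat.le_of_dvd (by norm_num) h
          omega
      · rw [h] at hd
        have := Nat.le_of_dvd (by norm_num) hd
        omega
      · omega
    refine ⟨hcard.1, fun v hv hgv => ?_⟩
    have h3 : v ∈ C := by
      rw [hC, mem_inf, mem_centralizer_singleton_iff]
      exact ⟨hv, hgv.symm⟩
    rw [card_eq_one.mp hcard.2] at h3
    exact mem_bot.mp h3
  obtain ⟨hr7, hgfix⟩ := hgfix
  -- the transvection `x`
  let φ : E →* E :=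
    { toFun := fun v => ⟨v * (x * v * x⁻¹), mul_mem v.2 (hconj x hxN v v.2)⟩
      map_one' := Subtype.ext (by simp)
      map_mul' := fun v w => Subtype.ext (by
        show (v * w : H) * (x * (v * w) * x⁻¹) = v * (x * v * x⁻¹) * (w * (x * w * x⁻¹))
        have h1 := hab _ (hconj x hxN v v.2) w w.2
        calc (v * w : H) * (x * (v * w) * x⁻¹) = v * (w * (x * v * x⁻¹)) * (x * w * x⁻¹) := by group
          _ = v * ((x * v * x⁻¹) * w) * (x * w * x⁻¹) := by rw [h1]
          _ = v * (x * v * x⁻¹) * (w * (x * w * x⁻¹)) := by group) }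
  have hφ : ∀ v : E, (φ v : H) = v * (x * v * x⁻¹) := fun _ => rfl
  have hker : ∀ v : E, v ∈ φ.ker ↔ x * (v : H) * x⁻¹ = v := by
    intro v
    rw [MonoidHom.mem_ker, Subtype.ext_iff, hφ, OneMemClass.coe_one, mul_eq_one_iff_eq_inv,
      hinv _ (hconj x hxN v v.2), eq_comm]
  have hrange : φ.range ≤ φ.ker := by
    rintro _ ⟨v, rfl⟩
    rw [hker, hφ]
    have h1 : x * x * (v : H) = v * (x * x) := (mem_centralizer_iff.mp hx2 v v.2).symm
    have h2 := hab _ (hconj x hxN v v.2) v v.2
    calc x * ((v : H) * (x * v * x⁻¹)) * x⁻¹ = (x * v * x⁻¹) * (x * x * v) * (x * x)⁻¹ := by group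
      _ = (x * v * x⁻¹) * (v * (x * x)) * (x * x)⁻¹ := by rw [h1]
      _ = (x * v * x⁻¹) * v := by group
      _ = v * (x * v * x⁻¹) := h2
  have hkc : Nat.card φ.ker = 4 ∧ Nat.card φ.range = 2 := by
    have h1 : Nat.card φ.ker * Nat.card φ.range = 8 := by
      rw [← h8, ← φ.ker.card_mul_index]
      congr 1
      exact (index_ker φ).symm
    have h2 : Nat.card φ.range ∣ Nat.card φ.ker := card_dvd_of_le hrange
    have h3 : Nat.card φ.ker ≠ 8 := by
      intro h
      have h4 : φ.ker = ⊤ := (card_eq_iff_eq_top _).mp (by rw [h, h8])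
      apply hxC
      rw [mem_centralizer_iff]
      intro v hv
      have h5 : (⟨v, hv⟩ : E) ∈ φ.ker := h4 ▸ mem_top _
      have h6 := (hker _).mp h5
      exact (mul_inv_eq_iff_eq_mul.mp h6).symm
    obtain ⟨c, hc⟩ := h2
    have hr0 : 0 < Nat.card φ.range := Nat.card_pos
    have hr1 : Nat.card φ.range ≠ 1 := by
      intro h
      rw [h, mul_one] at h1
      exact h3 h1
    have h4 : Nat.card φ.range * Nat.card φ.range ≤ 8 := by
      have hc0 : 0 < c := by
        rcases Nat.eq_zero_or_pos c with h | h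
        · rw [h, mul_zero] at hc
          have : 0 < Nat.card φ.ker := Nat.card_pos
          omega
        · exact h
      rw [← h1]
      exact Nat.mul_le_mul_right _ (Nat.le_of_dvd Nat.card_pos (Dvd.intro _ hc.symm))
    have h5 : Nat.card φ.range < 3 := by
      by_contra hcon
      push Not at hcon
      have : 3 * 3 ≤ Nat.card φ.range * Nat.card φ.range := Nat.mul_le_mul hcon hcon
      omega
    have h6 : Nat.card φ.range = 2 := by omega
    rw [h6] at h1
    exact ⟨by omega, h6⟩
  -- the centre of the transvection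
  obtain ⟨c, hcE, hc1, hcx⟩ : ∃ c ∈ E, c ≠ 1 ∧ ∀ v ∈ E, x * v * x⁻¹ = v ∨ x * v * x⁻¹ = v * c := by
    have h1 : Nontrivial φ.range := by
      rw [← Finite.one_lt_card_iff_nontrivial, hkc.2]
      norm_num
    obtain ⟨⟨c, hc⟩, hcne⟩ := exists_ne (1 : φ.range)
    have hc1 : c ≠ 1 := fun h => hcne (Subtype.ext h)
    refine ⟨c, c.2, fun h => hc1 (Subtype.ext h), fun v hv => ?_⟩
    have h2 : φ ⟨v, hv⟩ = 1 ∨ φ ⟨v, hv⟩ = c := by
      by_contra hcon
      push Not at hcon
      have h3 : ({1, ⟨c, hc⟩, ⟨φ ⟨v, hv⟩, ⟨_, rfl⟩⟩} : Finset φ.range).card = 3 := by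
        rw [Finset.card_eq_three]
        exact ⟨_, _, _, fun h => hcne h.symm, fun h => hcon.1 (congrArg Subtype.val h).symm,
          fun h => hcon.2 (congrArg Subtype.val h).symm, rfl⟩
      have h4 := Finset.card_le_univ ({1, ⟨c, hc⟩, ⟨φ ⟨v, hv⟩, ⟨_, rfl⟩⟩} : Finset φ.range)
      rw [h3, ← Nat.card_eq_fintype_card, hkc.2] at h4
      omega
    rcases h2 with h2 | h2
    · left
      exact (hker ⟨v, hv⟩).mp h2
    · right
      have h3 : v * (x * v * x⁻¹) = c := by
        rw [← h2]
        exact (hφ ⟨v, hv⟩).symm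
      rw [← h3]
      have h4 := hsq v hv
      calc x * v * x⁻¹ = (v * v) * (x * v * x⁻¹) := by rw [h4, one_mul]
        _ = v * (v * (x * v * x⁻¹)) := by group
  have hcfix : x * c * x⁻¹ = c := by
    -- `c` is in the range, so in the kernel
    obtain ⟨v, hv, hvx⟩ : ∃ v ∈ E, x * v * x⁻¹ = v * c := by
      by_contra hcon
      push Not at hcon
      apply hxC
      rw [mem_centralizer_iff]
      intro v hv
      have := (hcx v hv).resolve_right (hcon v hv)
      exact (mul_inv_eq_iff_eq_mul.mp this).symm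
    have h1 : c = v * (x * v * x⁻¹) := by
      rw [hvx, ← mul_assoc, hsq v hv, one_mul]
    have h2 : (⟨c, hcE⟩ : E) = φ ⟨v, hv⟩ := Subtype.ext h1
    have h3 : (⟨c, hcE⟩ : E) ∈ φ.ker := by
      rw [h2]
      exact hrange ⟨_, rfl⟩
    exact (hker _).mp h3
  -- transitivity
  have hpow : ∀ i : ℕ, g ^ i ∈ normalizer (E : Set H) := fun i => pow_mem hgN i
  have htrans : ∀ v ∈ E, v ≠ 1 → ∃ i : ℕ, g ^ i * c * (g ^ i)⁻¹ = v := by
    set O : Set H := {w | ∃ i : ℕ, g ^ i * c * (g ^ i)⁻¹ = w} with hO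
    have h1 := count hg O (by
      rintro _ ⟨i, rfl⟩
      exact ⟨i + 1, by rw [pow_succ']; group⟩)
    have hOE : ∀ w ∈ O, w ∈ E ∧ w ≠ 1 := by
      rintro _ ⟨i, rfl⟩
      exact ⟨hconj _ (hpow i) c hcE, fun h => hc1 (conj_eq_one_iff.mp h)⟩
    have h2 : Nat.card {y : H // y ∈ O ∧ g * y = y * g} = 0 := by
      rw [Nat.card_eq_zero]
      left
      exact ⟨fun y => (hOE y.1 y.2.1).2 (hgfix y.1 (hOE y.1 y.2.1).1 y.2.2)⟩
    rw [h2] at h1
    have h3 := (Nat.modEq_zero_iff_dvd).mp h1
    rw [hr7] at h3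
    set F7 : Finset H := Finset.univ.filter fun w => w ∈ E ∧ w ≠ 1 with hF7
    have hF7c : F7.card = 7 := by
      have h4 : (Finset.univ.filter fun w => w ∈ E) = insert 1 F7 := by
        ext w
        simp only [hF7, Finset.mem_filter, Finset.mem_univ, true_and, Finset.mem_insert]
        constructor
        · intro hw
          by_cases h : w = 1
          · exact Or.inl h
          · exact Or.inr ⟨hw, h⟩
        · rintro (rfl | ⟨hw, -⟩)
          · exact one_mem E
          · exact hw
      have h5 : (Finset.univ.filter fun w => w ∈ E).card = 8 := by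
        rw [← h8, Nat.card_eq_fintype_card, Fintype.card_subtype]
      rw [h4, Finset.card_insert_of_notMem (by simp [hF7])] at h5
      omega
    have hOc : Nat.card O = (Finset.univ.filter fun w => w ∈ O).card := by
      rw [Nat.card_eq_fintype_card, Fintype.card_subtype]
    have hOsub : (Finset.univ.filter fun w => w ∈ O) ⊆ F7 := by
      intro w hw
      rw [Finset.mem_filter] at hw
      rw [hF7, Finset.mem_filter]
      exact ⟨hw.1, hOE w hw.2⟩
    have hOpos : 0 < Nat.card O := by
      rw [hOc, Finset.card_pos]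
      exact ⟨c, by rw [Finset.mem_filter]; exact ⟨Finset.mem_univ _, 0, by simp⟩⟩
    have h7 := Nat.le_of_dvd hOpos h3
    have heq : (Finset.univ.filter fun w => w ∈ O) = F7 :=
      Finset.eq_of_subset_of_card_le hOsub (by rw [hF7c, ← hOc]; exact h7)
    intro v hv hv1
    have : v ∈ F7 := by
      rw [hF7, Finset.mem_filter]
      exact ⟨Finset.mem_univ _, hv, hv1⟩
    rw [← heq, Finset.mem_filter] at this
    exact this.2
  -- the transvections with all centres
  obtain ⟨X, hXN, hXfix, hXc, hX4⟩ : ∃ X : H → H, (∀ v ∈ E, v ≠ 1 → X v ∈ normalizer (E : Set H)) ∧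
      (∀ v ∈ E, v ≠ 1 → X v * v * (X v)⁻¹ = v) ∧
      (∀ v ∈ E, v ≠ 1 → ∀ w ∈ E, X v * w * (X v)⁻¹ = w ∨ X v * w * (X v)⁻¹ = w * v) ∧
      (∀ v ∈ E, v ≠ 1 → (Finset.univ.filter fun w => w ∈ E ∧ X v * w * (X v)⁻¹ ≠ w).card = 4) := by
    have hch : ∀ v : H, ∃ i : ℕ, v ∈ E → v ≠ 1 → g ^ i * c * (g ^ i)⁻¹ = v := by
      intro v
      by_cases h : v ∈ E ∧ v ≠ 1
      · obtain ⟨i, hi⟩ := htrans v h.1 h.2
        exact ⟨i, fun _ _ => hi⟩
      · exact ⟨0, fun h1 h2 => absurd ⟨h1, h2⟩ h⟩
    choose I hI using hch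
    refine ⟨fun v => g ^ I v * x * (g ^ I v)⁻¹, ?_, ?_, ?_, ?_⟩
    · intro v _ _
      exact mul_mem (mul_mem (hpow _) hxN) (inv_mem (hpow _))
    · intro v hv hv1
      have h1 := hI v hv hv1
      set a := g ^ I v
      dsimp only
      calc a * x * a⁻¹ * v * (a * x * a⁻¹)⁻¹ = a * x * a⁻¹ * (a * c * a⁻¹) * (a * x * a⁻¹)⁻¹ := by rw [h1]
        _ = a * (x * c * x⁻¹) * a⁻¹ := by group
        _ = v := by rw [hcfix, h1]
    · intro v hv hv1 w hw
      have h1 := hI v hv hv1
      set a := g ^ I v with ha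
      have h2 : a⁻¹ * w * a ∈ E := by
        have := hconj a⁻¹ (inv_mem (hpow _)) w hw
        rwa [inv_inv] at this
      dsimp only
      have h3 : a * x * a⁻¹ * w * (a * x * a⁻¹)⁻¹ = a * (x * (a⁻¹ * w * a) * x⁻¹) * a⁻¹ := by group
      rw [h3]
      rcases hcx _ h2 with h4 | h4
      · left
        rw [h4]; group
      · right
        rw [h4]
        calc a * (a⁻¹ * w * a * c) * a⁻¹ = w * (a * c * a⁻¹) := by group
          _ = w * v := by rw [h1]
    · intro v hv hv1
      set a := g ^ I v with ha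
      -- first for `x`
      have hx4 : (Finset.univ.filter fun w => w ∈ E ∧ x * w * x⁻¹ ≠ w).card = 4 := by
        have h1 : (Finset.univ.filter fun w => w ∈ E ∧ x * w * x⁻¹ = w).card = 4 := by
          have h2 : Nat.card φ.ker = Nat.card {w : H // w ∈ E ∧ x * w * x⁻¹ = w} :=
            Nat.card_congr ⟨fun w => ⟨w.1.1, w.1.2, (hker w.1).mp w.2⟩,
              fun w => ⟨⟨w.1, w.2.1⟩, (hker ⟨w.1, w.2.1⟩).mpr w.2.2⟩, fun _ => rfl, fun _ => rfl⟩
          rw [hkc.1, Nat.card_eq_fintype_card, Fintype.card_subtype] at h2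
          exact h2.symm
        have h5 : (Finset.univ.filter fun w => w ∈ E).card = 8 := by
          rw [← h8, Nat.card_eq_fintype_card, Fintype.card_subtype]
        have h6 := Finset.card_filter_add_card_filter_not (s := Finset.univ.filter fun w => w ∈ E)
          (fun w => x * w * x⁻¹ = w)
        rw [Finset.filter_filter, Finset.filter_filter, h5, h1] at h6
        have h7 : (Finset.univ.filter fun w => w ∈ E ∧ ¬ x * w * x⁻¹ = w).card = 4 := by omega
        exact h7
      rw [← hx4]
      refine Finset.card_bij (fun w _ => a⁻¹ * w * a) ?_ ?_ ?_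
      · intro w hw
        rw [Finset.mem_filter] at hw ⊢
        refine ⟨Finset.mem_univ _, ?_, ?_⟩
        · have := hconj a⁻¹ (inv_mem (hpow _)) w hw.2.1
          rwa [inv_inv] at this
        · intro h1
          apply hw.2.2
          dsimp only
          calc a * x * a⁻¹ * w * (a * x * a⁻¹)⁻¹ = a * (x * (a⁻¹ * w * a) * x⁻¹) * a⁻¹ := by group
            _ = a * (a⁻¹ * w * a) * a⁻¹ := by rw [h1]
            _ = w := by group
      · intro w _ w' _ h1
        simpa using h1
      · intro w hw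
        rw [Finset.mem_filter] at hw
        refine ⟨a * w * a⁻¹, ?_, by group⟩
        rw [Finset.mem_filter]
        refine ⟨Finset.mem_univ _, hconj a (hpow _) w hw.2.1, ?_⟩
        intro h1
        apply hw.2.2
        dsimp only at h1
        calc x * w * x⁻¹ = a⁻¹ * (a * x * a⁻¹ * (a * w * a⁻¹) * (a * x * a⁻¹)⁻¹) * a := by group
          _ = a⁻¹ * (a * w * a⁻¹) * a := by rw [h1]
          _ = w := by group
  -- double counting
  set F7 : Finset H := Finset.univ.filter fun w => w ∈ E ∧ w ≠ 1 with hF7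
  have hF7m : ∀ {w}, w ∈ F7 ↔ w ∈ E ∧ w ≠ 1 := by
    intro w
    rw [hF7, Finset.mem_filter]
    simp
  have hF7c : F7.card = 7 := by
    have h4 : (Finset.univ.filter fun w => w ∈ E) = insert 1 F7 := by
      ext w
      rw [Finset.mem_insert, hF7m, Finset.mem_filter]
      constructor
      · rintro ⟨-, hw⟩
        by_cases h : w = 1
        · exact Or.inl h
        · exact Or.inr ⟨hw, h⟩
      · rintro (rfl | ⟨hw, -⟩)
        · exact ⟨Finset.mem_univ _, one_mem E⟩
        · exact ⟨Finset.mem_univ _, hw⟩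
    have h5 : (Finset.univ.filter fun w => w ∈ E).card = 8 := by
      rw [← h8, Nat.card_eq_fintype_card, Fintype.card_subtype]
    rw [h4, Finset.card_insert_of_notMem (by rw [hF7m]; simp)] at h5
    omega
  clear_value F7
  set rel : H → H → Prop := fun v w => X v * w * (X v)⁻¹ ≠ w with hrel
  have hrow : ∀ v ∈ F7, (∑ w ∈ F7, if rel v w then 1 else 0) = 4 := by
    intro v hv
    obtain ⟨hvE, hv1⟩ := hF7m.mp hv
    rw [Finset.sum_boole, ← hX4 v hvE hv1]
    simp only [Nat.cast_id]
    congr 1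
    ext w
    rw [Finset.mem_filter, Finset.mem_filter, hF7m]
    simp only [Finset.mem_univ, true_and, hrel]
    constructor
    · rintro ⟨⟨h1, -⟩, h2⟩
      exact ⟨h1, h2⟩
    · rintro ⟨h1, h2⟩
      refine ⟨⟨h1, ?_⟩, h2⟩
      rintro rfl
      apply h2
      group
  obtain ⟨v, hv, w, hw, hvw, hr1, hr2⟩ : ∃ v ∈ F7, ∃ w ∈ F7, v ≠ w ∧ rel v w ∧ rel w v := by
    by_contra hcon
    push Not at hcon
    have h1 : ∑ v ∈ F7, ∑ w ∈ F7, ((if rel v w then 1 else 0) + (if rel w v then 1 else 0)) = 56 := by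
      simp_rw [Finset.sum_add_distrib]
      rw [Finset.sum_congr rfl hrow, Finset.sum_comm (f := fun v w => if rel w v then 1 else 0),
        Finset.sum_congr rfl hrow, Finset.sum_const, hF7c]
      rfl
    have h2 : ∀ v ∈ F7, ∑ w ∈ F7, ((if rel v w then 1 else 0) + (if rel w v then 1 else 0)) ≤ 6 := by
      intro v hv
      obtain ⟨hvE, hv1⟩ := hF7m.mp hv
      rw [← Finset.add_sum_erase _ _ hv]
      have hvv : ¬ rel v v := fun h => h (hXfix v hvE hv1)
      rw [if_neg hvv, zero_add, zero_add]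
      calc ∑ w ∈ F7.erase v, ((if rel v w then 1 else 0) + (if rel w v then 1 else 0))
          ≤ ∑ w ∈ F7.erase v, 1 := by
            refine Finset.sum_le_sum fun w hw => ?_
            have hwv := Finset.ne_of_mem_erase hw
            have hw' := Finset.mem_of_mem_erase hw
            have := hcon v hv w hw' hwv.symm
            by_cases h3 : rel v w
            · rw [if_pos h3, if_neg (this h3)]
            · rw [if_neg h3]
              split_ifs <;> simp
        _ = 6 := by
            rw [Finset.sum_const, Finset.card_erase_of_mem hv, hF7c]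
            rfl
    have h3 := Finset.sum_le_sum h2
    rw [h1, Finset.sum_const, hF7c] at h3
    simp at h3
  obtain ⟨hvE, hv1⟩ := hF7m.mp hv
  obtain ⟨hwE, hw1⟩ := hF7m.mp hw
  have e1 : X v * w * (X v)⁻¹ = w * v := (hXc v hvE hv1 w hwE).resolve_left hr1
  have e2 : X w * v * (X w)⁻¹ = v * w := (hXc w hwE hw1 v hvE).resolve_left hr2
  have e3 := hXfix v hvE hv1
  have e4 := hXfix w hwE hw1
  have hvw' := hab v hvE w hwE
  have hw2 := hsq w hwE
  have hv2 := hsq v hvE
  set y := X v * X w with hy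
  -- `y v y⁻¹ = w`
  have y1 : y * v * y⁻¹ = w := by
    calc y * v * y⁻¹ = X v * (X w * v * (X w)⁻¹) * (X v)⁻¹ := by rw [hy]; group
      _ = X v * (v * w) * (X v)⁻¹ := by rw [e2]
      _ = (X v * v * (X v)⁻¹) * (X v * w * (X v)⁻¹) := by group
      _ = v * (w * v) := by rw [e3, e1]
      _ = v * (v * w) := by rw [hvw']
      _ = (v * v) * w := by group
      _ = w := by rw [hv2, one_mul]
  have y2 : y * w * y⁻¹ = v * w := by
    calc y * w * y⁻¹ = X v * (X w * w * (X w)⁻¹) * (X v)⁻¹ := by rw [hy]; group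
      _ = X v * w * (X v)⁻¹ := by rw [e4]
      _ = v * w := by rw [e1, hvw']
  have y3 : y ^ 3 * v * (y ^ 3)⁻¹ = v := by
    have y30 : y ^ 3 = y * y * y := by rw [pow_succ, pow_two]
    rw [y30]
    calc y * y * y * v * (y * y * y)⁻¹ = y * (y * (y * v * y⁻¹) * y⁻¹) * y⁻¹ := by group
      _ = y * (v * w) * y⁻¹ := by rw [y1, y2]
      _ = (y * v * y⁻¹) * (y * w * y⁻¹) := by group
      _ = w * (v * w) := by rw [y1, y2]
      _ = w * (w * v) := by rw [hvw']
      _ = (w * w) * v := by group
      _ = v := by rw [hw2, one_mul]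
  exact three_dvd_of_cycle y1 (fun h => hvw h.symm) y3

end Cfsg.Agent.H556.GTwoNil
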