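import Cfsg.Agent.H556.GTwoNilT
import Cfsg.Agent.H556.GTwoNilE
import Cfsg.Agent.S0071

/-!
# 3'-groups with Sylow 2-subgroups of type `G₂(q)` are 2-nilpotent (helper556)

`oddClosed` : let `H` be a finite group of order prime to 3 whose Sylow 2-subgroups are isomorphic to
`T (2 * 2 ^ k) = (Z_m × Z_m) ⋊ (Z_2 × Z_2)`, `m = 2 * 2 ^ k ≥ 4` (these are the Sylow 2-subgroups of `G₂(q)` and of
`³D₄(q)`, `q` odd).  Then the elements of odd order form a (normal) subgroup of `H`.
-/

set_option autoImplicit false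
set_option linter.unusedSectionVars false

namespace Cfsg.Agent.H556.GTwoNil

open Subgroup Cfsg.Agent.ClassificationK.GTwoModel

variable {H : Type*} [Group H] [Finite H]

theorem exists_emb {l : ℕ} (P : Sylow 2 H) (e : T (2 * l) ≃* P) {R : Subgroup H} (hR : IsPGroup 2 R) :
    ∃ (Q : Sylow 2 H) (f : H → T (2 * l)), R ≤ Q ∧ Emb (Q : Subgroup H) l f := by
  classical
  obtain ⟨Q, hQ⟩ := hR.exists_le_sylow
  have e' : Q ≃* T (2 * l) := (Sylow.equiv Q P).trans e.symm
  refine ⟨Q, fun x => if hx : x ∈ (Q : Subgroup H) then e' ⟨x, hx⟩ else 1, hQ, ⟨?_, ?_⟩⟩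
  · intro x hx y hy
    rw [dif_pos hx, dif_pos hy, dif_pos (mul_mem hx hy), ← map_mul]
    rfl
  · intro x hx y hy hxy
    rw [dif_pos hx, dif_pos hy] at hxy
    exact congrArg Subtype.val (e'.injective hxy)

theorem centralizes {k : ℕ} (hk : 1 ≤ k) (h3 : ¬ 3 ∣ Nat.card H) (P : Sylow 2 H) (e : T (2 * 2 ^ k) ≃* P)
    {r n : ℕ} [hr : Fact r.Prime] (h5 : 5 ≤ r) {g : H} (hg : g ^ r ^ n = 1) (N : ℕ) :
    ∀ R : Subgroup H, Nat.card R = N → IsPGroup 2 R → g ∈ normalizer (R : Set H) →
      g ∈ centralizer (R : Set H) := by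
  have : NeZero (2 ^ k) := ⟨by positivity⟩
  induction N using Nat.strong_induction_on with
  | _ N ih =>
    intro R hRN hR hgN
    by_contra hgC
    obtain ⟨Q, f, hRQ, E⟩ := exists_emb P e hR
    have hmin : Min r n g R :=
      { two := hR
        odd := by omega
        pow := hg
        norm := hgN
        ne := hgC
        min := fun R₁ hlt hn => ih (Nat.card R₁) (by
          rw [← hRN]
          refine lt_of_le_of_ne (Nat.le_of_dvd Nat.card_pos (card_dvd_of_le hlt.le)) fun he => ?_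
          exact hlt.ne (eq_of_le_of_card_ge hlt.le he.ge)) R₁ rfl (hR.to_le hlt.le) hn }
    obtain ⟨h8, hsq⟩ := eight hmin h5 (E.mono hRQ)
    -- `R` is proper in `Q`
    have hQc : Nat.card Q = 4 * (2 * 2 ^ k) ^ 2 := by
      rw [Nat.card_congr (Sylow.equiv Q P).toEquiv, ← Nat.card_congr e.toEquiv, T.card_T]
    have hlt : R.subgroupOf Q < ⊤ := by
      refine lt_top_iff_ne_top.mpr fun he => ?_
      have h1 : Nat.card (R.subgroupOf (Q : Subgroup H)) = Nat.card R :=
        Nat.card_congr (subgroupOfEquivOfLe hRQ).toEquiv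
      rw [he, card_top, h8] at h1
      rw [h1] at hQc
      have h2 : 2 ^ 1 ≤ 2 ^ k := Nat.pow_le_pow_right (by norm_num) hk
      nlinarith
    have hnil : Group.IsNilpotent Q := Q.2.isNilpotent
    obtain ⟨⟨x, hxQ⟩, hx1, hx2⟩ := SetLike.exists_of_lt (Group.normalizerCondition_of_isNilpotent _ hlt)
    have hxR : x ∉ R := fun h => hx2 (mem_subgroupOf.mpr h)
    have hxn : x ∈ normalizer (R : Set H) := by
      rw [mem_normalizer_iff]
      have h1 := mem_normalizer_iff.mp hx1
      intro w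
      constructor
      · intro hw
        have := (h1 ⟨w, hRQ hw⟩).mp (mem_subgroupOf.mpr hw)
        exact mem_subgroupOf.mp this
      · intro hw
        have hwQ : w ∈ (Q : Subgroup H) := by
          have h2 : x⁻¹ * (x * w * x⁻¹) * x ∈ (Q : Subgroup H) :=
            mul_mem (mul_mem (inv_mem hxQ) (hRQ hw)) hxQ
          have h3 : x⁻¹ * (x * w * x⁻¹) * x = w := by group
          rwa [h3] at h2
        exact mem_subgroupOf.mp ((h1 ⟨w, hwQ⟩).mpr (mem_subgroupOf.mpr hw))
    -- the smallest power of `x` in `R`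
    have hex : ∃ m, x ^ 2 ^ m ∈ R := by
      obtain ⟨m, hm⟩ := Q.2 ⟨x, hxQ⟩
      refine ⟨m, ?_⟩
      have : x ^ 2 ^ m = 1 := by simpa using congrArg Subtype.val hm
      rw [this]; exact one_mem R
    classical
    have hm := Nat.find_spec hex
    have hm0 : Nat.find hex ≠ 0 := by
      intro h0
      rw [h0, pow_zero, pow_one] at hm
      exact hxR hm
    obtain ⟨m, hmm⟩ := Nat.exists_eq_succ_of_ne_zero hm0
    have hy1 : x ^ 2 ^ m ∉ R := Nat.find_min hex (by omega)
    have hy2 : x ^ 2 ^ m * x ^ 2 ^ m ∈ R := by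
      rw [hmm] at hm
      rw [← pow_add]
      have : 2 ^ m + 2 ^ m = 2 ^ m.succ := by rw [pow_succ]; ring
      rwa [this]
    have hyQ : x ^ 2 ^ m ∈ (Q : Subgroup H) := pow_mem hxQ _
    have hab := comm_of_sq hsq
    apply h3
    refine three_dvd R h8 hsq h5 hg hgN hgC (pow_mem hxn (2 ^ m)) ?_ ?_
    · rw [mem_centralizer_iff]
      intro w hw
      exact hab w hw _ hy2
    · intro hc
      apply hy1
      refine E.mem_of_comm hRQ h8 hsq hyQ fun w hw => ?_
      exact (mem_centralizer_iff.mp hc w hw).symm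

theorem centralizes_odd {k : ℕ} (hk : 1 ≤ k) (h3 : ¬ 3 ∣ Nat.card H) (P : Sylow 2 H) (e : T (2 * 2 ^ k) ≃* P)
    {R : Subgroup H} (hR : IsPGroup 2 R) (N : ℕ) :
    ∀ g : H, orderOf g = N → g ∈ normalizer (R : Set H) → Nat.Coprime (orderOf g) 2 →
      g ∈ centralizer (R : Set H) := by
  induction N using Nat.recOnPosPrimePosCoprime with
  | prime_pow p n hp hn =>
    intro g hg hgN hco
    have := Fact.mk hp
    rw [hg] at hco
    have hp2 : p ≠ 2 := by
      rintro rfl
      exact absurd ((Nat.coprime_pow_left_iff hn 2 2).mp hco) (by decide)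
    have hp3 : p ≠ 3 := by
      rintro rfl
      apply h3
      refine dvd_trans ?_ (orderOf_dvd_natCard g)
      rw [hg]
      exact dvd_pow_self 3 hn.ne'
    have h5 : 5 ≤ p := by
      by_contra hcon
      push Not at hcon
      have := hp.two_le
      interval_cases p
      · exact hp2 rfl
      · exact hp3 rfl
      · exact absurd hp (by norm_num)
    exact centralizes hk h3 P e h5 (n := n) (by rw [← hg]; exact pow_orderOf_eq_one g) _ R rfl hR hgN
  | zero =>
    intro g hg _ _
    exact absurd hg (orderOf_pos g).ne'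
  | one =>
    intro g hg _ _
    rw [orderOf_eq_one_iff.mp hg]
    exact one_mem _
  | coprime a b ha hb hab iha ihb =>
    intro g hg hgN hco
    rw [hg] at hco
    have hga : orderOf (g ^ b) = a := by
      rw [orderOf_pow, hg, Nat.gcd_eq_right (Dvd.intro_left a rfl), Nat.mul_div_cancel _ (by omega)]
    have hgb : orderOf (g ^ a) = b := by
      rw [orderOf_pow, hg, Nat.gcd_eq_right (Dvd.intro b rfl), Nat.mul_div_cancel_left _ (by omega)]
    have h1 := iha (g ^ b) hga (pow_mem hgN b) (by rw [hga]; exact hco.coprime_mul_right)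
    have h2 := ihb (g ^ a) hgb (pow_mem hgN a) (by rw [hgb]; exact hco.coprime_mul_left)
    have hbez := Nat.gcd_eq_gcd_ab a b
    rw [hab] at hbez
    have h4 : g = (g ^ a) ^ (Nat.gcdA a b) * (g ^ b) ^ (Nat.gcdB a b) := by
      rw [← zpow_natCast g a, ← zpow_natCast g b, ← zpow_mul, ← zpow_mul, ← zpow_add, ← hbez]
      simp
    rw [h4]
    exact mul_mem (zpow_mem h2 _) (zpow_mem h1 _)

/-- A finite 3'-group with Sylow 2-subgroups of type `G₂(q)` has a normal 2-complement. -/
theorem exists_complement {k : ℕ} (hk : 1 ≤ k) (h3 : ¬ 3 ∣ Nat.card H) (P : Sylow 2 H)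
    (e : T (2 * 2 ^ k) ≃* P) : ∃ N : Subgroup H, N.Normal ∧ N.IsComplement' (P : Subgroup H) :=
  (Cfsg.Agent.S0071.result P).mpr fun _ hQ g hg hco =>
    centralizes_odd hk h3 P e (P.2.to_le hQ) _ g rfl hg hco

theorem oddClosed {k : ℕ} (hk : 1 ≤ k) (h3 : ¬ 3 ∣ Nat.card H) (P : Sylow 2 H) (e : T (2 * 2 ^ k) ≃* P) :
    ∀ x y : H, Odd (orderOf x) → Odd (orderOf y) → Odd (orderOf (x * y)) := by
  obtain ⟨N, hN, hc⟩ := exists_complement hk h3 P e
  have hNo : Odd (Nat.card N) := by
    rw [← Nat.not_even_iff_odd, even_iff_two_dvd]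
    intro hd
    have h1 : N.index = Nat.card P := hc.symm.index_eq_card
    have h2 : (P : Subgroup H).index = Nat.card N := hc.index_eq_card
    rw [← h2] at hd
    exact P.not_dvd_index hd
  have hmem : ∀ x : H, Odd (orderOf x) → x ∈ N := by
    intro x hx
    have h1 : N.index = Nat.card P := hc.symm.index_eq_card
    obtain ⟨a, ha⟩ := IsPGroup.iff_card.mp P.2
    rw [← QuotientGroup.eq_one_iff, ← orderOf_eq_one_iff]
    have h2 : orderOf (x : H ⧸ N) ∣ orderOf x := orderOf_map_dvd (QuotientGroup.mk' N) x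
    have h3 : orderOf (x : H ⧸ N) ∣ 2 ^ a := by
      rw [← ha, ← h1]
      exact orderOf_dvd_natCard _
    have h4 : Nat.Coprime (orderOf x) (2 ^ a) := (Nat.coprime_two_right.mpr hx).pow_right a
    exact Nat.eq_one_of_dvd_coprimes h4 h2 h3
  intro x y hx hy
  have h1 : x * y ∈ N := mul_mem (hmem x hx) (hmem y hy)
  have h2 : orderOf (x * y) ∣ Nat.card N := by
    have := orderOf_dvd_natCard (⟨x * y, h1⟩ : N)
    rwa [Subgroup.orderOf_mk] at this
  exact hNo.of_dvd_nat h2

end Cfsg.Agent.H556.GTwoNil
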