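import Mathlib

/-!
# Minimal non-trivial actions on 2-groups: elementary facts (helper556)

`g` is an element of prime power order `r ^ n`, `r` odd, of a finite group, `R` is a 2-subgroup normalised but not
centralised by `g`; `g` centralises all proper subgroups of `R` that it normalises.

* `Min.central` : elements of `R` commuting with `g` are central in `R`;
* `Min.sq_comm` : the squares of elements of `R` commute with `g`;
* `Min.sq_one` : if `R` is abelian, it has exponent 2;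
* `count` : counting fixed points modulo `r`;
* `Min.not_card_le` : if `R` is not abelian, `|R : Z(R)| ≤ 4` is impossible for `r ≥ 5`.
-/

set_option autoImplicit false
set_option linter.unusedSectionVars false

namespace Cfsg.Agent.H556.GTwoNil

open Subgroup

variable {H : Type*} [Group H] [Finite H]

/-- fixed points of an `r`-element acting by conjugation on a finite set -/
theorem count {r n : ℕ} [hr : Fact r.Prime] {g : H} (hg : g ^ r ^ n = 1) (Y : Set H)
    (hY : ∀ y ∈ Y, g * y * g⁻¹ ∈ Y) :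
    Nat.card Y ≡ Nat.card {y : H // y ∈ Y ∧ g * y = y * g} [MOD r] := by
  classical
  have hpow : ∀ k : ℕ, ∀ y ∈ Y, g ^ k * y * (g ^ k)⁻¹ ∈ Y := by
    intro k
    induction k with
    | zero => intro y hy; simpa using hy
    | succ k ih =>
      intro y hy
      have := ih _ (hY y hy)
      have h2 : g ^ (k + 1) * y * (g ^ (k + 1))⁻¹ = g ^ k * (g * y * g⁻¹) * (g ^ k)⁻¹ := by
        rw [pow_succ]; group
      rw [h2]; exact this
  have hmem : ∀ k : zpowers g, ∀ y ∈ Y, (k : H) * y * (k : H)⁻¹ ∈ Y := by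
    rintro ⟨k, hk⟩ y hy
    obtain ⟨m, -, rfl⟩ := (mem_zpowers_iff_mem_range_orderOf (x := g) (y := k)).mp hk |> Finset.mem_image.mp
    exact hpow m y hy
  let act : MulAction (zpowers g) Y :=
    { smul := fun k y => ⟨(k : H) * y * (k : H)⁻¹, hmem k y y.2⟩
      one_smul := fun y => Subtype.ext (by
        show ((1 : zpowers g) : H) * y * ((1 : zpowers g) : H)⁻¹ = y
        simp)
      mul_smul := fun a b y => Subtype.ext (by
        show ((a * b : zpowers g) : H) * y * ((a * b : zpowers g) : H)⁻¹ = (a : H) * ((b : H) * y * (b : H)⁻¹) * (a : H)⁻¹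
        rw [Subgroup.coe_mul]; group) }
  have hP : IsPGroup r (zpowers g) := by
    intro k
    obtain ⟨m, hm⟩ := k.2
    refine ⟨n, Subtype.ext ?_⟩
    rw [SubmonoidClass.coe_pow, OneMemClass.coe_one, ← hm]
    simp only
    rw [← zpow_natCast, ← zpow_mul, mul_comm, zpow_mul, zpow_natCast, hg, one_zpow]
  have h1 := hP.card_modEq_card_fixedPoints Y
  refine h1.trans ?_
  have h2 : Nat.card (MulAction.fixedPoints (zpowers g) Y) = Nat.card {y : H // y ∈ Y ∧ g * y = y * g} := by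
    refine Nat.card_congr ⟨fun y => ⟨y.1.1, y.1.2, ?_⟩, fun y => ⟨⟨y.1, y.2.1⟩, ?_⟩, fun _ => rfl, fun _ => rfl⟩
    · have := y.2 ⟨g, mem_zpowers g⟩
      have h3 : g * (y.1.1 : H) * g⁻¹ = y.1.1 := congrArg Subtype.val this
      exact mul_inv_eq_iff_eq_mul.mp h3
    · rintro ⟨k, m, rfl⟩
      refine Subtype.ext ?_
      show g ^ m * y.1 * (g ^ m)⁻¹ = y.1
      have h3 : Commute g y.1 := y.2.2
      rw [mul_inv_eq_iff_eq_mul]
      exact (h3.zpow_left m).eq
  rw [h2]

/-- a subgroup covered by few cosets -/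
theorem card_le_of_cover (R Z : Subgroup H) (S : Finset H) (h : ∀ y ∈ R, ∃ c ∈ S, c⁻¹ * y ∈ Z) :
    Nat.card R ≤ S.card * Nat.card Z := by
  classical
  have : Fintype H := Fintype.ofFinite H
  have h1 : (Finset.univ.filter fun y => y ∈ R) ⊆
      S.biUnion fun c => (Finset.univ.filter fun y => y ∈ Z).image fun y => c * y := by
    intro y hy
    rw [Finset.mem_filter] at hy
    obtain ⟨c, hc, hcy⟩ := h y hy.2
    rw [Finset.mem_biUnion]
    refine ⟨c, hc, Finset.mem_image.mpr ⟨c⁻¹ * y, by simpa using hcy, by group⟩⟩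
  have h2 := Finset.card_le_card h1
  have h3 : (Finset.univ.filter fun y => y ∈ R).card = Nat.card R := by
    rw [Nat.card_eq_fintype_card, Fintype.card_subtype]
  have h4 : (Finset.univ.filter fun y => y ∈ Z).card = Nat.card Z := by
    rw [Nat.card_eq_fintype_card, Fintype.card_subtype]
  rw [h3] at h2
  refine h2.trans (Finset.card_biUnion_le.trans ?_)
  refine (Finset.sum_le_card_nsmul _ _ (Nat.card Z) fun c _ => ?_).trans (le_of_eq (smul_eq_mul _ _))
  exact Finset.card_image_le.trans h4.le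

/-- `g` normalises but does not centralise the 2-group `R`, and centralises the proper subgroups of `R` which it
normalises. -/
structure Min (r n : ℕ) (g : H) (R : Subgroup H) : Prop where
  two : IsPGroup 2 R
  odd : r ≠ 2
  pow : g ^ r ^ n = 1
  norm : g ∈ normalizer (R : Set H)
  ne : g ∉ centralizer (R : Set H)
  min : ∀ R₁ : Subgroup H, R₁ < R → g ∈ normalizer (R₁ : Set H) → g ∈ centralizer (R₁ : Set H)

namespace Min

variable {r n : ℕ} [hr : Fact r.Prime] {g : H} {R : Subgroup H} (h : Min r n g R)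
include h

theorem conj_mem {x : H} (hx : x ∈ R) : g * x * g⁻¹ ∈ R := (mem_normalizer_iff.mp h.norm x).mp hx

/-- elements normalising in one direction -/
theorem mem_normalizer_of {K : Subgroup H} (hK : ∀ x ∈ K, g * x * g⁻¹ ∈ K) : g ∈ normalizer (K : Set H) := by
  rw [mem_normalizer_iff]
  intro x
  refine ⟨hK x, fun hx => ?_⟩
  have hf : Function.Injective (fun k : K => (⟨g * k * g⁻¹, hK k k.2⟩ : K)) := by
    intro a b hab
    have := congrArg Subtype.val hab
    exact Subtype.ext (by simpa using this)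
  obtain ⟨k, hk⟩ := Finite.injective_iff_surjective.mp hf ⟨g * x * g⁻¹, hx⟩
  have hk' : g * (k : H) * g⁻¹ = g * x * g⁻¹ := congrArg Subtype.val hk
  have : (k : H) = x := by simpa using hk'
  rw [← this]; exact k.2

theorem comm_of_le {K : Subgroup H} (hK : K < R) (hn : ∀ x ∈ K, g * x * g⁻¹ ∈ K) {x : H} (hx : x ∈ K) :
    g * x = x * g :=
  ((mem_centralizer_iff.mp (h.min K hK (h.mem_normalizer_of hn))) x hx).symm

/-- if `y⁻¹ g y g⁻¹` commutes with `g`, then `y` commutes with `g` -/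
theorem fix {y : H} (hy : y ∈ R) (hd : g * (y⁻¹ * g * y * g⁻¹) = (y⁻¹ * g * y * g⁻¹) * g) : g * y = y * g := by
  set d := y⁻¹ * g * y * g⁻¹ with hdd
  have hdR : d ∈ R := by
    have : d = y⁻¹ * (g * y * g⁻¹) := by rw [hdd]; group
    rw [this]; exact mul_mem (inv_mem hy) (h.conj_mem hy)
  have hcomm : Commute d g := hd.symm
  have h1 : y⁻¹ * g * y = d * g := by rw [hdd]; group
  have h2 : (d * g) ^ r ^ n = 1 := by
    rw [← h1]
    have : (y⁻¹ * g * y) ^ r ^ n = y⁻¹ * g ^ r ^ n * y := by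
      have := conj_pow (i := r ^ n) (a := y⁻¹) (b := g)
      rwa [inv_inv] at this
    rw [this, h.pow]; group
  rw [hcomm.mul_pow, h.pow, mul_one] at h2
  have h3 : d = 1 := by
    obtain ⟨k, hk⟩ := h.two ⟨d, hdR⟩
    have hk' : d ^ 2 ^ k = 1 := by
      have := congrArg Subtype.val hk
      simpa using this
    have h4 : orderOf d ∣ Nat.gcd (r ^ n) (2 ^ k) :=
      Nat.dvd_gcd (orderOf_dvd_of_pow_eq_one h2) (orderOf_dvd_of_pow_eq_one hk')
    have h5 : Nat.Coprime (r ^ n) (2 ^ k) :=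
      Nat.Coprime.pow _ _ ((Nat.coprime_primes hr.out Nat.prime_two).mpr h.odd)
    rw [h5] at h4
    exact orderOf_eq_one_iff.mp (Nat.dvd_one.mp h4)
  rw [h3, one_mul] at h1
  have : g * y = y * (y⁻¹ * g * y) := by group
  rw [this, h1]

theorem exists_not_comm : ∃ y ∈ R, g * y ≠ y * g := by
  by_contra hcon
  push Not at hcon
  exact h.ne (mem_centralizer_iff.mpr fun y hy => (hcon y hy).symm)

/-- `C_R(g) ≤ Z(R)` -/
theorem central {x : H} (hx : x ∈ R) (hxg : g * x = x * g) {y : H} (hy : y ∈ R) : x * y = y * x := by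
  by_contra hcon
  -- the centralizer of `x` in `R` is proper
  set Cx : Subgroup H := R ⊓ centralizer {x} with hCx
  have hCxlt : Cx < R := by
    refine lt_of_le_of_ne inf_le_left fun he => hcon ?_
    have : y ∈ Cx := he ▸ hy
    exact ((mem_centralizer_singleton_iff.mp this.2)).symm
  have hgx : g * x * g⁻¹ = x := by rw [hxg]; group
  have hCxC : ∀ c ∈ Cx, g * c = c * g := by
    intro c hc
    refine h.comm_of_le hCxlt (fun w hw => mem_inf.mpr ⟨h.conj_mem hw.1, ?_⟩) hc
    rw [mem_centralizer_singleton_iff]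
    have h1 := mem_centralizer_singleton_iff.mp hw.2
    calc g * w * g⁻¹ * x = g * w * g⁻¹ * (g * x * g⁻¹) := by rw [hgx]
      _ = g * (w * x) * g⁻¹ := by group
      _ = g * (x * w) * g⁻¹ := by rw [h1]
      _ = (g * x * g⁻¹) * (g * w * g⁻¹) := by group
      _ = x * (g * w * g⁻¹) := by rw [hgx]
  -- the fixed subgroup
  set C : Subgroup H := R ⊓ centralizer {g} with hC
  have hCmem : ∀ {c : H}, c ∈ C ↔ c ∈ R ∧ g * c = c * g := by
    intro c
    rw [hC, mem_inf, mem_centralizer_singleton_iff]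
    exact and_congr_right fun _ => eq_comm
  have hCR : C.subgroupOf R < ⊤ := by
    refine lt_top_iff_ne_top.mpr fun he => ?_
    obtain ⟨w, hw, hwg⟩ := h.exists_not_comm
    have : (⟨w, hw⟩ : R) ∈ C.subgroupOf R := he ▸ mem_top _
    exact hwg (hCmem.mp (mem_subgroupOf.mp this)).2
  have hnc : NormalizerCondition R := by
    have := h.two.isNilpotent
    exact Group.normalizerCondition_of_isNilpotent
  have hlt := hnc _ hCR
  obtain ⟨⟨w, hwR⟩, hw1, hw2⟩ := SetLike.exists_of_lt hlt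
  have hw2' : w ∉ C := fun hw => hw2 (mem_subgroupOf.mpr hw)
  have hwn : ∀ c ∈ C, w * c * w⁻¹ ∈ C := by
    intro c hc
    have hcR : c ∈ R := (hCmem.mp hc).1
    have := (mem_normalizer_iff.mp hw1 ⟨c, hcR⟩).mp (mem_subgroupOf.mpr hc)
    exact mem_subgroupOf.mp this
  apply hw2'
  rw [hCmem]
  refine ⟨hwR, h.fix hwR ?_⟩
  apply hCxC
  refine mem_inf.mpr ⟨?_, ?_⟩
  · have : w⁻¹ * g * w * g⁻¹ = w⁻¹ * (g * w * g⁻¹) := by group
    rw [this]; exact mul_mem (inv_mem hwR) (h.conj_mem hwR)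
  · rw [mem_centralizer_singleton_iff]
    have h1 := (hCmem.mp (hwn x (hCmem.mpr ⟨hx, hxg⟩))).2
    -- `g (w x w⁻¹) = (w x w⁻¹) g`
    have h2 : (w⁻¹ * g * w) * x = x * (w⁻¹ * g * w) := by
      have : (w⁻¹ * g * w) * x = w⁻¹ * (g * (w * x * w⁻¹)) * w := by group
      rw [this, h1]; group
    have h3 : g⁻¹ * x = x * g⁻¹ := by
      rw [inv_mul_eq_iff_eq_mul, ← mul_assoc, hxg]; group
    calc w⁻¹ * g * w * g⁻¹ * x = w⁻¹ * g * w * (g⁻¹ * x) := by group
      _ = w⁻¹ * g * w * (x * g⁻¹) := by rw [h3]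
      _ = (w⁻¹ * g * w * x) * g⁻¹ := by group
      _ = x * (w⁻¹ * g * w) * g⁻¹ := by rw [h2]
      _ = x * (w⁻¹ * g * w * g⁻¹) := by group

theorem ne_bot : R ≠ ⊥ := by
  rintro rfl
  obtain ⟨y, hy, hyg⟩ := h.exists_not_comm
  rw [mem_bot] at hy
  subst hy
  exact hyg (by simp)

/-- squares commute with `g` -/
theorem sq_comm {x : H} (hx : x ∈ R) : g * (x * x) = (x * x) * g := by
  classical
  -- a subgroup of index 2
  obtain ⟨a, ha⟩ := IsPGroup.iff_card.mp h.two
  have ha0 : a ≠ 0 := by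
    rintro rfl
    rw [pow_zero] at ha
    exact h.ne_bot (card_eq_one.mp ha)
  obtain ⟨b, rfl⟩ := Nat.exists_eq_succ_of_ne_zero ha0
  obtain ⟨K, hK⟩ := Sylow.exists_subgroup_card_pow_prime (G := R) 2 (n := b)
    (by rw [ha]; exact pow_dvd_pow 2 (Nat.le_succ b))
  have hKi : K.index = 2 := by
    have := K.card_mul_index
    rw [hK, ha, pow_succ] at this
    exact Nat.eq_of_mul_eq_mul_left (by positivity) this
  set Sq : Subgroup H := closure {s | ∃ y ∈ R, s = y * y} with hSq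
  have hSqK : Sq ≤ K.map R.subtype := by
    rw [hSq, closure_le]
    rintro s ⟨y, hy, rfl⟩
    exact ⟨⟨y, hy⟩ * ⟨y, hy⟩, mul_self_mem_of_index_two hKi _, rfl⟩
  have hKlt : K.map R.subtype < R := by
    refine lt_of_le_of_ne (map_subtype_le K) fun he => ?_
    have h1 : Nat.card (K.map R.subtype) = Nat.card K := card_map_of_injective R.subtype_injective
    rw [he, hK, ha] at h1
    have : 2 ^ b < 2 ^ (b + 1) := Nat.pow_lt_pow_right (by norm_num) (Nat.lt_succ_self b)
    simp only [Nat.succ_eq_add_one] at h1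
    omega
  refine h.comm_of_le (lt_of_le_of_lt hSqK hKlt) ?_ (subset_closure ⟨x, hx, rfl⟩)
  intro w hw
  rw [hSq] at hw
  induction hw using closure_induction with
  | mem s hs =>
    obtain ⟨y, hy, rfl⟩ := hs
    refine subset_closure ⟨g * y * g⁻¹, h.conj_mem hy, by group⟩
  | one => simp
  | mul a b _ _ ha hb =>
    have : g * (a * b) * g⁻¹ = (g * a * g⁻¹) * (g * b * g⁻¹) := by group
    rw [this]; exact mul_mem ha hb
  | inv a _ ha =>
    have : g * a⁻¹ * g⁻¹ = (g * a * g⁻¹)⁻¹ := by group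
    rw [this]; exact inv_mem ha

theorem sq_central {x y : H} (hx : x ∈ R) (hy : y ∈ R) : (x * x) * y = y * (x * x) :=
  h.central (mul_mem hx hx) (h.sq_comm hx) hy

/-- the abelian case -/
theorem sq_one (hab : ∀ x ∈ R, ∀ y ∈ R, x * y = y * x) {x : H} (hx : x ∈ R) : x * x = 1 := by
  by_contra hx2
  let Om : Subgroup H :=
    { carrier := {y | y ∈ R ∧ y * y = 1}
      one_mem' := ⟨one_mem R, by simp⟩
      mul_mem' := by
        rintro a b ⟨ha, ha2⟩ ⟨hb, hb2⟩
        refine ⟨mul_mem ha hb, ?_⟩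
        calc a * b * (a * b) = a * (b * a) * b := by group
          _ = a * (a * b) * b := by rw [hab b hb a ha]
          _ = (a * a) * (b * b) := by group
          _ = 1 := by rw [ha2, hb2, one_mul]
      inv_mem' := by
        rintro a ⟨ha, ha2⟩
        refine ⟨inv_mem ha, ?_⟩
        rw [← mul_inv_rev, ha2, inv_one] }
  have hOm : ∀ {y}, y ∈ Om ↔ y ∈ R ∧ y * y = 1 := Iff.rfl
  have hlt : Om < R := by
    refine lt_of_le_of_ne (fun y hy => (hOm.mp hy).1) fun he => hx2 ?_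
    have : x ∈ Om := he ▸ hx
    exact (hOm.mp this).2
  have hfix : ∀ y ∈ Om, g * y = y * g := fun y hy => h.comm_of_le hlt (fun w hw => by
    rw [hOm] at hw ⊢
    refine ⟨h.conj_mem hw.1, ?_⟩
    calc g * w * g⁻¹ * (g * w * g⁻¹) = g * (w * w) * g⁻¹ := by group
      _ = 1 := by rw [hw.2]; group) hy
  obtain ⟨y, hy, hyg⟩ := h.exists_not_comm
  apply hyg
  apply h.fix hy
  apply hfix
  rw [hOm]
  have h1 : y⁻¹ * g * y * g⁻¹ = y⁻¹ * (g * y * g⁻¹) := by group
  have hc := h.conj_mem hy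
  refine ⟨by rw [h1]; exact mul_mem (inv_mem hy) hc, ?_⟩
  rw [h1]
  have h2 := hab _ (inv_mem hy) _ hc
  calc y⁻¹ * (g * y * g⁻¹) * (y⁻¹ * (g * y * g⁻¹))
      = y⁻¹ * ((g * y * g⁻¹) * y⁻¹) * (g * y * g⁻¹) := by group
    _ = y⁻¹ * (y⁻¹ * (g * y * g⁻¹)) * (g * y * g⁻¹) := by rw [h2]
    _ = (y * y)⁻¹ * (g * (y * y) * g⁻¹) := by group
    _ = (y * y)⁻¹ * (y * y) := by rw [h.sq_comm hy]; group
    _ = 1 := by group

/-- the centre of `R`, as a subgroup of `H` -/
theorem center_comm (hna : ¬ ∀ x ∈ R, ∀ y ∈ R, x * y = y * x) {x : H} (hx : x ∈ R)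
    (hxc : ∀ y ∈ R, x * y = y * x) : g * x = x * g := by
  set Z : Subgroup H := R ⊓ centralizer (R : Set H) with hZ
  have hZm : ∀ {w : H}, w ∈ Z ↔ w ∈ R ∧ ∀ y ∈ R, w * y = y * w := by
    intro w
    rw [hZ, mem_inf, mem_centralizer_iff]
    exact and_congr_right fun _ => ⟨fun h y hy => (h y hy).symm, fun h y hy => (h y hy).symm⟩
  have hlt : Z < R := by
    refine lt_of_le_of_ne inf_le_left fun he => hna fun a ha b hb => ?_
    have : a ∈ Z := he ▸ ha
    exact (hZm.mp this).2 b hb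
  refine h.comm_of_le hlt (fun w hw => ?_) (hZm.mpr ⟨hx, hxc⟩)
  rw [hZm] at hw ⊢
  refine ⟨h.conj_mem hw.1, fun y hy => ?_⟩
  have h1 : g⁻¹ * y * g ∈ R := by
    have := (mem_normalizer_iff.mp (inv_mem h.norm) y).mp hy
    rwa [inv_inv] at this
  have h2 := hw.2 _ h1
  calc g * w * g⁻¹ * y = g * (w * (g⁻¹ * y * g)) * g⁻¹ := by group
    _ = g * ((g⁻¹ * y * g) * w) * g⁻¹ := by rw [h2]
    _ = y * (g * w * g⁻¹) := by group

/-- if `R` is not abelian, it is not covered by four cosets of its centre -/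
theorem not_cover (h5 : 5 ≤ r) (hna : ¬ ∀ x ∈ R, ∀ y ∈ R, x * y = y * x) (S : Finset H) (hS : S.card ≤ 4)
    (hcov : ∀ y ∈ R, ∃ c ∈ S, c⁻¹ * y ∈ R ∧ ∀ w ∈ R, c⁻¹ * y * w = w * (c⁻¹ * y)) : False := by
  classical
  set Z : Subgroup H := R ⊓ centralizer (R : Set H) with hZ
  have hZm : ∀ {w : H}, w ∈ Z ↔ w ∈ R ∧ ∀ y ∈ R, w * y = y * w := by
    intro w
    rw [hZ, mem_inf, mem_centralizer_iff]
    exact and_congr_right fun _ => ⟨fun h y hy => (h y hy).symm, fun h y hy => (h y hy).symm⟩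
  have h1 : Nat.card R ≤ 4 * Nat.card Z :=
    (card_le_of_cover R Z S fun y hy => by
      obtain ⟨c, hc, h1, h2⟩ := hcov y hy
      exact ⟨c, hc, hZm.mpr ⟨h1, h2⟩⟩).trans (Nat.mul_le_mul_right _ hS)
  have h2 := count h.pow (R : Set H) (fun y hy => h.conj_mem hy)
  have h3 : Nat.card {y : H // y ∈ (R : Set H) ∧ g * y = y * g} = Nat.card Z := by
    refine Nat.card_congr (Equiv.subtypeEquivRight fun y => ?_)
    rw [hZm]
    refine and_congr_right fun hy => ⟨fun hg w hw => h.central hy hg hw, fun hc => h.center_comm hna hy hc⟩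
  rw [h3] at h2
  have h2' : Nat.card R ≡ Nat.card Z [MOD r] := h2
  have hZR : Nat.card Z ∣ Nat.card R := card_dvd_of_le inf_le_left
  obtain ⟨c, hc⟩ := hZR
  have hZpos : 0 < Nat.card Z := Nat.card_pos
  have hc4 : c ≤ 4 := by
    rw [hc, mul_comm] at h1
    exact Nat.le_of_mul_le_mul_right h1 hZpos
  obtain ⟨a, ha⟩ := IsPGroup.iff_card.mp h.two
  have hcd : c ∣ 2 ^ a := by rw [← ha, hc]; exact Dvd.intro_left _ rfl
  have hZd : Nat.card Z ∣ 2 ^ a := by rw [← ha, hc]; exact Dvd.intro _ rfl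
  have hc0 : c ≠ 0 := by
    rintro rfl
    rw [mul_zero] at hc
    exact Nat.card_pos.ne' hc
  have hc1 : c ≠ 1 := by
    rintro rfl
    rw [mul_one] at hc
    apply hna
    have : Z = R := eq_of_le_of_card_ge inf_le_left hc.le
    intro x hx y hy
    exact (hZm.mp (this ▸ hx : x ∈ Z)).2 y hy
  -- `r ∣ (c - 1) |Z|`
  have h4 : r ∣ (c - 1) * Nat.card Z := by
    have h5 := (Nat.modEq_iff_dvd' (by rw [hc]; exact Nat.le_mul_of_pos_right _ (Nat.pos_of_ne_zero hc0))).mp h2'.symm
    rw [hc] at h5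
    have : Nat.card Z * c - Nat.card Z = (c - 1) * Nat.card Z := by
      rw [Nat.sub_mul, one_mul, mul_comm]
    rwa [this] at h5
  rcases (hr.out.dvd_mul).mp h4 with h5' | h5'
  · have := Nat.le_of_dvd (by omega) h5'
    omega
  · have h6 := hr.out.dvd_of_dvd_pow (h5'.trans hZd)
    have := (Nat.prime_dvd_prime_iff_eq hr.out Nat.prime_two).mp h6
    omega

end Min

end Cfsg.Agent.H556.GTwoNil
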