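import Cfsg.Agent.H556.GTwoNilAbs
import Cfsg.Agent.ClassificationK.GTwoModel

/-!
# Minimal non-trivial actions on subgroups of the Sylow 2-subgroup of `G₂(q)` (helper556)

`eight` : a minimal non-trivial action of an `r`-element (`r ≥ 5`) on a 2-group `R` which embeds in the model group
`T (2 l)` occurs only for `R` elementary abelian of order 8.
-/

set_option autoImplicit false
set_option linter.unusedSectionVars false

namespace Cfsg.Agent.H556.GTwoNil

open Subgroup Cfsg.Agent.ClassificationK.GTwoModel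

variable {H : Type*} [Group H] [Finite H]

section T

variable {m : ℕ}

theorem mul_i (x y : T m) : (x * y).i = x.i + sg m x.e * (cond x.d y.j y.i) := rfl
theorem mul_j (x y : T m) : (x * y).j = x.j + sg m x.e * (cond x.d y.i y.j) := rfl
theorem mul_e (x y : T m) : (x * y).e = xor x.e y.e := rfl
theorem mul_d (x y : T m) : (x * y).d = xor x.d y.d := rfl
theorem inv_e (x : T m) : (x⁻¹).e = x.e := rfl
theorem inv_d (x : T m) : (x⁻¹).d = x.d := rfl

theorem sg_sq (e : Bool) : sg m e * sg m e = 1 := by cases e <;> simp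

/-- the abelian normal subgroup -/
def IsA (x : T m) : Prop := x.e = false ∧ x.d = false
/-- the inverting involutions -/
def IsI (x : T m) : Prop := x.e = true ∧ x.d = false

theorem IsA.mul_comm {x y : T m} (hx : IsA x) (hy : IsA y) : x * y = y * x := by
  obtain ⟨i, j, e, d⟩ := x
  obtain ⟨i', j', e', d'⟩ := y
  obtain ⟨h1, h2⟩ := hx
  obtain ⟨h3, h4⟩ := hy
  dsimp only at h1 h2 h3 h4
  subst h1 h2 h3 h4
  simp only [T.mul_mk, sg_false, cond_false, Bool.xor_false]
  congr 1 <;> ring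

theorem IsA.mul {x y : T m} (hx : IsA x) (hy : IsA y) : IsA (x * y) := by
  refine ⟨?_, ?_⟩
  · rw [mul_e, hx.1, hy.1]; rfl
  · rw [mul_d, hx.2, hy.2]; rfl

theorem IsA.inv {x : T m} (hx : IsA x) : IsA x⁻¹ := ⟨by rw [inv_e]; exact hx.1, by rw [inv_d]; exact hx.2⟩

theorem IsA.sq {x : T m} (hx : IsA x) : x * x = ⟨x.i + x.i, x.j + x.j, false, false⟩ := by
  obtain ⟨i, j, e, d⟩ := x
  obtain ⟨h1, h2⟩ := hx
  dsimp only at h1 h2
  subst h1 h2
  simp only [T.mul_mk, sg_false, cond_false, Bool.xor_false, one_mul]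

theorem IsA.sq_one_iff {x : T m} (hx : IsA x) : x * x = 1 ↔ x.i + x.i = 0 ∧ x.j + x.j = 0 := by
  rw [hx.sq, T.one_def, T.mk.injEq]
  simp

theorem IsI.sq {x : T m} (hx : IsI x) : x * x = 1 := by
  obtain ⟨i, j, e, d⟩ := x
  obtain ⟨h1, h2⟩ := hx
  dsimp only at h1 h2
  subst h1 h2
  simp [T.mul_mk, T.one_def]

/-- `u`-type elements -/
theorem sq_of_d {x : T m} (hd : x.d = true) :
    x * x = ⟨x.i + sg m x.e * x.j, x.j + sg m x.e * x.i, false, false⟩ := by
  obtain ⟨i, j, e, d⟩ := x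
  dsimp only at hd
  subst hd
  simp [T.mul_mk]

theorem sq_one_iff_of_d {x : T m} (hd : x.d = true) : x * x = 1 ↔ x.i + sg m x.e * x.j = 0 := by
  rw [sq_of_d hd, T.one_def, T.mk.injEq]
  constructor
  · exact fun h => h.1
  · intro h
    refine ⟨h, ?_, rfl, rfl⟩
    have h2 := sg_sq (m := m) x.e
    linear_combination (sg m x.e) * h - x.j * h2

/-- an `A`-element commuting with an inverting element has order at most 2 -/
theorem IsA.comm_I_iff {x s : T m} (hx : IsA x) (hs : IsI s) : x * s = s * x ↔ x * x = 1 := by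
  rw [hx.sq_one_iff]
  obtain ⟨i, j, e, d⟩ := x
  obtain ⟨a, b, e', d'⟩ := s
  obtain ⟨h1, h2⟩ := hx
  obtain ⟨h3, h4⟩ := hs
  dsimp only at h1 h2 h3 h4
  subst h1 h2 h3 h4
  simp only [T.mul_mk, sg_false, sg_true, cond_false, Bool.xor_false, one_mul, T.mk.injEq, Bool.xor_true,
    Bool.not_false, and_true]
  constructor
  · rintro ⟨h1, h2⟩
    exact ⟨by linear_combination h1, by linear_combination h2⟩
  · rintro ⟨h1, h2⟩
    exact ⟨by linear_combination h1, by linear_combination h2⟩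

/-- an `A`-element commuting with a `u`-type element -/
theorem IsA.comm_U_iff {x s : T m} (hx : IsA x) (hs : s.d = true) : x * s = s * x ↔ x.i = sg m s.e * x.j := by
  obtain ⟨i, j, e, d⟩ := x
  obtain ⟨a, b, e', d'⟩ := s
  obtain ⟨h1, h2⟩ := hx
  dsimp only at h1 h2 hs
  subst h1 h2 hs
  have h3 := sg_sq (m := m) e'
  simp only [T.mul_mk, sg_false, cond_false, cond_true, one_mul, T.mk.injEq, Bool.false_xor, Bool.xor_false,
    and_true, Bool.xor_true, Bool.not_false]
  constructor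
  · rintro ⟨h1, h2⟩
    linear_combination h1
  · intro h1
    exact ⟨by linear_combination h1, by linear_combination (-(sg m e')) * h1 - j * h3⟩

theorem neg_half (l : ℕ) : -(l : ZMod (2 * l)) = (l : ZMod (2 * l)) := by
  have := half_add_half l
  linear_combination -this

theorem sg_half (l : ℕ) (e : Bool) : sg (2 * l) e * (l : ZMod (2 * l)) = (l : ZMod (2 * l)) := by
  cases e
  · simp
  · rw [sg_true, neg_one_mul, neg_half]

end T

/-- `f` is an injective homomorphism on `R` -/
structure Emb (R : Subgroup H) (l : ℕ) (f : H → T (2 * l)) : Prop where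
  mul : ∀ x ∈ R, ∀ y ∈ R, f (x * y) = f x * f y
  inj : ∀ x ∈ R, ∀ y ∈ R, f x = f y → x = y

namespace Emb

variable {R : Subgroup H} {l : ℕ} {f : H → T (2 * l)} (E : Emb R l f)
include E

theorem one : f 1 = 1 := by
  have := E.mul 1 (one_mem R) 1 (one_mem R)
  rw [mul_one] at this
  exact left_eq_mul.mp this

theorem inv {x : H} (hx : x ∈ R) : f x⁻¹ = (f x)⁻¹ := by
  have := E.mul x⁻¹ (inv_mem hx) x hx
  rw [inv_mul_cancel, E.one] at this
  exact eq_inv_of_mul_eq_one_left this.symm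

theorem comm_iff {x y : H} (hx : x ∈ R) (hy : y ∈ R) : x * y = y * x ↔ f x * f y = f y * f x := by
  rw [← E.mul x hx y hy, ← E.mul y hy x hx]
  exact ⟨fun h => by rw [h], fun h => E.inj _ (mul_mem hx hy) _ (mul_mem hy hx) h⟩

theorem eq_one_iff {x : H} (hx : x ∈ R) : x = 1 ↔ f x = 1 :=
  ⟨fun h => by rw [h, E.one], fun h => E.inj x hx 1 (one_mem R) (by rw [h, E.one])⟩

theorem sq_iff {x : H} (hx : x ∈ R) : x * x = 1 ↔ f x * f x = 1 := by
  rw [E.eq_one_iff (mul_mem hx hx), E.mul x hx x hx]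

theorem mono {R₁ : Subgroup H} (h : R₁ ≤ R) : Emb R₁ l f :=
  ⟨fun x hx y hy => E.mul x (h hx) y (h hy), fun x hx y hy => E.inj x (h hx) y (h hy)⟩

end Emb

section

variable {r n : ℕ} [hr : Fact r.Prime] {g : H} {R : Subgroup H} {l : ℕ} [NeZero l] {f : H → T (2 * l)}

/-- if the squares of all elements are trivial, the group is abelian -/
theorem comm_of_sq (h : ∀ x ∈ R, x * x = 1) : ∀ x ∈ R, ∀ y ∈ R, x * y = y * x := by
  intro x hx y hy
  have h1 : x⁻¹ = x := inv_eq_of_mul_eq_one_left (h x hx)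
  have h2 : y⁻¹ = y := inv_eq_of_mul_eq_one_left (h y hy)
  have h3 : (x * y)⁻¹ = x * y := inv_eq_of_mul_eq_one_left (h _ (mul_mem hx hy))
  rw [mul_inv_rev, h1, h2] at h3
  exact h3.symm

/-- case (a): no inverting element -/
theorem case_a (h : Min r n g R) (h5 : 5 ≤ r) (E : Emb R l f)
    (hna : ¬ ∀ x ∈ R, ∀ y ∈ R, x * y = y * x) (hI : ∀ x ∈ R, ¬ IsI (f x)) : False := by
  classical
  -- an element of `u`-type
  obtain ⟨s, hs, hsd⟩ : ∃ s ∈ R, (f s).d = true := by
    by_contra hcon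
    push Not at hcon
    apply hna
    have hA : ∀ x ∈ R, IsA (f x) := by
      intro x hx
      have h1 : (f x).d = false := by
        cases h2 : (f x).d
        · rfl
        · exact absurd h2 (hcon x hx)
      refine ⟨?_, h1⟩
      cases h2 : (f x).e
      · rfl
      · exact absurd ⟨h2, h1⟩ (hI x hx)
    intro x hx y hy
    exact (E.comm_iff hx hy).mpr ((hA x hx).mul_comm (hA y hy))
  -- the types
  have htype : ∀ x ∈ R, IsA (f x) ∨ IsA (f (s⁻¹ * x)) := by
    intro x hx
    have hA : ∀ y ∈ R, (f y).d = false → IsA (f y) := by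
      intro y hy h1
      refine ⟨?_, h1⟩
      cases h2 : (f y).e
      · rfl
      · exact absurd ⟨h2, h1⟩ (hI y hy)
    cases h1 : (f x).d
    · exact Or.inl (hA x hx h1)
    · right
      refine hA _ (mul_mem (inv_mem hs) hx) ?_
      rw [E.mul _ (inv_mem hs) _ hx, E.inv hs, mul_d, inv_d, hsd, h1]
      rfl
  -- an `A`-element commuting with `s` is central
  have hcen : ∀ x ∈ R, IsA (f x) → (f x).i = sg (2 * l) (f s).e * (f x).j → ∀ w ∈ R, x * w = w * x := by
    intro x hx hxA hxs w hw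
    have h1 : x * s = s * x := (E.comm_iff hx hs).mpr ((hxA.comm_U_iff hsd).mpr hxs)
    rcases htype w hw with hwA | hwA
    · exact (E.comm_iff hx hw).mpr (hxA.mul_comm hwA)
    · have hsw : s⁻¹ * w ∈ R := mul_mem (inv_mem hs) hw
      have h2 : x * (s⁻¹ * w) = (s⁻¹ * w) * x := (E.comm_iff hx hsw).mpr (hxA.mul_comm hwA)
      calc x * w = (x * s) * (s⁻¹ * w) := by group
        _ = s * (x * (s⁻¹ * w)) := by rw [h1]; group
        _ = s * ((s⁻¹ * w) * x) := by rw [h2]
        _ = w * x := by group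
  -- `δ`
  have hdel : ∀ x ∈ R, IsA (f x) → (f x).i - sg (2 * l) (f s).e * (f x).j = 0 ∨
      (f x).i - sg (2 * l) (f s).e * (f x).j = (l : ZMod (2 * l)) := by
    intro x hx hxA
    apply two_half
    have h1 := (E.comm_iff (mul_mem hx hx) hs).mp (h.sq_central hx hs)
    rw [E.mul x hx x hx] at h1
    have h2 := ((hxA.mul hxA).comm_U_iff hsd).mp h1
    rw [hxA.sq] at h2
    dsimp only at h2
    linear_combination h2
  obtain ⟨x0, hx0, hx0A, hx0'⟩ : ∃ x0 ∈ R, IsA (f x0) ∧ ∀ x ∈ R, IsA (f x) →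
      (f x).i = sg (2 * l) (f s).e * (f x).j ∨ (f (x0⁻¹ * x)).i = sg (2 * l) (f s).e * (f (x0⁻¹ * x)).j := by
    by_cases hex : ∃ x0 ∈ R, IsA (f x0) ∧ (f x0).i - sg (2 * l) (f s).e * (f x0).j = (l : ZMod (2 * l))
    · obtain ⟨x0, hx0, hx0A, hx0d⟩ := hex
      refine ⟨x0, hx0, hx0A, fun x hx hxA => ?_⟩
      rcases hdel x hx hxA with h1 | h1
      · left; linear_combination h1
      · right
        rw [E.mul _ (inv_mem hx0) _ hx, E.inv hx0]
        have h2 : (f x0)⁻¹ = ⟨-(f x0).i, -(f x0).j, false, false⟩ := by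
          obtain ⟨h3, h4⟩ := hx0A
          rw [show f x0 = ⟨(f x0).i, (f x0).j, false, false⟩ by
            rw [T.ext_iff]; exact ⟨rfl, rfl, h3, h4⟩, T.inv_mk]
          simp
        rw [h2, mul_i, mul_j]
        simp only [sg_false, cond_false, one_mul]
        linear_combination h1 - hx0d
    · refine ⟨1, one_mem R, by rw [E.one]; exact ⟨rfl, rfl⟩, fun x hx hxA => Or.inl ?_⟩
      rcases hdel x hx hxA with h1 | h1
      · linear_combination h1
      · exact absurd ⟨x, hx, hxA, h1⟩ hex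
  refine h.not_cover h5 hna {1, x0, s, s * x0} (Finset.card_le_four) ?_
  -- the covering
  have key : ∀ y ∈ R, IsA (f y) → ∃ c, (c = 1 ∨ c = x0) ∧ c⁻¹ * y ∈ R ∧ ∀ w ∈ R, c⁻¹ * y * w = w * (c⁻¹ * y) := by
    intro y hy hyA
    rcases hx0' y hy hyA with h1 | h1
    · refine ⟨1, Or.inl rfl, by simpa using hy, ?_⟩
      intro w hw
      simpa using hcen y hy hyA h1 w hw
    · have h2 : x0⁻¹ * y ∈ R := mul_mem (inv_mem hx0) hy
      have h3 : IsA (f (x0⁻¹ * y)) := by
        rw [E.mul _ (inv_mem hx0) _ hy, E.inv hx0]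
        exact hx0A.inv.mul hyA
      exact ⟨x0, Or.inr rfl, h2, hcen _ h2 h3 h1⟩
  intro y hy
  rcases htype y hy with hyA | hyA
  · obtain ⟨c, hc, h1, h2⟩ := key y hy hyA
    refine ⟨c, ?_, h1, h2⟩
    rcases hc with rfl | rfl <;> simp
  · obtain ⟨c, hc, h1, h2⟩ := key _ (mul_mem (inv_mem hs) hy) hyA
    refine ⟨s * c, ?_, ?_, ?_⟩
    · rcases hc with rfl | rfl <;> simp
    · have : (s * c)⁻¹ * y = c⁻¹ * (s⁻¹ * y) := by group
      rw [this]; exact h1
    · have : (s * c)⁻¹ * y = c⁻¹ * (s⁻¹ * y) := by group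
      rw [this]; exact h2

/-- case (b1): inverting elements, but no `u`-type elements -/
theorem case_b1 (h : Min r n g R) (E : Emb R l f)
    (hna : ¬ ∀ x ∈ R, ∀ y ∈ R, x * y = y * x) {s : H} (hs : s ∈ R) (hsI : IsI (f s))
    (hd : ∀ x ∈ R, (f x).d = false) : False := by
  have htype : ∀ x ∈ R, x * x ≠ 1 → IsA (f x) := by
    intro x hx hx2
    refine ⟨?_, hd x hx⟩
    cases h1 : (f x).e
    · rfl
    · exact absurd ((E.sq_iff hx).mpr (IsI.sq ⟨h1, hd x hx⟩)) hx2
  obtain ⟨y0, hy0, hy02⟩ : ∃ y ∈ R, y * y ≠ 1 := by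
    by_contra hcon
    push Not at hcon
    exact hna (comm_of_sq hcon)
  have hy0A := htype y0 hy0 hy02
  let D : Subgroup H :=
    { carrier := {x | x ∈ R ∧ IsA (f x)}
      one_mem' := ⟨one_mem R, by rw [E.one]; exact ⟨rfl, rfl⟩⟩
      mul_mem' := by
        rintro a b ⟨ha, ha2⟩ ⟨hb, hb2⟩
        exact ⟨mul_mem ha hb, by rw [E.mul a ha b hb]; exact ha2.mul hb2⟩
      inv_mem' := by
        rintro a ⟨ha, ha2⟩
        exact ⟨inv_mem ha, by rw [E.inv ha]; exact ha2.inv⟩ }
  have hD : ∀ {x}, x ∈ D ↔ x ∈ R ∧ IsA (f x) := Iff.rfl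
  have hlt : D < R := by
    refine lt_of_le_of_ne (fun y hy => (hD.mp hy).1) fun he => ?_
    have h1 : s ∈ D := he ▸ hs
    have h2 := (hD.mp h1).2.1
    rw [hsI.1] at h2
    exact Bool.noConfusion h2
  have hconjsq : ∀ x, x * x ≠ 1 → (g * x * g⁻¹) * (g * x * g⁻¹) ≠ 1 := by
    intro x hx h1
    apply hx
    have h2 : g * x * g⁻¹ * (g * x * g⁻¹) = g * (x * x) * g⁻¹ := by group
    rw [h2] at h1
    exact conj_eq_one_iff.mp h1
  have hYD : ∀ x ∈ R, x * x ≠ 1 → g * x * g⁻¹ ∈ D := fun x hx hx2 =>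
    hD.mpr ⟨h.conj_mem hx, htype _ (h.conj_mem hx) (hconjsq x hx2)⟩
  have hnorm : ∀ x ∈ D, g * x * g⁻¹ ∈ D := by
    intro x hx
    obtain ⟨hxR, hxA⟩ := hD.mp hx
    by_cases hx2 : x * x = 1
    · -- multiply by `y0`
      have hc : x * y0 = y0 * x := (E.comm_iff hxR hy0).mpr (hxA.mul_comm hy0A)
      have h1 : (x * y0) * (x * y0) ≠ 1 := by
        intro h2
        apply hy02
        have h3 : (x * y0) * (x * y0) = (x * x) * (y0 * y0) := by
          calc (x * y0) * (x * y0) = x * (y0 * x) * y0 := by group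
            _ = x * (x * y0) * y0 := by rw [hc]
            _ = (x * x) * (y0 * y0) := by group
        rw [h3, hx2, one_mul] at h2
        exact h2
      have h2 := hYD _ (mul_mem hxR hy0) h1
      have h3 := hYD _ hy0 hy02
      have h4 : g * x * g⁻¹ = (g * (x * y0) * g⁻¹) * (g * y0 * g⁻¹)⁻¹ := by group
      rw [h4]
      exact mul_mem h2 (inv_mem h3)
    · exact hYD x hxR hx2
  have hg := h.comm_of_le hlt hnorm (hD.mpr ⟨hy0, hy0A⟩)
  have h1 := h.central hy0 hg hs
  have h2 := (hy0A.comm_I_iff hsI).mp ((E.comm_iff hy0 hs).mp h1)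
  exact hy02 ((E.sq_iff hy0).mpr h2)

/-- toggling -/
theorem toggle [Fintype H] [DecidableEq H] (V : Finset H) (P : H → Prop) [DecidablePred P] (w : H)
    (h1 : ∀ x ∈ V, w * x ∈ V) (h2 : ∀ x ∈ V, w⁻¹ * x ∈ V) (h3 : ∀ x ∈ V, P (w * x) ↔ ¬ P x) :
    2 * (V.filter P).card = V.card := by
  have h4 : (V.filter P).card = (V.filter fun x => ¬ P x).card := by
    refine Finset.card_bij (fun x _ => w * x) ?_ ?_ ?_
    · intro x hx
      rw [Finset.mem_filter] at hx ⊢
      refine ⟨h1 x hx.1, fun h => (h3 x hx.1).mp h hx.2⟩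
    · intro x _ y _ hxy
      exact mul_left_cancel hxy
    · intro y hy
      rw [Finset.mem_filter] at hy
      refine ⟨w⁻¹ * y, ?_, by group⟩
      rw [Finset.mem_filter]
      refine ⟨h2 y hy.1, ?_⟩
      by_contra hcon
      have := (h3 _ (h2 y hy.1)).mpr hcon
      rw [mul_inv_cancel_left] at this
      exact hy.2 this
  have h5 := Finset.card_filter_add_card_filter_not (s := V) P
  omega

set_option maxHeartbeats 1000000 in
/-- case (b2): there are an inverting element `s` and a `u`-type element -/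
theorem case_b2 (h : Min r n g R) (h5 : 5 ≤ r) (E : Emb R l f)
    (hna : ¬ ∀ x ∈ R, ∀ y ∈ R, x * y = y * x) {s : H} (hs : s ∈ R) (hsI : IsI (f s))
    {u : H} (hu : u ∈ R) (hud : (f u).d = true) : False := by
  classical
  have : Fintype H := Fintype.ofFinite H
  -- the elements of `D`
  have hDdbl : ∀ x ∈ R, IsA (f x) → ((f x).i + (f x).i = 0 ∨ (f x).i + (f x).i = (l : ZMod (2 * l))) ∧
      (f x).j + (f x).j = (f x).i + (f x).i := by
    intro x hx hxA
    have h1 := (E.comm_iff (mul_mem hx hx) hs).mp (h.sq_central hx hs)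
    have h2 := (E.comm_iff (mul_mem hx hx) hu).mp (h.sq_central hx hu)
    rw [E.mul x hx x hx] at h1 h2
    have h3 := ((hxA.mul hxA).comm_I_iff hsI).mp h1
    rw [(hxA.mul hxA).sq_one_iff, hxA.sq] at h3
    have h4 := ((hxA.mul hxA).comm_U_iff hud).mp h2
    rw [hxA.sq] at h4
    dsimp only at h3 h4
    refine ⟨two_half l _ h3.1, ?_⟩
    rcases two_half l _ h3.2 with h5 | h5
    · rw [h5, mul_zero] at h4
      rw [h4, h5]
    · rw [h5, sg_half] at h4
      rw [h4, h5]
  -- an element with nontrivial square does not commute with `g`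
  have hfree : ∀ y ∈ R, y * y ≠ 1 → g * y ≠ y * g := by
    intro y hy hy2 hyg
    have hyc : ∀ w ∈ R, y * w = w * y := fun w hw => h.central hy hyg hw
    have hyd : (f y).d = true := by
      cases hd : (f y).d
      · exfalso
        apply hy2
        rw [E.sq_iff hy]
        cases he : (f y).e
        · exact (IsA.comm_I_iff ⟨he, hd⟩ hsI).mp ((E.comm_iff hy hs).mp (hyc s hs))
        · exact IsI.sq ⟨he, hd⟩
      · rfl
    -- elements of `D` commute with `y`
    have hsq_cen : ∀ w ∈ R, IsA (f w) → w * w = 1 → ∀ v ∈ R, w * v = v * w := by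
      intro w hw hwA hw2 v hv
      have hws : w * s = s * w := (E.comm_iff hw hs).mpr ((hwA.comm_I_iff hsI).mpr ((E.sq_iff hw).mp hw2))
      have hwy : w * y = y * w := (hyc w hw).symm
      -- `D`-elements commute with `w`
      have hD : ∀ v ∈ R, IsA (f v) → w * v = v * w := fun v hv hvA =>
        (E.comm_iff hw hv).mpr (hwA.mul_comm hvA)
      have hd : ∀ v ∈ R, (f v).d = false → w * v = v * w := by
        intro v hv hvd
        cases he : (f v).e
        · exact hD v hv ⟨he, hvd⟩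
        · have h1 : IsA (f (s⁻¹ * v)) := by
            rw [E.mul _ (inv_mem hs) _ hv, E.inv hs]
            refine ⟨?_, ?_⟩
            · rw [mul_e, inv_e, hsI.1, he]; rfl
            · rw [mul_d, inv_d, hsI.2, hvd]; rfl
          have h2 := hD _ (mul_mem (inv_mem hs) hv) h1
          calc w * v = (w * s) * (s⁻¹ * v) := by group
            _ = s * (w * (s⁻¹ * v)) := by rw [hws]; group
            _ = s * ((s⁻¹ * v) * w) := by rw [h2]
            _ = v * w := by group
      cases hvd : (f v).d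
      · exact hd v hv hvd
      · have h1 : (f (y⁻¹ * v)).d = false := by
          rw [E.mul _ (inv_mem hy) _ hv, E.inv hy, mul_d, inv_d, hyd, hvd]; rfl
        have h2 := hd _ (mul_mem (inv_mem hy) hv) h1
        calc w * v = (w * y) * (y⁻¹ * v) := by group
          _ = y * (w * (y⁻¹ * v)) := by rw [hwy]; group
          _ = y * ((y⁻¹ * v) * w) := by rw [h2]
          _ = v * w := by group
    -- the element `x0`
    obtain ⟨x0, hx0, hx0A, hx0'⟩ : ∃ x0 ∈ R, IsA (f x0) ∧ ∀ x ∈ R, IsA (f x) →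
        x * x = 1 ∨ (x0⁻¹ * x) * (x0⁻¹ * x) = 1 := by
      by_cases hex : ∃ x0 ∈ R, IsA (f x0) ∧ x0 * x0 ≠ 1
      · obtain ⟨x0, hx0, hx0A, hx02⟩ := hex
        refine ⟨x0, hx0, hx0A, fun x hx hxA => ?_⟩
        by_cases hx2 : x * x = 1
        · exact Or.inl hx2
        · right
          have hA : IsA (f (x0⁻¹ * x)) := by
            rw [E.mul _ (inv_mem hx0) _ hx, E.inv hx0]; exact hx0A.inv.mul hxA
          rw [E.sq_iff (mul_mem (inv_mem hx0) hx), hA.sq_one_iff]
          have h1 : f (x0⁻¹ * x) = ⟨(f x).i - (f x0).i, (f x).j - (f x0).j, false, false⟩ := by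
            rw [E.mul _ (inv_mem hx0) _ hx, E.inv hx0]
            have h2 : (f x0)⁻¹ = ⟨-(f x0).i, -(f x0).j, false, false⟩ := by
              obtain ⟨h3, h4⟩ := hx0A
              rw [show f x0 = ⟨(f x0).i, (f x0).j, false, false⟩ by
                rw [T.ext_iff]; exact ⟨rfl, rfl, h3, h4⟩, T.inv_mk]
              simp
            rw [h2, T.ext_iff, mul_i, mul_j, mul_e, mul_d, hxA.1, hxA.2]
            simp only [sg_false, cond_false, one_mul, Bool.xor_false, and_true]
            exact ⟨by ring, by ring⟩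
          rw [h1]
          dsimp only
          obtain ⟨ha, ha'⟩ := hDdbl x hx hxA
          obtain ⟨hb, hb'⟩ := hDdbl x0 hx0 hx0A
          have ha1 : (f x).i + (f x).i = (l : ZMod (2 * l)) := by
            refine ha.resolve_left fun h0 => hx2 ?_
            rw [E.sq_iff hx, hxA.sq_one_iff]
            exact ⟨h0, by rw [ha', h0]⟩
          have hb1 : (f x0).i + (f x0).i = (l : ZMod (2 * l)) := by
            refine hb.resolve_left fun h0 => hx02 ?_
            rw [E.sq_iff hx0, hx0A.sq_one_iff]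
            exact ⟨h0, by rw [hb', h0]⟩
          exact ⟨by linear_combination ha1 - hb1, by linear_combination ha' + ha1 - hb' - hb1⟩
      · push Not at hex
        exact ⟨1, one_mem R, by rw [E.one]; exact ⟨rfl, rfl⟩, fun x hx hxA => Or.inl (hex x hx hxA)⟩
    refine h.not_cover h5 hna {1, x0, s, s * x0} (Finset.card_le_four) ?_
    -- `A`-elements
    have keyA : ∀ w ∈ R, IsA (f w) → ∃ c, (c = 1 ∨ c = x0) ∧ c⁻¹ * w ∈ R ∧
        ∀ v ∈ R, c⁻¹ * w * v = v * (c⁻¹ * w) := by
      intro w hw hwA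
      rcases hx0' w hw hwA with h1 | h1
      · refine ⟨1, Or.inl rfl, by simpa using hw, ?_⟩
        intro v hv
        simpa using hsq_cen w hw hwA h1 v hv
      · have h2 : x0⁻¹ * w ∈ R := mul_mem (inv_mem hx0) hw
        have h3 : IsA (f (x0⁻¹ * w)) := by
          rw [E.mul _ (inv_mem hx0) _ hw, E.inv hx0]; exact hx0A.inv.mul hwA
        exact ⟨x0, Or.inr rfl, h2, hsq_cen _ h2 h3 h1⟩
    -- elements with `d = false`
    have keyB : ∀ w ∈ R, (f w).d = false → ∃ c, (c = 1 ∨ c = x0 ∨ c = s ∨ c = s * x0) ∧ c⁻¹ * w ∈ R ∧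
        ∀ v ∈ R, c⁻¹ * w * v = v * (c⁻¹ * w) := by
      intro w hw hwd
      cases he : (f w).e
      · obtain ⟨c, hc, h1, h2⟩ := keyA w hw ⟨he, hwd⟩
        exact ⟨c, by tauto, h1, h2⟩
      · have h1 : IsA (f (s⁻¹ * w)) := by
          rw [E.mul _ (inv_mem hs) _ hw, E.inv hs]
          refine ⟨?_, ?_⟩
          · rw [mul_e, inv_e, hsI.1, he]; rfl
          · rw [mul_d, inv_d, hsI.2, hwd]; rfl
        obtain ⟨c, hc, h1, h2⟩ := keyA _ (mul_mem (inv_mem hs) hw) h1
        have h3 : (s * c)⁻¹ * w = c⁻¹ * (s⁻¹ * w) := by group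
        refine ⟨s * c, ?_, by rw [h3]; exact h1, by rw [h3]; exact h2⟩
        rcases hc with rfl | rfl <;> simp
    intro w hw
    cases hwd : (f w).d
    · obtain ⟨c, hc, h1, h2⟩ := keyB w hw hwd
      refine ⟨c, ?_, h1, h2⟩
      simpa using hc
    · have h1 : (f (w * y)).d = false := by
        rw [E.mul w hw y hy, mul_d, hyd, hwd]; rfl
      obtain ⟨c, hc, h2, h3⟩ := keyB _ (mul_mem hw hy) h1
      refine ⟨c, by simpa using hc, ?_, fun v hv => ?_⟩
      · have h4 : c⁻¹ * w = c⁻¹ * (w * y) * y⁻¹ := by group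
        rw [h4]; exact mul_mem h2 (inv_mem hy)
      · have h4 := h3 v hv
        have h5 := hyc v hv
        have h6 : y⁻¹ * v = v * y⁻¹ := by
          rw [inv_mul_eq_iff_eq_mul, ← mul_assoc, h5]; group
        calc c⁻¹ * w * v = c⁻¹ * (w * y) * (y⁻¹ * v) := by group
          _ = (c⁻¹ * (w * y) * v) * y⁻¹ := by rw [h6]; group
          _ = v * (c⁻¹ * (w * y)) * y⁻¹ := by rw [h4]
          _ = v * (c⁻¹ * w) := by group
  -- counting the elements with non-trivial square
  -- `A`-elements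
  let D : Subgroup H :=
    { carrier := {x | x ∈ R ∧ IsA (f x)}
      one_mem' := ⟨one_mem R, by rw [E.one]; exact ⟨rfl, rfl⟩⟩
      mul_mem' := by
        rintro a b ⟨ha, ha2⟩ ⟨hb, hb2⟩
        exact ⟨mul_mem ha hb, by rw [E.mul a ha b hb]; exact ha2.mul hb2⟩
      inv_mem' := by
        rintro a ⟨ha, ha2⟩
        exact ⟨inv_mem ha, by rw [E.inv ha]; exact ha2.inv⟩ }
  have hD : ∀ {x}, x ∈ D ↔ x ∈ R ∧ IsA (f x) := Iff.rfl
  set VD : Finset H := Finset.univ.filter fun x => x ∈ R ∧ (f x).d = false ∧ (f x).e = false with hVD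
  set V : Bool → Finset H := fun ε => Finset.univ.filter fun x => x ∈ R ∧ (f x).d = true ∧ (f x).e = ε with hV
  set P : H → Prop := fun x => x * x ≠ 1 with hP
  have hVDm : ∀ {x}, x ∈ VD ↔ x ∈ R ∧ IsA (f x) := by
    intro x
    rw [hVD, Finset.mem_filter]
    simp only [Finset.mem_univ, true_and, IsA]
    tauto
  have hVm : ∀ {ε x}, x ∈ V ε ↔ x ∈ R ∧ (f x).d = true ∧ (f x).e = ε := by
    intro ε x
    rw [hV, Finset.mem_filter]
    simp
  have hVDc : VD.card = Nat.card D := by
    rw [Nat.card_eq_fintype_card, ← Fintype.card_coe]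
    exact Fintype.card_congr (Equiv.subtypeEquivRight fun x => hVDm.trans hD.symm)
  clear_value VD V
  -- values
  have hvalV : ∀ x ∈ R, (f x).d = true →
      (f x).i + sg (2 * l) (f x).e * (f x).j = 0 ∨ (f x).i + sg (2 * l) (f x).e * (f x).j = (l : ZMod (2 * l)) := by
    intro x hx hxd
    apply two_half
    have h1 := (E.comm_iff (mul_mem hx hx) hs).mp (h.sq_central hx hs)
    rw [E.mul x hx x hx] at h1
    have hA : IsA (f x * f x) := by rw [sq_of_d hxd]; exact ⟨rfl, rfl⟩
    have h3 := (hA.comm_I_iff hsI).mp h1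
    rw [hA.sq_one_iff, sq_of_d hxd] at h3
    exact h3.1
  have hvalD : ∀ ε : Bool, ∀ w ∈ R, IsA (f w) →
      (f w).i + sg (2 * l) ε * (f w).j = 0 ∨ (f w).i + sg (2 * l) ε * (f w).j = (l : ZMod (2 * l)) := by
    intro ε w hw hwA
    apply two_half
    obtain ⟨h1, h2⟩ := hDdbl w hw hwA
    have h3 : ((f w).i + (f w).i) + ((f w).i + (f w).i) = 0 := by
      rcases h1 with h1 | h1
      · rw [h1, add_zero]
      · rw [h1, half_add_half]
    cases ε
    · rw [sg_false]; linear_combination h3 + h2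
    · rw [sg_true]; linear_combination -h2
  have hl0 : (l : ZMod (2 * l)) ≠ 0 := half_ne_zero l
  have hmulA : ∀ w ∈ R, IsA (f w) → ∀ x ∈ R, (f (w * x)).i = (f w).i + (f x).i ∧
      (f (w * x)).j = (f w).j + (f x).j ∧ (f (w * x)).e = (f x).e ∧ (f (w * x)).d = (f x).d := by
    intro w hw hwA x hx
    rw [E.mul w hw x hx, mul_i, mul_j, mul_e, mul_d, hwA.1, hwA.2]
    simp
  -- `c * D = V ε`
  have hcardV : ∀ ε, (∃ c ∈ R, (f c).d = true ∧ (f c).e = ε) → (V ε).card = VD.card := by
    rintro ε ⟨c, hc, hcd, hce⟩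
    refine (Finset.card_bij (fun x _ => c * x) ?_ (fun x _ y _ hxy => mul_left_cancel hxy) ?_).symm
    · intro x hx
      obtain ⟨hxR, hxA⟩ := hVDm.mp hx
      rw [hVm, E.mul c hc x hxR, mul_d, mul_e, hxA.1, hxA.2, hcd, hce]
      refine ⟨mul_mem hc hxR, rfl, by cases ε <;> rfl⟩
    · intro y hy
      obtain ⟨hyR, hyd, hye⟩ := hVm.mp hy
      refine ⟨c⁻¹ * y, ?_, by group⟩
      rw [hVDm]
      refine ⟨mul_mem (inv_mem hc) hyR, ?_, ?_⟩
      · rw [E.mul _ (inv_mem hc) y hyR, E.inv hc, mul_e, inv_e, hce, hye]; cases ε <;> rfl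
      · rw [E.mul _ (inv_mem hc) y hyR, E.inv hc, mul_d, inv_d, hcd, hyd]; rfl
  have hPV : ∀ ε, ∀ x ∈ V ε, P x ↔ (f x).i + sg (2 * l) ε * (f x).j ≠ 0 := by
    intro ε x hx
    obtain ⟨hxR, hxd, hxe⟩ := hVm.mp hx
    show ¬ (x * x = 1) ↔ _
    rw [E.sq_iff hxR, sq_one_iff_of_d hxd, hxe]
  have hPD : ∀ x ∈ VD, P x ↔ (f x).i + (f x).i ≠ 0 := by
    intro x hx
    obtain ⟨hxR, hxA⟩ := hVDm.mp hx
    show ¬ (x * x = 1) ↔ _
    rw [E.sq_iff hxR, hxA.sq_one_iff, (hDdbl x hxR hxA).2, and_self]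
  -- togglers
  have htogV : ∀ ε, (∃ w ∈ R, IsA (f w) ∧ (f w).i + sg (2 * l) ε * (f w).j ≠ 0) →
      2 * ((V ε).filter P).card = (V ε).card := by
    rintro ε ⟨w, hw, hwA, hw0⟩
    have hwl := (hvalD ε w hw hwA).resolve_left hw0
    refine toggle (V ε) P w ?_ ?_ ?_
    · intro x hx
      obtain ⟨hxR, hxd, hxe⟩ := hVm.mp hx
      obtain ⟨-, -, h3, h4⟩ := hmulA w hw hwA x hxR
      exact hVm.mpr ⟨mul_mem hw hxR, by rw [h4, hxd], by rw [h3, hxe]⟩
    · intro x hx
      obtain ⟨hxR, hxd, hxe⟩ := hVm.mp hx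
      have hwA' : IsA (f w⁻¹) := by rw [E.inv hw]; exact hwA.inv
      obtain ⟨-, -, h3, h4⟩ := hmulA w⁻¹ (inv_mem hw) hwA' x hxR
      exact hVm.mpr ⟨mul_mem (inv_mem hw) hxR, by rw [h4, hxd], by rw [h3, hxe]⟩
    · intro x hx
      obtain ⟨hxR, hxd, hxe⟩ := hVm.mp hx
      obtain ⟨h1, h2, h3, h4⟩ := hmulA w hw hwA x hxR
      have hwx : w * x ∈ V ε := hVm.mpr ⟨mul_mem hw hxR, by rw [h4, hxd], by rw [h3, hxe]⟩
      rw [hPV ε x hx, hPV ε _ hwx, h1, h2, not_not]
      have h5 := hvalV x hxR hxd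
      rw [hxe] at h5
      have h6 : (f w).i + (f x).i + sg (2 * l) ε * ((f w).j + (f x).j) =
          ((f w).i + sg (2 * l) ε * (f w).j) + ((f x).i + sg (2 * l) ε * (f x).j) := by ring
      rw [h6, hwl]
      rcases h5 with h5 | h5
      · rw [h5, add_zero]; simp [hl0]
      · rw [h5, half_add_half]; simp [hl0]
  have hconV : ∀ ε, (¬ ∃ w ∈ R, IsA (f w) ∧ (f w).i + sg (2 * l) ε * (f w).j ≠ 0) →
      ((V ε).filter P).card = 0 ∨ ((V ε).filter P).card = (V ε).card := by
    intro ε hno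
    push Not at hno
    by_cases hex : ∃ x ∈ V ε, P x
    · right
      obtain ⟨x0, hx0, hPx0⟩ := hex
      rw [Finset.filter_true_of_mem]
      intro x hx
      rw [hPV ε x hx]
      rw [hPV ε x0 hx0] at hPx0
      obtain ⟨hxR, hxd, hxe⟩ := hVm.mp hx
      obtain ⟨hx0R, hx0d, hx0e⟩ := hVm.mp hx0
      have hA : IsA (f (x * x0⁻¹)) := by
        rw [E.mul x hxR _ (inv_mem hx0R), E.inv hx0R]
        refine ⟨?_, ?_⟩
        · rw [mul_e, inv_e, hxe, hx0e]; cases ε <;> rfl
        · rw [mul_d, inv_d, hxd, hx0d]; rfl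
      have h1 := hno _ (mul_mem hxR (inv_mem hx0R)) hA
      obtain ⟨h2, h3, -, -⟩ := hmulA _ (mul_mem hxR (inv_mem hx0R)) hA x0 hx0R
      rw [inv_mul_cancel_right] at h2 h3
      rw [h2, h3]
      intro h4
      apply hPx0
      linear_combination h4 - h1
    · left
      push Not at hex
      rw [Finset.card_eq_zero, Finset.filter_eq_empty_iff]
      exact fun x hx => hex x hx
  have htogD : (∃ w ∈ R, IsA (f w) ∧ (f w).i + (f w).i ≠ 0) → 2 * (VD.filter P).card = VD.card := by
    rintro ⟨w, hw, hwA, hw0⟩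
    have hwl := (hDdbl w hw hwA).1.resolve_left hw0
    refine toggle VD P w ?_ ?_ ?_
    · intro x hx
      obtain ⟨hxR, hxA⟩ := hVDm.mp hx
      exact hVDm.mpr ⟨mul_mem hw hxR, by rw [E.mul w hw x hxR]; exact hwA.mul hxA⟩
    · intro x hx
      obtain ⟨hxR, hxA⟩ := hVDm.mp hx
      exact hVDm.mpr ⟨mul_mem (inv_mem hw) hxR, by rw [E.mul _ (inv_mem hw) x hxR, E.inv hw]; exact hwA.inv.mul hxA⟩
    · intro x hx
      obtain ⟨hxR, hxA⟩ := hVDm.mp hx
      have hwx : w * x ∈ VD := hVDm.mpr ⟨mul_mem hw hxR, by rw [E.mul w hw x hxR]; exact hwA.mul hxA⟩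
      obtain ⟨h1, -, -, -⟩ := hmulA w hw hwA x hxR
      rw [hPD x hx, hPD _ hwx, h1, not_not]
      have h6 : (f w).i + (f x).i + ((f w).i + (f x).i) = ((f w).i + (f w).i) + ((f x).i + (f x).i) := by ring
      rw [h6, hwl]
      rcases (hDdbl x hxR hxA).1 with h5 | h5
      · rw [h5, add_zero]; simp [hl0]
      · rw [h5, half_add_half]; simp [hl0]
  have hconD : (¬ ∃ w ∈ R, IsA (f w) ∧ (f w).i + (f w).i ≠ 0) → (VD.filter P).card = 0 := by
    intro hno
    push Not at hno
    rw [Finset.card_eq_zero, Finset.filter_eq_empty_iff]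
    intro x hx hPx
    obtain ⟨hxR, hxA⟩ := hVDm.mp hx
    exact (hPD x hx).mp hPx (hno x hxR hxA)
  -- representatives of the two `u`-types
  have hsu : (f (s * u)).d = true ∧ (f (s * u)).e = !(f u).e := by
    rw [E.mul s hs u hu, mul_d, mul_e, hsI.1, hsI.2, hud]
    exact ⟨rfl, by cases (f u).e <;> rfl⟩
  have hrep : ∀ ε, ∃ c ∈ R, (f c).d = true ∧ (f c).e = ε := by
    intro ε
    by_cases he : (f u).e = ε
    · exact ⟨u, hu, hud, he⟩
    · refine ⟨s * u, mul_mem hs hu, hsu.1, ?_⟩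
      rw [hsu.2]
      revert he
      generalize (f u).e = b
      intro he
      cases b <;> cases ε <;> first | rfl | exact absurd rfl he
  -- the total
  have hY : Nat.card ({x | x ∈ R ∧ x * x ≠ 1} : Set H) =
      (VD.filter P).card + ((V false).filter P).card + ((V true).filter P).card := by
    have h1 : Nat.card ({x | x ∈ R ∧ x * x ≠ 1} : Set H) =
        (Finset.univ.filter fun x => x ∈ R ∧ x * x ≠ 1).card := by
      rw [Nat.card_eq_fintype_card, Fintype.card_subtype]
      rfl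
    rw [h1, ← Finset.card_union_of_disjoint, ← Finset.card_union_of_disjoint]
    · congr 1
      ext x
      rw [Finset.mem_union, Finset.mem_union, Finset.mem_filter, Finset.mem_filter, Finset.mem_filter,
        Finset.mem_filter, hVDm, hVm, hVm]
      simp only [Finset.mem_univ, true_and, hP]
      constructor
      · rintro ⟨hx, hx2⟩
        cases hd : (f x).d <;> cases he : (f x).e
        · exact Or.inl (Or.inl ⟨⟨hx, he, hd⟩, hx2⟩)
        · exact absurd ((E.sq_iff hx).mpr (IsI.sq ⟨he, hd⟩)) hx2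
        · exact Or.inl (Or.inr ⟨⟨hx, rfl, rfl⟩, hx2⟩)
        · exact Or.inr ⟨⟨hx, rfl, rfl⟩, hx2⟩
      · rintro ((⟨⟨hx, -⟩, hx2⟩ | ⟨⟨hx, -⟩, hx2⟩) | ⟨⟨hx, -⟩, hx2⟩) <;> exact ⟨hx, hx2⟩
    · rw [Finset.disjoint_left]
      intro x hx hx'
      rw [Finset.mem_union, Finset.mem_filter, Finset.mem_filter, hVDm, hVm] at hx
      rw [Finset.mem_filter, hVm] at hx'
      obtain ⟨⟨-, h2, h3⟩, -⟩ := hx'
      rcases hx with ⟨⟨-, hA⟩, -⟩ | ⟨⟨-, h4, h5⟩, -⟩
      · have := hA.2
        rw [h2] at this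
        exact Bool.noConfusion this
      · rw [h3] at h5
        exact Bool.noConfusion h5
    · rw [Finset.disjoint_left]
      intro x hx hx'
      rw [Finset.mem_filter, hVDm] at hx
      rw [Finset.mem_filter, hVm] at hx'
      have := hx.1.2.2
      rw [hx'.1.2.1] at this
      exact Bool.noConfusion this
  have hmod := count h.pow ({x | x ∈ R ∧ x * x ≠ 1} : Set H) (fun y hy => ⟨h.conj_mem hy.1, fun h1 => hy.2 (by
    have h2 : g * y * g⁻¹ * (g * y * g⁻¹) = g * (y * y) * g⁻¹ := by group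
    rw [h2] at h1
    exact conj_eq_one_iff.mp h1)⟩)
  have hzero : Nat.card {y : H // y ∈ ({x | x ∈ R ∧ x * x ≠ 1} : Set H) ∧ g * y = y * g} = 0 := by
    rw [Nat.card_eq_zero]
    left
    exact ⟨fun y => hfree y.1 y.2.1.1 y.2.1.2 y.2.2⟩
  rw [hzero] at hmod
  have hrdvd := (Nat.modEq_zero_iff_dvd).mp hmod
  rw [hY] at hrdvd
  -- arithmetic
  have hN : ¬ r ∣ VD.card := by
    intro hd
    rw [hVDc] at hd
    obtain ⟨a, ha⟩ := IsPGroup.iff_card.mp h.two
    have h1 : Nat.card D ∣ Nat.card R := card_dvd_of_le fun x hx => (hD.mp hx).1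
    rw [ha] at h1
    have h2 := hr.out.dvd_of_dvd_pow (hd.trans h1)
    have := (Nat.prime_dvd_prime_iff_eq hr.out Nat.prime_two).mp h2
    omega
  have hVc0 := hcardV false (hrep false)
  have hVc1 := hcardV true (hrep true)
  obtain ⟨ta, tb, tc, hta, htb, htc, hle⟩ : ∃ ta tb tc : ℕ, 2 * (VD.filter P).card = VD.card * ta ∧
      2 * ((V false).filter P).card = VD.card * tb ∧ 2 * ((V true).filter P).card = VD.card * tc ∧
      ta + tb + tc ≤ 4 := by
    have hb : ∀ ε, ∃ t : ℕ, 2 * ((V ε).filter P).card = VD.card * t ∧ t ≤ 2 ∧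
        ((∃ w ∈ R, IsA (f w) ∧ (f w).i + sg (2 * l) ε * (f w).j ≠ 0) → t ≤ 1) := by
      intro ε
      have hVc := hcardV ε (hrep ε)
      by_cases hw : ∃ w ∈ R, IsA (f w) ∧ (f w).i + sg (2 * l) ε * (f w).j ≠ 0
      · exact ⟨1, by rw [htogV ε hw, hVc, mul_one], by norm_num, fun _ => le_rfl⟩
      · rcases hconV ε hw with h1 | h1
        · exact ⟨0, by rw [h1, mul_zero, mul_zero], by norm_num, fun _ => by norm_num⟩
        · exact ⟨2, by rw [h1, hVc, mul_comm], le_rfl, fun h2 => absurd h2 hw⟩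
    obtain ⟨tb, hb1, hb2, hb3⟩ := hb false
    obtain ⟨tc, hc1, hc2, hc3⟩ := hb true
    by_cases hw : ∃ w ∈ R, IsA (f w) ∧ (f w).i + (f w).i ≠ 0
    · refine ⟨1, tb, tc, by rw [htogD hw, mul_one], hb1, hc1, ?_⟩
      obtain ⟨w, hwR, hwA, hw0⟩ := hw
      by_cases h1 : (f w).i + sg (2 * l) false * (f w).j ≠ 0
      · have := hb3 ⟨w, hwR, hwA, h1⟩
        omega
      · push Not at h1
        have h2 : (f w).i + sg (2 * l) true * (f w).j ≠ 0 := by
          intro h2
          rw [sg_true] at h2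
          rw [sg_false] at h1
          exact hw0 (by linear_combination h1 + h2)
        have := hc3 ⟨w, hwR, hwA, h2⟩
        omega
    · exact ⟨0, tb, tc, by rw [hconD hw, mul_zero, mul_zero], hb1, hc1, by omega⟩
  have hrt : r ∣ VD.card * (ta + tb + tc) := by
    have h1 : VD.card * (ta + tb + tc) =
        2 * ((VD.filter P).card + ((V false).filter P).card + ((V true).filter P).card) := by
      rw [mul_add, mul_add, mul_add, mul_add, hta, htb, htc]
    rw [h1]
    exact Dvd.dvd.mul_left hrdvd 2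
  have ht0 : ta + tb + tc = 0 := by
    rcases (hr.out.dvd_mul).mp hrt with h1 | h1
    · exact absurd h1 hN
    · by_contra h2
      have := Nat.le_of_dvd (Nat.pos_of_ne_zero h2) h1
      omega
  have ha0 : ta = 0 := by omega
  have hb0 : tb = 0 := by omega
  have hc0 : tc = 0 := by omega
  rw [ha0, mul_zero] at hta
  rw [hb0, mul_zero] at htb
  rw [hc0, mul_zero] at htc
  have hempty : Nat.card ({x | x ∈ R ∧ x * x ≠ 1} : Set H) = 0 := by rw [hY]; omega
  apply hna
  apply comm_of_sq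
  intro x hx
  by_contra hx2
  rw [Nat.card_eq_zero] at hempty
  rcases hempty with h1 | h1
  · exact h1.elim ⟨x, hx, hx2⟩
  · exact h1.false

theorem Emb.card_le (E : Emb R l f) {D : Subgroup H} (hDR : D ≤ R) (S : Finset (T (2 * l)))
    (hS : ∀ x ∈ D, f x ∈ S) : Nat.card D ≤ S.card := by
  classical
  have : Fintype H := Fintype.ofFinite H
  rw [Nat.card_eq_fintype_card, ← Finset.card_univ]
  refine Finset.card_le_card_of_injOn (fun x : D => f x) (fun x _ => hS x x.2) ?_
  intro x _ y _ hxy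
  exact Subtype.ext (E.inj x (hDR x.2) y (hDR y.2) hxy)

/-- counting by types -/
theorem Emb.cover (E : Emb R l f) (S : Finset (Bool × Bool)) (hS : ∀ y ∈ R, ((f y).e, (f y).d) ∈ S)
    (F : Finset (T (2 * l))) (hF : ∀ x ∈ R, IsA (f x) → f x ∈ F) : Nat.card R ≤ S.card * F.card := by
  classical
  let D : Subgroup H :=
    { carrier := {x | x ∈ R ∧ IsA (f x)}
      one_mem' := ⟨one_mem R, by rw [E.one]; exact ⟨rfl, rfl⟩⟩
      mul_mem' := by
        rintro a b ⟨ha, ha2⟩ ⟨hb, hb2⟩
        exact ⟨mul_mem ha hb, by rw [E.mul a ha b hb]; exact ha2.mul hb2⟩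
      inv_mem' := by
        rintro a ⟨ha, ha2⟩
        exact ⟨inv_mem ha, by rw [E.inv ha]; exact ha2.inv⟩ }
  have hD : ∀ {x}, x ∈ D ↔ x ∈ R ∧ IsA (f x) := Iff.rfl
  have hDR : D ≤ R := fun x hx => (hD.mp hx).1
  -- representatives of the types
  let c : Bool × Bool → H := fun t => if ht : ∃ x ∈ R, (f x).e = t.1 ∧ (f x).d = t.2 then ht.choose else 1
  have hcov : ∀ y ∈ R, ∃ c' ∈ S.image c, c'⁻¹ * y ∈ D := by
    intro y hy
    have ht : ∃ x ∈ R, (f x).e = ((f y).e, (f y).d).1 ∧ (f x).d = ((f y).e, (f y).d).2 := ⟨y, hy, rfl, rfl⟩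
    refine ⟨c ((f y).e, (f y).d), Finset.mem_image_of_mem _ (hS y hy), ?_⟩
    have hc : c ((f y).e, (f y).d) = ht.choose := dif_pos ht
    rw [hc]
    obtain ⟨h1, h2, h3⟩ := ht.choose_spec
    refine hD.mpr ⟨mul_mem (inv_mem h1) hy, ?_⟩
    rw [E.mul _ (inv_mem h1) y hy, E.inv h1]
    refine ⟨?_, ?_⟩
    · rw [mul_e, inv_e, h2, Bool.xor_self]
    · rw [mul_d, inv_d, h3, Bool.xor_self]
  exact (card_le_of_cover R D (S.image c) hcov).trans (Nat.mul_le_mul Finset.card_image_le
    (E.card_le hDR F fun x hx => hF x (hD.mp hx).1 (hD.mp hx).2))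

/-- the elements of order at most 2 in `A` -/
noncomputable def FA (l : ℕ) : Finset (T (2 * l)) := by
  classical
  exact {⟨0, 0, false, false⟩, ⟨0, l, false, false⟩, ⟨l, 0, false, false⟩, ⟨l, l, false, false⟩}

theorem card_FA : (FA l).card ≤ 4 := by
  classical
  unfold FA
  exact Finset.card_le_four

theorem mem_FA {x : T (2 * l)} (hx : IsA x) (h : x * x = 1) : x ∈ FA l := by
  classical
  rw [hx.sq_one_iff] at h
  unfold FA
  simp only [Finset.mem_insert, Finset.mem_singleton, T.ext_iff, hx.1, hx.2, and_true]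
  rcases two_half l _ h.1 with h3 | h3 <;> rcases two_half l _ h.2 with h4 | h4 <;> rw [h3, h4] <;> simp

/-- the centre of `T (2 l)` -/
noncomputable def FZ (l : ℕ) : Finset (T (2 * l)) := by
  classical
  exact {1, ⟨l, l, false, false⟩}

theorem card_FZ : (FZ l).card ≤ 2 := by
  classical
  unfold FZ
  exact Finset.card_le_two

theorem mem_FZ {x s : T (2 * l)} (hx : IsA x) (h : x * x = 1) (hs : s.d = true) (hc : x * s = s * x) :
    x ∈ FZ l := by
  classical
  rw [hx.sq_one_iff] at h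
  have h2 := (hx.comm_U_iff hs).mp hc
  unfold FZ
  rw [Finset.mem_insert, Finset.mem_singleton, T.one_def, T.ext_iff, T.ext_iff, hx.1, hx.2]
  rcases two_half l _ h.2 with h3 | h3
  · left
    rw [h3, mul_zero] at h2
    exact ⟨h2, h3, rfl, rfl⟩
  · right
    rw [h3, sg_half] at h2
    exact ⟨h2, h3, rfl, rfl⟩

/-- elementary abelian subgroups have order at most 8 -/
theorem Emb.card_le_eight (E : Emb R l f) (hsq : ∀ x ∈ R, x * x = 1) : Nat.card R ≤ 8 := by
  have hab := comm_of_sq hsq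
  by_cases hu : ∃ u ∈ R, (f u).d = true
  · obtain ⟨u, huR, hud⟩ := hu
    calc Nat.card R ≤ (Finset.univ : Finset (Bool × Bool)).card * (FZ l).card :=
          E.cover Finset.univ (fun _ _ => Finset.mem_univ _) (FZ l) fun x hx hxA =>
            mem_FZ hxA ((E.sq_iff hx).mp (hsq x hx)) hud ((E.comm_iff hx huR).mp (hab x hx u huR))
      _ ≤ 4 * 2 := Nat.mul_le_mul (by decide) card_FZ
      _ = 8 := rfl
  · push Not at hu
    calc Nat.card R ≤ ({(true, false), (false, false)} : Finset (Bool × Bool)).card * (FA l).card :=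
          E.cover _ (fun y hy => by
            have : (f y).d = false := by
              cases h : (f y).d
              · rfl
              · exact absurd h (hu y hy)
            rw [this]
            cases (f y).e <;> decide) (FA l) fun x hx hxA => mem_FA hxA ((E.sq_iff hx).mp (hsq x hx))
      _ ≤ 2 * 4 := Nat.mul_le_mul (by decide) card_FA
      _ = 8 := rfl

/-- elementary abelian subgroups of order 8 are self-centralising -/
theorem Emb.mem_of_comm {R₁ : Subgroup H} (E : Emb R l f) (h1 : R₁ ≤ R) (h8 : Nat.card R₁ = 8)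
    (hsq : ∀ x ∈ R₁, x * x = 1) {w : H} (hw : w ∈ R) (hwc : ∀ x ∈ R₁, w * x = x * w) : w ∈ R₁ := by
  classical
  have hab := comm_of_sq hsq
  have E₁ := E.mono h1
  -- an inverting element
  obtain ⟨s, hs, hsI⟩ : ∃ s ∈ R₁, IsI (f s) := by
    by_contra hcon
    push Not at hcon
    by_cases hu : ∃ u ∈ R₁, (f u).d = true
    · obtain ⟨u, huR, hud⟩ := hu
      have : Nat.card R₁ ≤ ({(false, false), ((f u).e, true)} : Finset (Bool × Bool)).card * (FZ l).card :=
        E₁.cover _ (fun y hy => by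
          cases hyd : (f y).d
          · have : (f y).e = false := by
              cases hye : (f y).e
              · rfl
              · exact absurd ⟨hye, hyd⟩ (hcon y hy)
            rw [this]
            simp
          · have h3 : (f (y * u)).d = false := by rw [E₁.mul y hy u huR, mul_d, hyd, hud]; rfl
            have h2 : (f y).e = (f u).e := by
              by_contra h2
              refine hcon (y * u) (mul_mem hy huR) ⟨?_, h3⟩
              rw [E₁.mul y hy u huR, mul_e]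
              revert h2
              generalize (f y).e = a
              generalize (f u).e = b
              intro h2
              cases a <;> cases b <;> simp_all
            rw [h2]
            simp) (FZ l) fun x hx hxA =>
            mem_FZ hxA ((E₁.sq_iff hx).mp (hsq x hx)) hud ((E₁.comm_iff hx huR).mp (hab x hx u huR))
      have h3 := this.trans (Nat.mul_le_mul Finset.card_le_two card_FZ)
      omega
    · push Not at hu
      have : Nat.card R₁ ≤ ({(false, false)} : Finset (Bool × Bool)).card * (FA l).card :=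
        E₁.cover _ (fun y hy => by
          have hyd : (f y).d = false := by
            cases h : (f y).d
            · rfl
            · exact absurd h (hu y hy)
          have hye : (f y).e = false := by
            cases hye : (f y).e
            · rfl
            · exact absurd ⟨hye, hyd⟩ (hcon y hy)
          rw [hyd, hye]
          simp) (FA l) fun x hx hxA => mem_FA hxA ((E₁.sq_iff hx).mp (hsq x hx))
      have h3 := this.trans (Nat.mul_le_mul (le_of_eq (Finset.card_singleton _)) card_FA)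
      omega
  -- the centralizer
  set K : Subgroup H := R ⊓ centralizer (R₁ : Set H) with hK
  have hKm : ∀ {y}, y ∈ K ↔ y ∈ R ∧ ∀ x ∈ R₁, y * x = x * y := by
    intro y
    rw [hK, mem_inf, mem_centralizer_iff]
    exact and_congr_right fun _ => ⟨fun h y hy => (h y hy).symm, fun h y hy => (h y hy).symm⟩
  have hRK : R₁ ≤ K := fun x hx => hKm.mpr ⟨h1 hx, fun y hy => hab x hx y hy⟩
  have EK : Emb K l f := E.mono inf_le_left
  have hKA : ∀ x ∈ K, IsA (f x) → f x * f x = 1 := fun x hx hxA =>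
    (hxA.comm_I_iff hsI).mp ((E.comm_iff (hKm.mp hx).1 (h1 hs)).mp ((hKm.mp hx).2 s hs))
  have hK8 : Nat.card K ≤ 8 := by
    by_cases hu : ∃ u ∈ R₁, (f u).d = true
    · obtain ⟨u, huR, hud⟩ := hu
      calc Nat.card K ≤ (Finset.univ : Finset (Bool × Bool)).card * (FZ l).card :=
            EK.cover Finset.univ (fun _ _ => Finset.mem_univ _) (FZ l) fun x hx hxA =>
              mem_FZ hxA (hKA x hx hxA) hud ((E.comm_iff (hKm.mp hx).1 (h1 huR)).mp ((hKm.mp hx).2 u huR))
        _ ≤ 4 * 2 := Nat.mul_le_mul (by decide) card_FZ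
        _ = 8 := rfl
    · push Not at hu
      have hu' : ∀ y ∈ R₁, (f y).d = false := by
        intro y hy
        cases h : (f y).d
        · rfl
        · exact absurd h (hu y hy)
      -- `K` has no `u`-type elements
      have hKu : ∀ y ∈ K, (f y).d = false := by
        intro y hy
        by_contra hyd
        have hyd' : (f y).d = true := by
          cases h : (f y).d
          · exact absurd h hyd
          · rfl
        have : Nat.card R₁ ≤ ({(true, false), (false, false)} : Finset (Bool × Bool)).card * (FZ l).card :=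
          E₁.cover _ (fun y hy => by
            rw [hu' y hy]
            cases (f y).e <;> decide) (FZ l) fun x hx hxA =>
              mem_FZ hxA ((E₁.sq_iff hx).mp (hsq x hx)) hyd'
                ((E.comm_iff (h1 hx) (hKm.mp hy).1).mp ((hKm.mp hy).2 x hx).symm)
        have h3 := this.trans (Nat.mul_le_mul Finset.card_le_two card_FZ)
        omega
      calc Nat.card K ≤ ({(true, false), (false, false)} : Finset (Bool × Bool)).card * (FA l).card :=
            EK.cover _ (fun y hy => by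
              rw [hKu y hy]
              cases (f y).e <;> decide) (FA l) fun x hx hxA => mem_FA hxA (hKA x hx hxA)
        _ ≤ 2 * 4 := Nat.mul_le_mul (by decide) card_FA
        _ = 8 := rfl
  have hKR : R₁ = K := eq_of_le_of_card_ge hRK (by rw [h8]; exact hK8)
  rw [hKR]
  exact hKm.mpr ⟨hw, hwc⟩

/-- a minimal action is on an elementary abelian group of order 8, by an element of order divisible by 7 -/
theorem eight (h : Min r n g R) (h5 : 5 ≤ r) (E : Emb R l f) : Nat.card R = 8 ∧ ∀ x ∈ R, x * x = 1 := by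
  have hab : ∀ x ∈ R, ∀ y ∈ R, x * y = y * x := by
    by_contra hna
    by_cases hI : ∃ s ∈ R, IsI (f s)
    · obtain ⟨s, hs, hsI⟩ := hI
      by_cases hu : ∃ u ∈ R, (f u).d = true
      · obtain ⟨u, hu, hud⟩ := hu
        exact case_b2 h h5 E hna hs hsI hu hud
      · push Not at hu
        refine case_b1 h E hna hs hsI fun x hx => ?_
        cases hd : (f x).d
        · rfl
        · exact absurd hd (hu x hx)
    · push Not at hI
      exact case_a h h5 E hna hI
  have hsq : ∀ x ∈ R, x * x = 1 := fun x hx => h.sq_one hab hx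
  refine ⟨?_, hsq⟩
  have h8 := E.card_le_eight hsq
  -- count
  have h1 := count h.pow (R : Set H) (fun y hy => h.conj_mem hy)
  set C : Subgroup H := R ⊓ centralizer {g} with hC
  have h2 : Nat.card {y : H // y ∈ (R : Set H) ∧ g * y = y * g} = Nat.card C := by
    refine Nat.card_congr (Equiv.subtypeEquivRight fun y => ?_)
    rw [hC, mem_inf, mem_centralizer_singleton_iff]
    exact and_congr_right fun _ => eq_comm
  rw [h2] at h1
  have h1' : Nat.card R ≡ Nat.card C [MOD r] := h1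
  have hlt : Nat.card C < Nat.card R := by
    have hle : C ≤ R := inf_le_left
    refine lt_of_le_of_ne (Nat.le_of_dvd Nat.card_pos (card_dvd_of_le hle)) fun he => ?_
    have : C = R := eq_of_le_of_card_ge hle he.ge
    obtain ⟨y, hy, hyg⟩ := h.exists_not_comm
    rw [← this, hC, mem_inf, mem_centralizer_singleton_iff] at hy
    exact hyg hy.2.symm
  obtain ⟨a, ha⟩ := IsPGroup.iff_card.mp h.two
  have hdv : Nat.card C ∣ 2 ^ a := by rw [← ha]; exact card_dvd_of_le inf_le_left
  obtain ⟨b, hb, hcb⟩ := (Nat.dvd_prime_pow Nat.prime_two).mp hdv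
  have ha3 : a ≤ 3 := by
    by_contra hcon
    have : 2 ^ 4 ≤ 2 ^ a := Nat.pow_le_pow_right (by norm_num) (by omega)
    omega
  have hd : r ∣ Nat.card R - Nat.card C := (Nat.modEq_iff_dvd' hlt.le).mp h1'.symm
  have hle := Nat.le_of_dvd (by omega) hd
  rw [ha, hcb] at hd hle hlt
  have h7 : ∀ d : ℕ, r ∣ d → d ≠ 6 := by
    rintro d hd rfl
    have h6 : r ∣ 2 * 3 := hd
    rcases (hr.out.dvd_mul).mp h6 with h | h
    · have := Nat.le_of_dvd (by norm_num) h
      omega
    · have := Nat.le_of_dvd (by norm_num) h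
      omega
  have h6 := h7 _ hd
  rw [ha]
  interval_cases a
  · omega
  · interval_cases b <;> simp_all
  · interval_cases b <;> simp_all <;> omega
  · rfl

end

end Cfsg.Agent.H556.GTwoNil
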