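import Cfsg.Agent.H556.GTwoNil
import Cfsg.Agent.H553.GoodLems
import Cfsg.Agent.ClassificationK.GTwoSylow
import Cfsg.Agent.H285.D4Sylow
import Cfsg.Agent.S1059

/-!
# The rows `G₂(q)` and `³D₄(q)`, `q` odd, of S4312 (helper556)

* `good_of_type` : `Good π S` for `2 ∈ π`, `3 ∉ π`, `S` simple with Sylow 2-subgroups of type `G₂(q)`;
* `good_g2`, `good_3d4`.
-/

set_option autoImplicit false

namespace Cfsg.Agent.H556.GTwoNil

open Subgroup Cfsg Cfsg.Agent.H988.CPi Cfsg.Agent.H553.OddHall Cfsg.Agent.H553.ExtRed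
open Cfsg.Agent.ClassificationK.GTwoModel

variable {π : Set ℕ}

/-- a Sylow 2-subgroup of a subgroup of odd index -/
theorem exists_sylow_equiv {S : Type*} [Group S] [Finite S] (H : Subgroup S) (hi : ¬ 2 ∣ H.index)
    (P : Sylow 2 H) : ∃ Q : Sylow 2 S, Nonempty (Q ≃* P) := by
  have h1 : IsPGroup 2 ((P : Subgroup H).map H.subtype) := P.2.map _
  have h2 : ¬ 2 ∣ ((P : Subgroup H).map H.subtype).index := by
    rw [index_map_subtype]
    intro hd
    rcases (Nat.prime_two.dvd_mul).mp hd with hd | hd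
    · exact P.not_dvd_index hd
    · exact hi hd
  exact ⟨h1.toSylow h2, ⟨((P : Subgroup H).equivMapOfInjective H.subtype H.subtype_injective).symm⟩⟩

theorem good_of_type {S : Type*} [Group S] [Finite S] [IsSimpleGroup S] (hna : ¬ IsMulCommutative S)
    (h2 : 2 ∈ π) (h3 : 3 ∉ π) (hodd : OddC S) (hE : IsEPiGroup π S)
    (hT : ∀ Q : Sylow 2 S, ∃ k : ℕ, 1 ≤ k ∧ Nonempty (T (2 * 2 ^ k) ≃* Q)) : Good π S := by
  obtain ⟨H, hH⟩ := hE
  have hH' : IsPiHall π H := hH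
  have hi : ¬ 2 ∣ H.index := hH'.2 2 Nat.prime_two h2
  have hc3 : ¬ 3 ∣ Nat.card H := fun hd => h3 (hH'.1 3 Nat.prime_three hd)
  obtain ⟨P⟩ : Nonempty (Sylow 2 H) := inferInstance
  obtain ⟨Q, ⟨e⟩⟩ := exists_sylow_equiv H hi P
  obtain ⟨k, hk, ⟨e'⟩⟩ := hT Q
  exact good_of_oddClosed hna hodd H hH' h2 (oddClosed hk hc3 P (e'.trans e))

theorem sylow_of_equiv {S S' : Type*} [Group S] [Finite S] [Group S'] [Finite S'] (e : S ≃* S')
    (h : ∀ Q : Sylow 2 S', ∃ k : ℕ, 1 ≤ k ∧ Nonempty (T (2 * 2 ^ k) ≃* Q)) :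
    ∀ Q : Sylow 2 S, ∃ k : ℕ, 1 ≤ k ∧ Nonempty (T (2 * 2 ^ k) ≃* Q) := by
  intro Q
  have h1 : IsPGroup 2 ((Q : Subgroup S).map e.toMonoidHom) := Q.2.map _
  have h2 : ¬ 2 ∣ ((Q : Subgroup S).map e.toMonoidHom).index := by
    rw [show ((Q : Subgroup S).map e.toMonoidHom).index = (Q : Subgroup S).index from index_map_equiv _ e]
    exact Q.not_dvd_index
  obtain ⟨k, hk, ⟨f⟩⟩ := h (h1.toSylow h2)
  exact ⟨k, hk, ⟨f.trans ((Q : Subgroup S).equivMapOfInjective e.toMonoidHom e.injective).symm⟩⟩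

/-- **The row `G₂(q)`, `q` odd, of S4312.** -/
theorem good_g2 {S : Type*} [Group S] [Finite S] [IsSimpleGroup S] (hna : ¬ IsMulCommutative S)
    (h2 : 2 ∈ π) (h3 : 3 ∉ π) (hodd : OddC S) (hE : IsEPiGroup π S) {F : Type*} [Field F] [Fintype F]
    (hF : Odd (Fintype.card F)) (e : S ≃* Lie.chevG2.group F) : Good π S :=
  good_of_type hna h2 h3 hodd hE (sylow_of_equiv e
    (Cfsg.Agent.ClassificationK.GTwoSylow.exists_equiv hF (Cfsg.Agent.S1059.result (F := F) rfl)))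

/-- **The row `³D₄(q)`, `q` odd, of S4312.** -/
theorem good_3d4 {S : Type*} [Group S] [Finite S] [IsSimpleGroup S] (hna : ¬ IsMulCommutative S)
    (h2 : 2 ∈ π) (h3 : 3 ∉ π) (hodd : OddC S) (hE : IsEPiGroup π S) {K : Type*} [Field K] [Fintype K] {q : ℕ}
    (hq : Odd q) (hK : Fintype.card K = q ^ 3) (e : S ≃* Lie.twistedD4 K q) : Good π S :=
  good_of_type hna h2 h3 hodd hE (sylow_of_equiv e fun Q => by
    obtain ⟨k, _, hk, _, _, h⟩ := Cfsg.Agent.H285.D4Sylow.exists_equiv hq hK Q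
    exact ⟨k, hk, h⟩)

theorem odd_card {F : Type*} [Field F] [Fintype F] {p : ℕ} [CharP F p] (h2 : 2 ∈ π) (hp : p.Prime) (hpπ : p ∉ π) :
    Odd (Fintype.card F) := by
  have := Fact.mk hp
  obtain ⟨n, -, hn⟩ := FiniteField.card F p
  rw [hn]
  exact (hp.odd_of_ne_two fun h => hpπ (h ▸ h2)).pow

/-- the row in the form of `H553.ExtRed.LieRows.g2` -/
theorem row_g2 {S : Type*} [Group S] [Finite S] [IsSimpleGroup S] (hna : ¬ IsMulCommutative S)
    (h2 : 2 ∈ π) (h3 : 3 ∉ π) (hodd : OddC S) (hE : IsEPiGroup π S) :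
    ∀ p : ℕ, p.Prime → p ∉ π → ∀ (F : Type) [Field F] [Fintype F] [CharP F p], 3 ≤ Fintype.card F →
      Nonempty (S ≃* Lie.chevG2.group F) → PiN π (Nat.card S) ∨ Good π S := by
  intro p hp hpπ F _ _ _ _ he
  obtain ⟨e⟩ := he
  exact Or.inr (good_g2 hna h2 h3 hodd hE (odd_card (p := p) h2 hp hpπ) e)

/-- the row in the form of `H553.ExtRed.LieRows.d4` -/
theorem row_d4 {S : Type*} [Group S] [Finite S] [IsSimpleGroup S] (hna : ¬ IsMulCommutative S)
    (h2 : 2 ∈ π) (h3 : 3 ∉ π) (hodd : OddC S) (hE : IsEPiGroup π S) :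
    ∀ p : ℕ, p.Prime → p ∉ π → ∀ (F : Type) [Field F] [Fintype F] [CharP F p] (q : ℕ), IsPrimePow q →
      Fintype.card F = q ^ 3 → Nonempty (S ≃* Lie.twistedD4 F q) → PiN π (Nat.card S) ∨ Good π S := by
  intro p hp hpπ F _ _ _ q _ hF he
  obtain ⟨e⟩ := he
  have h := odd_card (F := F) (p := p) h2 hp hpπ
  rw [hF] at h
  have hq : Odd q := by
    rw [← Nat.not_even_iff_odd]
    intro he
    exact (Nat.not_even_iff_odd.mpr h) (he.pow_of_ne_zero (by norm_num))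
  exact Or.inr (good_3d4 hna h2 h3 hodd hE hq hF e)

end Cfsg.Agent.H556.GTwoNil
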