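import Cfsg.Agent.H556.OmMono
import Cfsg.Agent.H170.HL.Small
import Cfsg.Agent.H167.OP.Alpha
import Cfsg.Agent.H556.OmGrp

/-!
# Odd normal subgroups of orthogonal groups of odd index (helper556)

Abstract part.  `G` a finite group of isometries of a symmetric form which contains the even sign changes of an
orthonormal frame of length `≥ N - 1`; `A ≠ 1` an abelian normal subgroup of odd order.  Then `G` has an involution `z`,
`z ≠ ±1`, all conjugates of which commute.
-/

set_option autoImplicit false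
set_option linter.unusedSectionVars false

namespace Cfsg.Agent.H556.OddCore

open Module Cfsg.Agent.H556.Om Cfsg.Agent.H167.OP

/-! ### Elementary abelian 2-groups acting on abelian groups of odd order -/

theorem exists_eigen {G : Type*} [Group G] [Finite G] {T : Set G}
    (hTT : ∀ s ∈ T, ∀ t ∈ T, s * t = t * s) (hT2 : ∀ t ∈ T, t * t = 1) (n : ℕ) :
    ∀ A : Subgroup G, Nat.card A = n → (∀ a ∈ A, ∀ b ∈ A, a * b = b * a) → A ≠ ⊥ →
      (∀ t ∈ T, ∀ a ∈ A, t * a * t⁻¹ ∈ A) → ∃ a ∈ A, a ≠ 1 ∧ ∀ t ∈ T, t * a * t⁻¹ = a ∨ t * a * t⁻¹ = a⁻¹ := by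
  induction n using Nat.strong_induction_on with
  | _ n ih =>
    intro A hn hab hA hTA
    by_cases hall : ∀ t ∈ T, (∀ a ∈ A, t * a * t⁻¹ = a) ∨ (∀ a ∈ A, t * a * t⁻¹ = a⁻¹)
    · obtain ⟨a, ha, ha1⟩ := (Subgroup.ne_bot_iff_exists_ne_one).mp hA |> fun ⟨a, ha⟩ =>
        (⟨a.1, a.2, fun h => ha (Subtype.ext h)⟩ : ∃ a ∈ A, a ≠ 1)
      refine ⟨a, ha, ha1, fun t ht => ?_⟩
      rcases hall t ht with h | h
      · exact Or.inl (h a ha)
      · exact Or.inr (h a ha)
    · push Not at hall
      obtain ⟨t, ht, ⟨a, ha, hat⟩, b, hb, hbt⟩ := hall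
      -- the centralizer
      let C : Subgroup G :=
        { carrier := {x | x ∈ A ∧ t * x * t⁻¹ = x}
          one_mem' := ⟨A.one_mem, by group⟩
          mul_mem' := by
            rintro x y ⟨hx, hx1⟩ ⟨hy, hy1⟩
            refine ⟨A.mul_mem hx hy, ?_⟩
            have : t * (x * y) * t⁻¹ = (t * x * t⁻¹) * (t * y * t⁻¹) := by group
            rw [this, hx1, hy1]
          inv_mem' := by
            rintro x ⟨hx, hx1⟩
            refine ⟨A.inv_mem hx, ?_⟩
            have : t * x⁻¹ * t⁻¹ = (t * x * t⁻¹)⁻¹ := by group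
            rw [this, hx1] }
      have hCA : C < A := by
        refine lt_of_le_of_ne (fun x hx => hx.1) ?_
        intro h
        have : a ∈ C := by rw [h]; exact ha
        exact hat this.2
      have hti : t⁻¹ = t := inv_eq_of_mul_eq_one_left (hT2 t ht)
      have hCb : C ≠ ⊥ := by
        intro h
        apply hbt
        have h1 : b * (t * b * t⁻¹) ∈ C := by
          refine ⟨A.mul_mem hb (hTA t ht b hb), ?_⟩
          have h2 : t * (b * (t * b * t⁻¹)) * t⁻¹ = (t * b * t⁻¹) * ((t * t) * b * (t * t)⁻¹) := by group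
          rw [h2, hT2 t ht, one_mul, inv_one, mul_one]
          exact hab _ (hTA t ht b hb) _ hb
        rw [h, Subgroup.mem_bot] at h1
        exact eq_inv_of_mul_eq_one_right h1
      have hCcard : Nat.card C < n := by
        rw [← hn]
        by_contra hcon
        push Not at hcon
        exact hCA.ne (Subgroup.eq_of_le_of_card_ge hCA.le hcon)
      obtain ⟨c, hc, hc1, hcT⟩ := ih _ hCcard C rfl (fun x hx y hy => hab x hx.1 y hy.1) hCb (by
        intro s hs x hx
        refine ⟨hTA s hs x hx.1, ?_⟩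
        calc t * (s * x * s⁻¹) * t⁻¹ = (t * s) * x * (t * s)⁻¹ := by group
          _ = (s * t) * x * (s * t)⁻¹ := by rw [hTT t ht s hs]
          _ = s * (t * x * t⁻¹) * s⁻¹ := by group
          _ = s * x * s⁻¹ := by rw [hx.2])
      exact ⟨c, hc.1, hc1, hcT⟩

/-! ### The two subspaces -/

section Sub

variable {F : Type*} [Field F] {V : Type*} [AddCommGroup V] [Module F V] {G : Type*} [Group G]

/-- fixed vectors of `a` -/
def XX (ρ : Representation F G V) (a : G) : Submodule F V := LinearMap.ker (ρ a - 1)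

/-- the commutator space of `a` -/
def YY (ρ : Representation F G V) (a : G) : Submodule F V := LinearMap.range (ρ a - 1)

variable {ρ : Representation F G V} {f : V →ₗ[F] V →ₗ[F] F} {a g : G}

theorem mem_XX {v : V} : v ∈ XX ρ a ↔ ρ a v = v := by
  rw [XX, LinearMap.mem_ker, LinearMap.sub_apply, sub_eq_zero]; rfl

theorem mem_YY {v : V} : v ∈ YY ρ a ↔ ∃ u, ρ a u - u = v := Iff.rfl

theorem inv_XX {v : V} (hv : ρ a v = v) : ρ a⁻¹ v = v := by
  conv_lhs => rw [← hv]
  exact inv_ap ρ a v

theorem orth_XY (hiso : ∀ g u v, f (ρ g u) (ρ g v) = f u v) {x y : V} (hx : x ∈ XX ρ a) (hy : y ∈ YY ρ a) :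
    f x y = 0 := by
  obtain ⟨u, rfl⟩ := mem_YY.mp hy
  rw [mem_XX] at hx
  rw [map_sub, sub_eq_zero, ← hiso a x u, hx]

theorem pres_XX (hg : g * a * g⁻¹ = a ∨ g * a * g⁻¹ = a⁻¹) {v : V} (hv : v ∈ XX ρ a) : ρ g v ∈ XX ρ a := by
  rw [mem_XX] at hv ⊢
  rcases hg with h | h
  · have h1 : a * g = g * a := by
      calc a * g = (g * a * g⁻¹) * g := by rw [h]
        _ = g * a := by group
    rw [← mul_ap, h1, mul_ap, hv]
  · have h1 : a * g = g * a⁻¹ := by
      calc a * g = (g * a * g⁻¹)⁻¹ * g := by rw [h, inv_inv]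
        _ = g * a⁻¹ := by group
    rw [← mul_ap, h1, mul_ap, inv_XX hv]

theorem pres_YY (hg : g * a * g⁻¹ = a ∨ g * a * g⁻¹ = a⁻¹) {v : V} (hv : v ∈ YY ρ a) : ρ g v ∈ YY ρ a := by
  obtain ⟨u, rfl⟩ := mem_YY.mp hv
  rw [mem_YY, map_sub]
  rcases hg with h | h
  · refine ⟨ρ g u, ?_⟩
    have h1 : a * g = g * a := by
      calc a * g = (g * a * g⁻¹) * g := by rw [h]
        _ = g * a := by group
    rw [← mul_ap, h1, mul_ap]
  · refine ⟨-(ρ a⁻¹ (ρ g u)), ?_⟩
    have h1 : a⁻¹ * g = g * a := by
      calc a⁻¹ * g = (g * a * g⁻¹) * g := by rw [h]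
        _ = g * a := by group
    rw [map_neg, ap_inv, ← mul_ap, ← mul_ap, h1]
    abel

variable [FiniteDimensional F V]

theorem disj_XY (hc : (orderOf a : F) ≠ 0) {v : V} (hx : v ∈ XX ρ a) (hy : v ∈ YY ρ a) : v = 0 := by
  refine Cfsg.Agent.H170.HL.eq_zero_of_fixed (y := ρ a) hc ?_ hy (mem_XX.mp hx)
  rw [← map_pow, pow_orderOf_eq_one, map_one]

theorem finrank_XY : finrank F (XX ρ a) + finrank F (YY ρ a) = finrank F V := by
  rw [add_comm]
  exact LinearMap.finrank_range_add_finrank_ker (ρ a - 1)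

theorem isCompl_XY (hc : (orderOf a : F) ≠ 0) : IsCompl (XX ρ a) (YY ρ a) := by
  have h1 : Disjoint (XX ρ a) (YY ρ a) := by
    rw [Submodule.disjoint_def]
    exact fun v hx hy => disj_XY hc hx hy
  exact (Submodule.isCompl_iff_disjoint _ _ (finrank_XY (ρ := ρ) (a := a)).symm.le).mpr h1

theorem exists_XY (hc : (orderOf a : F) ≠ 0) (v : V) : ∃ x ∈ XX ρ a, ∃ y ∈ YY ρ a, v = x + y := by
  have h1 : v ∈ XX ρ a ⊔ YY ρ a := by rw [(isCompl_XY hc).sup_eq_top]; trivial
  obtain ⟨x, hx, y, hy, h⟩ := Submodule.mem_sup.mp h1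
  exact ⟨x, hx, y, hy, h.symm⟩

end Sub

/-! ### Coordinates -/

section Coord

variable {F : Type*} [Field F] {V : Type*} [AddCommGroup V] [Module F V] {f : V →ₗ[F] V →ₗ[F] F}
  {J : Type*} [Fintype J] [DecidableEq J] {e : J → V}

/-- the projection onto a coordinate line -/
theorem proj_eq (h2 : (2 : F) ≠ 0) (hF : Frame f e) {i j k : J} (hij : i ≠ j) (hik : i ≠ k) (v : V) :
    v - mono f e (sg F i j) id v - mono f e (sg F j k) id v + mono f e (sg F i j) id (mono f e (sg F j k) id v) =
      f (e j) v • ((2 : F) • e j) := by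
  have h : (1 - mono f e (sg F i j) id - mono f e (sg F j k) id + mono f e (sg F i j) id * mono f e (sg F j k) id :
      Module.End F V) = (f (e j)).smulRight ((2 : F) • e j) := by
    refine ext_frame hF h2 (fun l => ?_) fun w hw => ?_
    · simp only [LinearMap.add_apply, LinearMap.sub_apply, Module.End.mul_apply, Module.End.one_apply,
        LinearMap.smulRight_apply, mono_e hF h2, map_smul, id]
      rw [hF.form]
      by_cases hl : j = l
      · subst hl
        simp only [sg, or_true, true_or, if_true]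
        module
      · rw [if_neg hl, zero_smul]
        by_cases hli : l = i
        · subst hli
          simp only [sg, true_or, if_true]
          rw [if_neg (by rintro (h | h); exacts [hij h, hik h])]
          module
        · have h3 : sg F i j l = 1 := if_neg (by rintro (h | h); exacts [hli h, hl h.symm])
          rw [h3]
          module
    · simp only [LinearMap.add_apply, LinearMap.sub_apply, Module.End.mul_apply, Module.End.one_apply,
        LinearMap.smulRight_apply, mono_orth hw, hw j, zero_smul]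
      abel
  exact LinearMap.congr_fun h v

/-- the sign change on a subset -/
def sgn {J : Type*} [DecidableEq J] (F : Type*) [Field F] (I : Finset J) (k : J) : F := if k ∈ I then -1 else 1

/-- two orthogonal complementary coordinate subspaces -/
theorem split [FiniteDimensional F V] (h2 : (2 : F) ≠ 0) (hF : Frame f e) (hsym : ∀ u v, f u v = f v u) {X Y : Submodule F V}
    (horth : ∀ x ∈ X, ∀ y ∈ Y, f x y = 0) (hdisj : ∀ v ∈ X, v ∈ Y → v = 0)
    (hcoord : ∀ j, e j ∈ X ∨ e j ∈ Y) (hW : ∀ w, (∀ j, f (e j) w = 0) → w ∈ X) (I : Finset J)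
    (hI : ∀ j, j ∈ I ↔ e j ∈ Y) :
    I.card = finrank F Y ∧ (∀ v ∈ Y, mono f e (sgn F I) id v = -v) ∧ (∀ v ∈ X, mono f e (sgn F I) id v = v) := by
  have hXI : ∀ j, j ∉ I → e j ∈ X := fun j hj => (hcoord j).resolve_right fun h => hj ((hI j).mpr h)
  have hYX : ∀ y ∈ Y, ∃ c : J → F, y = ∑ j ∈ I, c j • e j := by
    intro y hy
    obtain ⟨c, w, hw, hyc⟩ := exists_decomp hF h2 y
    have hc : ∀ j, f (e j) y = 2 * c j := by
      intro j
      rw [hyc, map_add, hw j, add_zero, map_sum, Finset.sum_eq_single j]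
      · rw [map_smul, hF.self, smul_eq_mul, mul_comm]
      · intro i _ hi
        rw [map_smul, hF.orth j i hi.symm, smul_zero]
      · intro h; exact absurd (Finset.mem_univ j) h
    have hc0 : ∀ j, j ∉ I → c j = 0 := by
      intro j hj
      have h1 := horth _ (hXI j hj) _ hy
      rw [hc] at h1
      exact (mul_eq_zero.mp h1).resolve_left h2
    have hsum : ∑ j, c j • e j = ∑ j ∈ I, c j • e j := by
      refine (Finset.sum_subset (Finset.subset_univ I) fun j _ hj => ?_).symm
      rw [hc0 j hj, zero_smul]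
    refine ⟨c, ?_⟩
    have hwY : w ∈ Y := by
      have h1 : w = y - ∑ j ∈ I, c j • e j := by rw [← hsum, hyc]; abel
      rw [h1]
      exact Y.sub_mem hy (Submodule.sum_mem _ fun j hj => Y.smul_mem _ ((hI j).mp hj))
    rw [hyc, hsum, hdisj w (hW w hw) hwY, add_zero]
  refine ⟨?_, ?_, ?_⟩
  · have h1 : Y = Submodule.span F (Set.range fun j : I => e j) := by
      apply le_antisymm
      · intro y hy
        obtain ⟨c, rfl⟩ := hYX y hy
        exact Submodule.sum_mem _ fun j hj => Submodule.smul_mem _ _ (Submodule.subset_span ⟨⟨j, hj⟩, rfl⟩)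
      · rw [Submodule.span_le]
        rintro _ ⟨j, rfl⟩
        exact (hI j).mp j.2
    have h3 : finrank F (Submodule.span F (Set.range (e ∘ (Subtype.val : I → J)))) = Fintype.card I :=
      finrank_span_eq_card ((hF.linearIndependent h2).comp _ Subtype.val_injective)
    rw [Fintype.card_coe] at h3
    rw [h1]
    exact h3.symm
  · intro y hy
    obtain ⟨c, rfl⟩ := hYX y hy
    rw [map_sum, ← Finset.sum_neg_distrib]
    refine Finset.sum_congr rfl fun j hj => ?_
    rw [map_smul, mono_e hF h2, sgn, if_pos hj]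
    show c j • (-1 : F) • e j = -(c j • e j)
    module
  · intro x hx
    obtain ⟨c, w, hw, hxc⟩ := exists_decomp hF h2 x
    have hc : ∀ j, f (e j) x = 2 * c j := by
      intro j
      rw [hxc, map_add, hw j, add_zero, map_sum, Finset.sum_eq_single j]
      · rw [map_smul, hF.self, smul_eq_mul, mul_comm]
      · intro i _ hi
        rw [map_smul, hF.orth j i hi.symm, smul_zero]
      · intro h; exact absurd (Finset.mem_univ j) h
    have hc0 : ∀ j, j ∈ I → c j = 0 := by
      intro j hj
      have h1 := horth _ hx _ ((hI j).mp hj)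
      rw [hsym, hc] at h1
      exact (mul_eq_zero.mp h1).resolve_left h2
    rw [hxc, map_add, mono_orth hw, map_sum]
    congr 1
    refine Finset.sum_congr rfl fun j _ => ?_
    rw [map_smul, mono_e hF h2, sgn]
    by_cases hj : j ∈ I
    · rw [hc0 j hj, zero_smul, zero_smul]
    · rw [if_neg hj, one_smul]; rfl

end Coord

end Cfsg.Agent.H556.OddCore
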