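import Cfsg.Agent.H556.OddCoreA

/-!
# Odd normal subgroups of orthogonal groups of odd index, II (helper556)
-/

set_option autoImplicit false
set_option linter.unusedSectionVars false

namespace Cfsg.Agent.H556.OddCore

open Module Cfsg.Agent.H556.Om Cfsg.Agent.H167.OP

variable {F : Type*} [Field F] {V : Type*} [AddCommGroup V] [Module F V] [FiniteDimensional F V]
  {f : V →ₗ[F] V →ₗ[F] F} {J : Type*} [Fintype J] [DecidableEq J] {e : J → V} {G : Type*} [Group G]
  {ρ : Representation F G V}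

theorem pow_fix {g : G} {v : V} (h : ρ g v = v) (n : ℕ) : ρ (g ^ n) v = v := by
  induction n with
  | zero => rw [pow_zero, one_ap]
  | succ n ih => rw [pow_succ, mul_ap, h, ih]

theorem fix_of_sq {a : G} (ho : Odd (orderOf a)) {v : V} (h : ρ a (ρ a v) = v) : ρ a v = v := by
  obtain ⟨m, hm⟩ := ho
  have h1 : a = (a * a) ^ (m + 1) := by
    have h2 : a ^ (2 * m + 1) = 1 := by rw [← hm, pow_orderOf_eq_one]
    calc a = a ^ (2 * m + 1) * a := by rw [h2, one_mul]
      _ = (a * a) ^ (m + 1) := by rw [← pow_succ, ← pow_two, ← pow_mul]; rfl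
  have h3 : ρ (a * a) v = v := by rw [mul_ap, h]
  have h4 := pow_fix h3 (m + 1)
  rwa [← h1] at h4

theorem sub_sg (h2 : (2 : F) ≠ 0) (hF : Frame f e) {i j : J} (hij : i ≠ j) (v : V) :
    v - mono f e (sg F i j) id v = f (e i) v • e i + f (e j) v • e j := by
  have h : (1 - mono f e (sg F i j) id : Module.End F V) =
      (f (e i)).smulRight (e i) + (f (e j)).smulRight (e j) := by
    refine ext_frame hF h2 (fun l => ?_) fun w hw => ?_
    · simp only [LinearMap.add_apply, LinearMap.sub_apply, Module.End.one_apply,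
        LinearMap.smulRight_apply, mono_e hF h2, id]
      rw [hF.form, hF.form]
      by_cases hi : i = l
      · subst hi
        simp only [sg, true_or, if_true]
        rw [if_neg hij.symm]
        module
      · by_cases hj : j = l
        · subst hj
          simp only [sg, or_true, if_true]
          rw [if_neg hij]
          module
        · have h3 : sg F i j l = 1 := if_neg (by rintro (h | h); exacts [hi h.symm, hj h.symm])
          rw [h3, if_neg hi, if_neg hj]
          module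
    · simp only [LinearMap.add_apply, LinearMap.sub_apply, Module.End.one_apply,
        LinearMap.smulRight_apply, mono_orth hw, hw i, hw j, zero_smul]
      abel
  exact LinearMap.congr_fun h v

/-- every basis vector lies in one of the two subspaces -/
theorem coord (h2 : (2 : F) ≠ 0) (hF : Frame f e) {a : G} (hc : (orderOf a : F) ≠ 0) {i j k : J}
    (hij : i ≠ j) (hik : i ≠ k) {t t' : G} (ht : ρ t = mono f e (sg F i j) id) (ht' : ρ t' = mono f e (sg F j k) id)
    (hta : t * a * t⁻¹ = a ∨ t * a * t⁻¹ = a⁻¹) (hta' : t' * a * t'⁻¹ = a ∨ t' * a * t'⁻¹ = a⁻¹) :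
    e j ∈ XX ρ a ∨ e j ∈ YY ρ a := by
  obtain ⟨x, hx, y, hy, hxy⟩ := exists_XY (ρ := ρ) hc (e j)
  have key : ∀ v : V, v - ρ t v - ρ t' v + ρ t (ρ t' v) = f (e j) v • ((2 : F) • e j) := by
    intro v
    rw [ht, ht']
    exact proj_eq h2 hF hij hik v
  have hX : f (e j) x • ((2 : F) • e j) ∈ XX ρ a := by
    rw [← key]
    exact (XX ρ a).add_mem ((XX ρ a).sub_mem ((XX ρ a).sub_mem hx (pres_XX hta hx)) (pres_XX hta' hx))
      (pres_XX hta (pres_XX hta' hx))
  have hY : f (e j) y • ((2 : F) • e j) ∈ YY ρ a := by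
    rw [← key]
    exact (YY ρ a).add_mem ((YY ρ a).sub_mem ((YY ρ a).sub_mem hy (pres_YY hta hy)) (pres_YY hta' hy))
      (pres_YY hta (pres_YY hta' hy))
  have hsum : f (e j) x + f (e j) y = 2 := by
    rw [← map_add, ← hxy, hF.self]
  have hdiv : ∀ (U : Submodule F V) (c : F), c ≠ 0 → c • ((2 : F) • e j) ∈ U → e j ∈ U := by
    intro U c hc h
    rw [smul_smul] at h
    exact (Submodule.smul_mem_iff U (mul_ne_zero hc h2)).mp h
  by_cases h0 : f (e j) x = 0
  · right
    refine hdiv _ _ ?_ hY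
    rw [h0, zero_add] at hsum
    rw [hsum]; exact h2
  · exact Or.inl (hdiv _ _ h0 hX)

/-- the dimension of the commutator space of `a` -/
theorem dim_YY [Finite G] (h2 : (2 : F) ≠ 0) (hF : Frame f e) {a : G} (hc : (orderOf a : F) ≠ 0)
    (ho : Odd (orderOf a)) {i j : J} (hij : i ≠ j) {t : G} (ht : ρ t = mono f e (sg F i j) id)
    (htt : t * t = 1) (hta : t * a * t⁻¹ = a⁻¹) : Even (finrank F (YY ρ a)) ∧ finrank F (YY ρ a) ≤ 4 := by
  have htY : ∀ v ∈ YY ρ a, ρ t v ∈ YY ρ a := fun v hv => pres_YY (Or.inr hta) hv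
  have htt' : ∀ v, ρ t (ρ t v) = v := fun v => by rw [← mul_ap, htt, one_ap]
  let Up : Submodule F V := YY ρ a ⊓ LinearMap.ker (ρ t - 1)
  let Um : Submodule F V := YY ρ a ⊓ LinearMap.ker (ρ t + 1)
  have hUp : ∀ v, v ∈ Up ↔ v ∈ YY ρ a ∧ ρ t v = v := by
    intro v
    rw [Submodule.mem_inf, LinearMap.mem_ker, LinearMap.sub_apply, sub_eq_zero]; rfl
  have hUm : ∀ v, v ∈ Um ↔ v ∈ YY ρ a ∧ ρ t v = -v := by
    intro v
    rw [Submodule.mem_inf, LinearMap.mem_ker, LinearMap.add_apply, ← eq_neg_iff_add_eq_zero]; rfl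
  -- the operator `a - a⁻¹`
  let B : Module.End F V := ρ a - ρ a⁻¹
  have hB : ∀ v, B v = ρ a v - ρ a⁻¹ v := fun _ => rfl
  have hBY : ∀ v ∈ YY ρ a, B v ∈ YY ρ a := by
    intro v hv
    rw [hB]
    exact (YY ρ a).sub_mem (pres_YY (Or.inl (by group)) hv) (pres_YY (Or.inl (by group)) hv)
  have h1 : t * a = a⁻¹ * t := by
    calc t * a = (t * a * t⁻¹) * t := by group
      _ = a⁻¹ * t := by rw [hta]
  have h1' : t * a⁻¹ = a * t := by
    calc t * a⁻¹ = (t * a * t⁻¹)⁻¹ * t := by group
      _ = a * t := by rw [hta, inv_inv]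
  have hBt : ∀ v, ρ t (B v) = -(B (ρ t v)) := by
    intro v
    rw [hB, hB, map_sub, ← mul_ap, ← mul_ap, h1, h1', mul_ap, mul_ap]
    abel
  have hBinj : ∀ v ∈ YY ρ a, B v = 0 → v = 0 := by
    intro v hv h
    rw [hB, sub_eq_zero] at h
    have h3 : ρ a (ρ a v) = v := by rw [h, ap_inv]
    exact disj_XY hc (mem_XX.mpr (fix_of_sq ho h3)) hv
  have hpm : finrank F Up ≤ finrank F Um := by
    let φ : Up →ₗ[F] Um := LinearMap.restrict B (p := Up) (q := Um) (by
      intro v hv
      rw [hUp] at hv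
      rw [hUm]
      exact ⟨hBY v hv.1, by rw [hBt, hv.2]⟩)
    refine LinearMap.finrank_le_finrank_of_injective (f := φ) ?_
    rw [← LinearMap.ker_eq_bot, LinearMap.ker_eq_bot']
    intro v hv
    apply Subtype.ext
    exact hBinj v ((hUp v).mp v.2).1 (congrArg Subtype.val hv)
  have hmp : finrank F Um ≤ finrank F Up := by
    let φ : Um →ₗ[F] Up := LinearMap.restrict B (p := Um) (q := Up) (by
      intro v hv
      rw [hUm] at hv
      rw [hUp]
      exact ⟨hBY v hv.1, by rw [hBt, hv.2, map_neg, neg_neg]⟩)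
    refine LinearMap.finrank_le_finrank_of_injective (f := φ) ?_
    rw [← LinearMap.ker_eq_bot, LinearMap.ker_eq_bot']
    intro v hv
    apply Subtype.ext
    exact hBinj v ((hUm v).mp v.2).1 (congrArg Subtype.val hv)
  have hsup : Up ⊔ Um = YY ρ a := by
    apply le_antisymm (sup_le inf_le_left inf_le_left)
    intro v hv
    have h3 : v = (2 : F)⁻¹ • (v + ρ t v) + (2 : F)⁻¹ • (v - ρ t v) := by
      rw [← smul_add]
      have : v + ρ t v + (v - ρ t v) = (2 : F) • v := by module
      rw [this, smul_smul, inv_mul_cancel₀ h2, one_smul]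
    rw [h3]
    refine Submodule.add_mem_sup (Up.smul_mem _ ?_) (Um.smul_mem _ ?_)
    · rw [hUp]
      exact ⟨(YY ρ a).add_mem hv (htY v hv), by rw [map_add, htt']; abel⟩
    · rw [hUm]
      exact ⟨(YY ρ a).sub_mem hv (htY v hv), by rw [map_sub, htt']; abel⟩
  have hinf : Up ⊓ Um = ⊥ := by
    rw [eq_bot_iff]
    intro v hv
    rw [Submodule.mem_inf, hUp, hUm] at hv
    have h3 : v = -v := hv.1.2.symm.trans hv.2.2
    have h4 : (2 : F) • v = 0 := by
      rw [two_smul]
      nth_rewrite 2 [h3]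
      exact add_neg_cancel v
    exact (Submodule.mem_bot F).mpr ((smul_eq_zero.mp h4).resolve_left h2)
  have hdim : finrank F (YY ρ a) = finrank F Up + finrank F Um := by
    have := Submodule.finrank_sup_add_finrank_inf_eq Up Um
    rw [hsup, hinf, finrank_bot, add_zero] at this
    exact this
  have hle : finrank F Um ≤ 2 := by
    have h3 : Um ≤ Submodule.span F ({e i, e j} : Set V) := by
      intro v hv
      rw [hUm] at hv
      have h4 := sub_sg (f := f) h2 hF hij v
      rw [← ht, hv.2, sub_neg_eq_add, ← two_smul F] at h4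
      have h5 : (2 : F) • v ∈ Submodule.span F ({e i, e j} : Set V) := by
        rw [h4]
        exact Submodule.add_mem _ (Submodule.smul_mem _ _ (Submodule.subset_span (by simp)))
          (Submodule.smul_mem _ _ (Submodule.subset_span (by simp)))
      exact (Submodule.smul_mem_iff _ h2).mp h5
    refine (Submodule.finrank_mono h3).trans ?_
    classical
    have h4 := finrank_span_finset_le_card (R := F) ({e i, e j} : Finset V)
    rw [Finset.coe_pair] at h4
    exact h4.trans Finset.card_le_two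
  have heq : finrank F Up = finrank F Um := le_antisymm hpm hmp
  refine ⟨⟨finrank F Um, by rw [hdim, heq]⟩, by omega⟩

/-- if all sign changes commute with `a` then `a = 1` -/
theorem eq_one_of_comm (hinj : Function.Injective ρ) (h2 : (2 : F) ≠ 0) (hsym : ∀ u v, f u v = f v u)
    (hnd : ∀ x, (∀ y, f x y = 0) → x = 0) (hiso : ∀ g u v, f (ρ g u) (ρ g v) = f u v) (hF : Frame f e)
    (hW1 : ∀ w w', (∀ j, f (e j) w = 0) → (∀ j, f (e j) w' = 0) → w ≠ 0 → ∃ c : F, w' = c • w) {a : G}
    (hc : (orderOf a : F) ≠ 0) (ho : Odd (orderOf a))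
    (hcomm : ∀ j, ∃ i k, i ≠ j ∧ i ≠ k ∧ ∃ t t', ρ t = mono f e (sg F i j) id ∧ ρ t' = mono f e (sg F j k) id ∧
      t * a * t⁻¹ = a ∧ t' * a * t'⁻¹ = a) : a = 1 := by
  have hcm : ∀ {t : G}, t * a * t⁻¹ = a → ∀ v, ρ t (ρ a v) = ρ a (ρ t v) := by
    intro t h v
    have h1 : t * a = a * t := by
      calc t * a = (t * a * t⁻¹) * t := by group
        _ = a * t := by rw [h]
    rw [← mul_ap, h1, mul_ap]
  have hfix : ∀ j, ρ a (e j) = e j := by
    intro j
    obtain ⟨i, k, hij, hik, t, t', ht, ht', hta, hta'⟩ := hcomm j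
    have key : ∀ v : V, v - ρ t v - ρ t' v + ρ t (ρ t' v) = f (e j) v • ((2 : F) • e j) := by
      intro v
      rw [ht, ht']
      exact proj_eq h2 hF hij hik v
    have h1 := key (ρ a (e j))
    have h3 : ρ a (e j) - ρ t (ρ a (e j)) - ρ t' (ρ a (e j)) + ρ t (ρ t' (ρ a (e j))) =
        ρ a (e j - ρ t (e j) - ρ t' (e j) + ρ t (ρ t' (e j))) := by
      rw [hcm hta, hcm hta', hcm hta]
      simp only [map_add, map_sub]
    rw [h3, key (e j), hF.self, map_smul, map_smul, smul_smul, smul_smul] at h1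
    set c := f (e j) (ρ a (e j)) with hcdef
    have h22 : (2 : F) * 2 ≠ 0 := mul_ne_zero h2 h2
    have h4 : ρ a (e j) = ((2 : F)⁻¹ * c) • e j := by
      have h5 : ρ a (e j) = ((2 : F) * 2)⁻¹ • ((2 : F) * 2) • ρ a (e j) := by
        rw [smul_smul, inv_mul_cancel₀ h22, one_smul]
      rw [h5, h1, smul_smul]
      congr 1
      rw [mul_inv]
      field_simp
    have h6 : ((2 : F)⁻¹ * c) * ((2 : F)⁻¹ * c) = 1 := by
      have h7 := hiso a (e j) (e j)
      rw [h4, map_smul, map_smul, LinearMap.smul_apply, hF.self, smul_eq_mul, smul_eq_mul, ← mul_assoc] at h7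
      exact mul_right_cancel₀ h2 (by rw [h7, one_mul])
    apply fix_of_sq ho
    rw [h4, map_smul, h4, smul_smul, h6, one_smul]
  -- the commutator space is zero
  have hYW : ∀ y ∈ YY ρ a, ∀ j, f (e j) y = 0 := fun y hy j => orth_XY hiso (mem_XX.mpr (hfix j)) hy
  have hY : ∀ y ∈ YY ρ a, y = 0 := by
    intro y hy
    by_contra hy0
    obtain ⟨c, hcy⟩ := hW1 y (ρ a y) (hYW y hy) (hYW _ (pres_YY (Or.inl (by group)) hy)) hy0
    have hyy : f y y ≠ 0 := by
      intro h0
      apply hy0
      apply hnd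
      intro v
      obtain ⟨x, hx, y', hy', rfl⟩ := exists_XY (ρ := ρ) hc v
      obtain ⟨d, hd⟩ := hW1 y y' (hYW y hy) (hYW y' hy') hy0
      rw [map_add, hsym y x, orth_XY hiso hx hy, hd, map_smul, h0, smul_zero, add_zero]
    have h6 : c * c = 1 := by
      have h7 := hiso a y y
      rw [hcy, map_smul, map_smul, LinearMap.smul_apply, smul_eq_mul, smul_eq_mul, ← mul_assoc] at h7
      exact mul_right_cancel₀ hyy (by rw [h7, one_mul])
    apply hy0
    apply disj_XY hc _ hy
    rw [mem_XX]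
    apply fix_of_sq ho
    rw [hcy, map_smul, hcy, smul_smul, h6, one_smul]
  apply hinj
  rw [map_one]
  apply LinearMap.ext
  intro v
  exact sub_eq_zero.mp (hY _ ⟨v, rfl⟩)

end Cfsg.Agent.H556.OddCore
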