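import Cfsg.Agent.H556.OddCoreB

/-!
# Odd normal subgroups of orthogonal groups of odd index, III (helper556): the abstract theorem
-/

set_option autoImplicit false
set_option linter.unusedSectionVars false

namespace Cfsg.Agent.H556.OddCore

open Module Cfsg.Agent.H556.Om Cfsg.Agent.H167.OP

variable {F : Type*} [Field F] {V : Type*} [AddCommGroup V] [Module F V] [FiniteDimensional F V]
  {f : V →ₗ[F] V →ₗ[F] F} {J : Type*} [Fintype J] [DecidableEq J] {e : J → V} {G : Type*} [Group G]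
  {ρ : Representation F G V}

theorem mono_comm (h2 : (2 : F) ≠ 0) (hF : Frame f e) (s t : J → F) :
    mono f e s id * mono f e t id = mono f e t id * mono f e s id := by
  rw [mono_mul hF h2, mono_mul hF h2]
  congr 1
  funext j
  exact mul_comm _ _

theorem sg_sq (i j k : J) : sg F i j k * sg F i j k = 1 := by
  unfold sg
  split_ifs <;> ring

/-- the leftover space is in one of the two subspaces -/
theorem leftover (hsym : ∀ u v, f u v = f v u) {X Y : Submodule F V} (horth : ∀ x ∈ X, ∀ y ∈ Y, f x y = 0)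
    (hdisj : ∀ v ∈ X, v ∈ Y → v = 0) (hsum : ∀ v, ∃ x ∈ X, ∃ y ∈ Y, v = x + y)
    (hW1 : ∀ w w', (∀ j, f (e j) w = 0) → (∀ j, f (e j) w' = 0) → w ≠ 0 → ∃ c : F, w' = c • w)
    (hcoord : ∀ j, e j ∈ X ∨ e j ∈ Y) :
    (∀ w, (∀ j, f (e j) w = 0) → w ∈ X) ∨ (∀ w, (∀ j, f (e j) w = 0) → w ∈ Y) := by
  by_cases h0 : ∀ w, (∀ j, f (e j) w = 0) → w = 0
  · left
    intro w hw
    rw [h0 w hw]
    exact X.zero_mem
  · push Not at h0
    obtain ⟨w, hw, hw0⟩ := h0
    obtain ⟨x, hx, y, hy, hxy⟩ := hsum w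
    have hxW : ∀ j, f (e j) x = 0 := by
      intro j
      rcases hcoord j with h | h
      · have h1 := hw j
        rw [hxy, map_add, horth _ h _ hy, add_zero] at h1
        exact h1
      · rw [hsym]
        exact horth _ hx _ h
    have hyW : ∀ j, f (e j) y = 0 := by
      intro j
      have h1 := hw j
      rw [hxy, map_add, hxW j, zero_add] at h1
      exact h1
    by_cases hx0 : x = 0
    · right
      have hy0 : y ≠ 0 := by
        rintro rfl
        apply hw0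
        rw [hxy, hx0, add_zero]
      intro w' hw'
      obtain ⟨c, hc⟩ := hW1 y w' hyW hw' hy0
      rw [hc]
      exact Y.smul_mem _ hy
    · left
      intro w' hw'
      obtain ⟨c, hc⟩ := hW1 x w' hxW hw' hx0
      rw [hc]
      exact X.smul_mem _ hx

/-- **the abstract theorem** -/
theorem main [Finite G] (hinj : Function.Injective ρ) (h2 : (2 : F) ≠ 0) (hsym : ∀ u v, f u v = f v u)
    (hnd : ∀ x, (∀ y, f x y = 0) → x = 0) (hiso : ∀ g u v, f (ρ g u) (ρ g v) = f u v) (hF : Frame f e)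
    (hW1 : ∀ w w', (∀ j, f (e j) w = 0) → (∀ j, f (e j) w' = 0) → w ≠ 0 → ∃ c : F, w' = c • w)
    (hpar : (∀ w, (∀ j, f (e j) w = 0) → w = 0) ∨ Even (finrank F V)) (hdim : 5 ≤ finrank F V)
    (hJ : 3 ≤ Fintype.card J)
    (hD : ∀ I : Finset J, Even I.card → ∃ g, ρ g = mono f e (sgn F I) id)
    (hcG : (Nat.card G : F) ≠ 0) {A : Subgroup G} [hN : A.Normal] (hA : A ≠ ⊥)
    (hab : ∀ a ∈ A, ∀ b ∈ A, a * b = b * a) (hodd : Odd (Nat.card A)) :
    ∃ z : G, z * z = 1 ∧ (∀ g : G, z * (g * z * g⁻¹) = g * z * g⁻¹ * z) ∧ (∃ v, v ≠ 0 ∧ ρ z v = v) ∧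
      (∃ v, v ≠ 0 ∧ ρ z v = -v) := by
  classical
  let T : Set G := {g | ∃ i j, i ≠ j ∧ ρ g = mono f e (sg F i j) id}
  have hTT : ∀ s ∈ T, ∀ t ∈ T, s * t = t * s := by
    rintro s ⟨i, j, -, hs⟩ t ⟨k, l, -, ht⟩
    apply hinj
    rw [map_mul, map_mul, hs, ht, mono_comm h2 hF]
  have hT2 : ∀ t ∈ T, t * t = 1 := by
    rintro t ⟨k, l, -, ht⟩
    apply hinj
    rw [map_mul, map_one, ht, mono_mul hF h2]
    exact mono_one hF h2 (fun j => sg_sq _ _ _) fun _ => rfl
  have hsgT : ∀ i j : J, i ≠ j → ∃ t ∈ T, ρ t = mono f e (sg F i j) id := by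
    intro i j hij
    obtain ⟨g, hg⟩ := hD {i, j} (by rw [Finset.card_pair hij]; exact even_two)
    have h1 : sgn F ({i, j} : Finset J) = sg F i j := by
      funext k
      simp [sgn, sg]
    rw [h1] at hg
    exact ⟨g, ⟨i, j, hij, hg⟩, hg⟩
  obtain ⟨a, ha, ha1, hTa⟩ := exists_eigen hTT hT2 _ A rfl hab hA fun t _ a ha => hN.conj_mem a ha t
  have hc : (orderOf a : F) ≠ 0 := by
    intro h
    obtain ⟨m, hm⟩ := orderOf_dvd_natCard a
    exact hcG (by rw [hm, Nat.cast_mul, h, zero_mul])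
  have ho : Odd (orderOf a) := by
    have h1 : orderOf a ∣ Nat.card A := by
      have := orderOf_dvd_natCard (⟨a, ha⟩ : A)
      rwa [Subgroup.orderOf_mk] at this
    exact hodd.of_dvd_nat h1
  have hthree : ∀ j : J, ∃ i k, i ≠ j ∧ j ≠ k ∧ i ≠ k := by
    intro j
    have h1 : 2 ≤ (Finset.univ.erase j).card := by
      rw [Finset.card_erase_of_mem (Finset.mem_univ j), Finset.card_univ]
      omega
    obtain ⟨i, hi, k, hk, hik⟩ := Finset.one_lt_card.mp h1
    exact ⟨i, k, (Finset.mem_erase.mp hi).1, (Finset.mem_erase.mp hk).1.symm, hik⟩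
  have hcoord : ∀ j, e j ∈ XX ρ a ∨ e j ∈ YY ρ a := by
    intro j
    obtain ⟨i, k, hij, hjk, hik⟩ := hthree j
    obtain ⟨t, htT, ht⟩ := hsgT i j hij
    obtain ⟨t', htT', ht'⟩ := hsgT j k hjk
    exact coord h2 hF hc hij hik ht ht' (hTa t htT) (hTa t' htT')
  -- some sign change inverts `a`
  have hinv : ∃ i j : J, i ≠ j ∧ ∃ t, ρ t = mono f e (sg F i j) id ∧ t * t = 1 ∧ t * a * t⁻¹ = a⁻¹ := by
    by_contra hcon
    push Not at hcon
    have hcm : ∀ t ∈ T, t * a * t⁻¹ = a := by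
      rintro t ht
      refine (hTa t ht).resolve_right ?_
      obtain ⟨i, j, hij, ht'⟩ := ht
      exact hcon i j hij t ht' (hT2 t ⟨i, j, hij, ht'⟩)
    apply ha1
    refine eq_one_of_comm hinj h2 hsym hnd hiso hF hW1 hc ho fun j => ?_
    obtain ⟨i, k, hij, hjk, hik⟩ := hthree j
    obtain ⟨t, htT, ht⟩ := hsgT i j hij
    obtain ⟨t', htT', ht'⟩ := hsgT j k hjk
    exact ⟨i, k, hij, hik, t, t', ht, ht', hcm t htT, hcm t' htT'⟩
  obtain ⟨i₀, j₀, hij₀, t₀, ht₀, htt₀, hta₀⟩ := hinv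
  obtain ⟨hevY, hY4⟩ := dim_YY h2 hF hc ho hij₀ ht₀ htt₀ hta₀
  have hXY := finrank_XY (ρ := ρ) (a := a)
  have hdisj : ∀ v ∈ XX ρ a, v ∈ YY ρ a → v = 0 := fun v => disj_XY hc
  have horth : ∀ x ∈ XX ρ a, ∀ y ∈ YY ρ a, f x y = 0 := fun x hx y hy => orth_XY hiso hx hy
  -- the involution
  have hz : ∃ (z : G) (ε : F), (ε = 1 ∨ ε = -1) ∧ (∀ v ∈ XX ρ a, ρ z v = ε • v) ∧
      (∀ v ∈ YY ρ a, ρ z v = -(ε • v)) := by
    rcases leftover hsym horth hdisj (exists_XY hc) hW1 hcoord with hW | hW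
    · obtain ⟨hI1, hI2, hI3⟩ := split h2 hF hsym horth hdisj hcoord hW
        (Finset.univ.filter fun j => e j ∈ YY ρ a) (by simp)
      obtain ⟨z, hz⟩ := hD _ (by rw [hI1]; exact hevY)
      refine ⟨z, 1, Or.inl rfl, fun v hv => ?_, fun v hv => ?_⟩
      · rw [hz, hI3 v hv, one_smul]
      · rw [hz, hI2 v hv, one_smul]
    · rcases hpar with hW0 | hev
      · -- no leftover
        obtain ⟨hI1, hI2, hI3⟩ := split h2 hF hsym horth hdisj hcoord (fun w hw => by
            rw [hW0 w hw]; exact (XX ρ a).zero_mem)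
          (Finset.univ.filter fun j => e j ∈ YY ρ a) (by simp)
        obtain ⟨z, hz⟩ := hD _ (by rw [hI1]; exact hevY)
        refine ⟨z, 1, Or.inl rfl, fun v hv => ?_, fun v hv => ?_⟩
        · rw [hz, hI3 v hv, one_smul]
        · rw [hz, hI2 v hv, one_smul]
      · obtain ⟨hI1, hI2, hI3⟩ := split (X := YY ρ a) (Y := XX ρ a) h2 hF hsym
          (fun x hx y hy => by rw [hsym]; exact horth y hy x hx) (fun v hv hv' => hdisj v hv' hv)
          (fun j => (hcoord j).symm) hW (Finset.univ.filter fun j => e j ∈ XX ρ a) (by simp)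
        obtain ⟨z, hz⟩ := hD _ (by
          rw [hI1]
          rw [← hXY] at hev
          exact (Nat.even_add.mp hev).mpr hevY)
        refine ⟨z, -1, Or.inr rfl, fun v hv => ?_, fun v hv => ?_⟩
        · rw [hz, hI2 v hv, neg_smul, one_smul]
        · rw [hz, hI3 v hv, neg_smul, one_smul, neg_neg]
  obtain ⟨z, ε, hε, hzX, hzY⟩ := hz
  have hεε : ε * ε = 1 := by rcases hε with h | h <;> rw [h] <;> ring
  -- elements preserving the two subspaces commute with `z`
  have hcomm : ∀ b : G, b * a * b⁻¹ = a → z * b = b * z := by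
    intro b hb
    apply hinj
    apply LinearMap.ext
    intro v
    obtain ⟨x, hx, y, hy, rfl⟩ := exists_XY (ρ := ρ) hc v
    rw [mul_ap, mul_ap, map_add, map_add, map_add, map_add, hzX _ (pres_XX (Or.inl hb) hx),
      hzY _ (pres_YY (Or.inl hb) hy), hzX _ hx, hzY _ hy, map_smul, map_neg, map_smul]
  have hzA : ∀ b ∈ A, z * b = b * z := by
    intro b hb
    apply hcomm
    rw [hab b hb a ha, mul_inv_cancel_right]
  refine ⟨z, ?_, ?_, ?_, ?_⟩
  · apply hinj
    apply LinearMap.ext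
    intro v
    obtain ⟨x, hx, y, hy, rfl⟩ := exists_XY (ρ := ρ) hc v
    rw [mul_ap, map_one, Module.End.one_apply, map_add, hzX _ hx, hzY _ hy, map_add, map_smul, map_neg,
      map_smul, hzX _ hx, hzY _ hy, smul_neg, neg_neg, smul_smul, smul_smul, hεε, one_smul, one_smul]
  · intro g
    have h1 : z * (g⁻¹ * a * g) = g⁻¹ * a * g * z := hzA _ (by
      have := hN.conj_mem a ha g⁻¹
      rwa [inv_inv] at this)
    refine hcomm (g * z * g⁻¹) ?_
    have h3 : g * z * g⁻¹ * a = a * (g * z * g⁻¹) := by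
      calc g * z * g⁻¹ * a = g * (z * (g⁻¹ * a * g)) * g⁻¹ := by group
        _ = g * (g⁻¹ * a * g * z) * g⁻¹ := by rw [h1]
        _ = a * (g * z * g⁻¹) := by group
    rw [h3, mul_inv_cancel_right]
  all_goals
    have hX0 : ∃ v ∈ XX ρ a, v ≠ 0 := by
      apply Submodule.exists_mem_ne_zero_of_ne_bot
      intro h
      rw [h, finrank_bot] at hXY
      omega
    have hY0 : ∃ v ∈ YY ρ a, v ≠ 0 := by
      apply Submodule.exists_mem_ne_zero_of_ne_bot
      intro h
      apply ha1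
      apply hinj
      rw [map_one]
      apply LinearMap.ext
      intro v
      have h1 : ρ a v - v ∈ YY ρ a := ⟨v, rfl⟩
      rw [h, Submodule.mem_bot, sub_eq_zero] at h1
      exact h1
    obtain ⟨x, hx, hx0⟩ := hX0
    obtain ⟨y, hy, hy0⟩ := hY0
  · rcases hε with rfl | rfl
    · exact ⟨x, hx0, by rw [hzX x hx, one_smul]⟩
    · exact ⟨y, hy0, by rw [hzY y hy, neg_smul, one_smul, neg_neg]⟩
  · rcases hε with rfl | rfl
    · exact ⟨y, hy0, by rw [hzY y hy, one_smul]⟩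
    · exact ⟨x, hx0, by rw [hzX x hx, neg_smul, one_smul]⟩

end Cfsg.Agent.H556.OddCore
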