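import Cfsg.Agent.H556.OddCoreD
import Cfsg.Agent.H165.RV.Defs

/-!
# Odd normal subgroups of orthogonal groups of odd index, V (helper556): the theorem for `Omega`
-/

set_option autoImplicit false
set_option linter.unusedSectionVars false

namespace Cfsg.Agent.H556.OddCore

open Module QuadraticMap Cfsg.Agent.H556.Om Cfsg.Agent.H167.OP Cfsg.Agent.H170.HL Cfsg.Agent.H170.HL.OmRow

section Frames

variable {F : Type*} [Field F] {ι : Type} [Fintype ι] [DecidableEq ι] {Q : QuadraticForm F (ι → F)}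

theorem exists_sumsq [Finite F] (h2 : (2 : F) ≠ 0) (d : F) : ∃ a b : F, a * a + b * b = d := by
  classical
  have : Fintype F := Fintype.ofFinite F
  obtain ⟨a, b, hab⟩ := FiniteField.exists_root_sum_quadratic (R := F)
    (f := Polynomial.C 1 * Polynomial.X ^ 2 + Polynomial.C 0 * Polynomial.X + Polynomial.C (-d))
    (g := Polynomial.C 1 * Polynomial.X ^ 2 + Polynomial.C 0 * Polynomial.X + Polynomial.C 0)
    (Polynomial.degree_quadratic one_ne_zero) (Polynomial.degree_quadratic one_ne_zero) (by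
      have hchar : ringChar F ≠ 2 := by
        intro h
        apply h2
        have := ringChar.Nat.cast_ringChar (R := F)
        rw [h] at this
        exact_mod_cast this
      exact FiniteField.odd_card_of_char_ne_two hchar)
  refine ⟨a, b, ?_⟩
  simp only [Polynomial.eval_add, Polynomial.eval_mul, Polynomial.eval_pow, Polynomial.eval_C, Polynomial.eval_X]
    at hab
  linear_combination hab

theorem exists_scaled [Finite F] (hnd : (polarBilin Q).Nondegenerate) (h2 : (2 : F) ≠ 0) (hN : 1 ≤ Fintype.card ι) :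
    ∃ (c : F) (_ : c ≠ 0) (J : Type) (_ : Fintype J) (_ : DecidableEq J) (e : J → ι → F),
      Frame (c⁻¹ • polarBilin Q) e ∧ (Fintype.card J = Fintype.card ι ∨
        (Fintype.card J + 1 = Fintype.card ι ∧ Even (Fintype.card ι))) := by
  have hF0 : Frame (polarBilin Q) (fun i : Fin 0 => (i.elim0 : ι → F)) := ⟨fun i => i.elim0, fun i => i.elim0⟩
  rcases Nat.even_or_odd (Fintype.card ι) with hev | ⟨m, hm⟩
  · obtain ⟨x, hx, -⟩ := exists_frames hnd h2 hF0 (Fintype.card ι - 1) (by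
      rw [Fintype.card_fin]; omega)
    refine ⟨1, one_ne_zero, Fin (Fintype.card ι - 1), inferInstance, inferInstance, x, ?_, Or.inr ⟨?_, hev⟩⟩
    · rw [inv_one, one_smul]
      exact hx
    · rw [Fintype.card_fin]; omega
  · obtain ⟨x₀, hx₀, -⟩ := exists_frames hnd h2 hF0 (2 * m) (by
      rw [Fintype.card_fin]; omega)
    let ε : Fin m × Bool ≃ Fin (2 * m) := Fintype.equivOfCardEq (by
      rw [Fintype.card_prod, Fintype.card_fin, Fintype.card_fin, Fintype.card_bool, mul_comm])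
    let x : Fin m × Bool → ι → F := x₀ ∘ ε
    have hx : Frame (polarBilin Q) x := hx₀.comp ε.injective
    obtain ⟨w, hw, hww⟩ := exists_next hnd h2 (x := x) (fun j => by rw [hx.self]; exact h2) hx.orth (by
      rw [Fintype.card_prod, Fintype.card_fin, Fintype.card_bool]; omega)
    set d : F := (2 : F)⁻¹ * polarBilin Q w w with hd
    have hd0 : d ≠ 0 := mul_ne_zero (inv_ne_zero h2) hww
    obtain ⟨a, b, hab⟩ := exists_sumsq h2 d
    let e : Option (Fin m × Bool) → ι → F := fun o => o.elim w fun j =>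
      if j.2 then a • x (j.1, true) + b • x (j.1, false) else (-b) • x (j.1, true) + a • x (j.1, false)
    have hxt : ∀ i, e (some (i, true)) = a • x (i, true) + b • x (i, false) := fun _ => rfl
    have hxf : ∀ i, e (some (i, false)) = (-b) • x (i, true) + a • x (i, false) := fun _ => rfl
    have hne : ∀ (i k : Fin m) (s t : Bool), i ≠ k → polarBilin Q (x (i, s)) (x (k, t)) = 0 := fun i k s t h =>
      hx.orth _ _ fun h' => h (congrArg Prod.fst h')
    have htf : ∀ i, polarBilin Q (x (i, true)) (x (i, false)) = 0 := fun i => hx.orth _ _ (by simp)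
    have hft : ∀ i, polarBilin Q (x (i, false)) (x (i, true)) = 0 := fun i => hx.orth _ _ (by simp)
    have hwx : ∀ j, polarBilin Q w (x j) = 0 := fun j => by rw [polar_symm, hw]
    refine ⟨d, hd0, Option (Fin m × Bool), inferInstance, inferInstance, e, ⟨?_, ?_⟩, Or.inl ?_⟩
    · rintro (_ | ⟨i, _ | _⟩)
      · show d⁻¹ * polarBilin Q w w = 2
        rw [inv_mul_eq_iff_eq_mul₀ hd0, hd]
        field_simp
      · rw [sc_apply, hxf, inv_mul_eq_iff_eq_mul₀ hd0]
        simp only [map_add, map_smul, LinearMap.add_apply, LinearMap.smul_apply, smul_eq_mul, hx.self, htf, hft]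
        linear_combination 2 * hab
      · rw [sc_apply, hxt, inv_mul_eq_iff_eq_mul₀ hd0]
        simp only [map_add, map_smul, LinearMap.add_apply, LinearMap.smul_apply, smul_eq_mul, hx.self, htf, hft]
        linear_combination 2 * hab
    · have hwe : ∀ j, polarBilin Q w (e (some j)) = 0 := by
        rintro ⟨i, _ | _⟩
        · rw [hxf, map_add, map_smul, map_smul, hwx, hwx, smul_zero, smul_zero, add_zero]
        · rw [hxt, map_add, map_smul, map_smul, hwx, hwx, smul_zero, smul_zero, add_zero]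
      rintro (_ | ⟨i, s⟩) (_ | ⟨k, t⟩) hij
      · exact absurd rfl hij
      · rw [sc_apply]
        show d⁻¹ * polarBilin Q w (e (some (k, t))) = 0
        rw [hwe, mul_zero]
      · rw [sc_symm, sc_apply]
        show d⁻¹ * polarBilin Q w (e (some (i, s))) = 0
        rw [hwe, mul_zero]
      · rw [sc_apply]
        have key : polarBilin Q (e (some (i, s))) (e (some (k, t))) = 0 := by
          by_cases hik : i = k
          · subst hik
            cases s <;> cases t
            · exact absurd rfl hij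
            · rw [hxf, hxt]
              simp only [map_add, map_smul, LinearMap.add_apply, LinearMap.smul_apply, smul_eq_mul, hx.self, htf, hft]
              ring
            · rw [hxf, hxt]
              simp only [map_add, map_smul, LinearMap.add_apply, LinearMap.smul_apply, smul_eq_mul, hx.self, htf, hft]
              ring
            · exact absurd rfl hij
          · cases s <;> cases t <;> simp only [hxf, hxt, map_add, map_smul, LinearMap.add_apply,
              LinearMap.smul_apply, smul_eq_mul, hne _ _ _ _ hik, mul_zero, add_zero]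
        rw [key, mul_zero]
    · rw [Fintype.card_option, Fintype.card_prod, Fintype.card_fin, Fintype.card_bool]
      omega

/-- **the theorem in `Omega`** -/
theorem exists_invol [Finite F] (hQ : GoodQ Q) (h2 : (2 : F) ≠ 0) (hN : 5 ≤ Fintype.card ι)
    {H : Subgroup (Cfsg.Omega F (⇑Q))} (hH : ¬ 2 ∣ H.index) (hcH : (Nat.card H : F) ≠ 0) {A : Subgroup H}
    [hA' : A.Normal] (hA : A ≠ ⊥) (hab : ∀ a ∈ A, ∀ b ∈ A, a * b = b * a) (hodd : Odd (Nat.card A)) :
    ∃ z : H, z * z = 1 ∧ (∀ g : H, z * (g * z * g⁻¹) = g * z * g⁻¹ * z) ∧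
      (∃ v, v ≠ 0 ∧ rep (inc (⇑Q)) (z : Cfsg.Omega F (⇑Q)) v = v) ∧
      (∃ v, v ≠ 0 ∧ rep (inc (⇑Q)) (z : Cfsg.Omega F (⇑Q)) v = -v) := by
  have hfin : Finite (Cfsg.Omega F (⇑Q)) := inferInstance
  obtain ⟨c, hc, J, _, _, e₀, hF₀, hcard⟩ := exists_scaled hQ.nd h2 (by omega)
  obtain ⟨e, hF, hD⟩ := exists_frame_in hQ h2 hc hF₀ hH
  let ρ : Representation F H (ι → F) := (rep (inc (⇑Q))).comp H.subtype
  have hρ : ∀ g : H, ρ g = rep (inc (⇑Q)) (g : Cfsg.Omega F (⇑Q)) := fun _ => rfl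
  let W : Submodule F (ι → F) := ⨅ j, LinearMap.ker ((c⁻¹ • polarBilin Q) (e j))
  have hW : ∀ w, w ∈ W ↔ ∀ j, (c⁻¹ • polarBilin Q) (e j) w = 0 := by
    intro w
    simp only [W, Submodule.mem_iInf, LinearMap.mem_ker]
  have hWd := leftover_dim h2 hF W hW
  have hfr : finrank F (ι → F) = Fintype.card ι := Module.finrank_pi F
  refine main (ρ := ρ) (f := c⁻¹ • polarBilin Q) (e := e) (A := A) ?_ h2 sc_symm ?_ (fun g u v => sc_iso _ u v) hF
    ?_ ?_ (by rw [hfr]; exact hN) (by omega) ?_ hcH hA hab hodd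
  · intro x y hxy
    exact Subtype.ext (rep_inj hxy)
  · intro x hx
    apply hQ.nd.1
    intro y
    have h := hx y
    rw [sc_apply] at h
    exact (mul_eq_zero.mp h).resolve_left (inv_ne_zero hc)
  · intro w w' hw hw' hw0
    have h1 : finrank F W = 1 := by
      have h3 : finrank F W ≠ 0 := by
        intro h0
        rw [Submodule.finrank_eq_zero] at h0
        have h4 := (hW w).mpr hw
        rw [h0, Submodule.mem_bot] at h4
        exact hw0 h4
      omega
    obtain ⟨d, hd⟩ := (finrank_eq_one_iff_of_nonzero' (⟨w, (hW w).mpr hw⟩ : W)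
      (fun h => hw0 (congrArg Subtype.val h))).mp h1 ⟨w', (hW w').mpr hw'⟩
    exact ⟨d, (congrArg Subtype.val hd).symm⟩
  · rcases hcard with h | ⟨-, h⟩
    · left
      intro w hw
      have h3 : finrank F W = 0 := by omega
      rw [Submodule.finrank_eq_zero] at h3
      have h4 := (hW w).mpr hw
      rwa [h3, Submodule.mem_bot] at h4
    · right
      rw [hfr]
      exact h
  · intro I hI
    obtain ⟨g, hg, hgI⟩ := hD I hI
    exact ⟨⟨g, hg⟩, hgI⟩

end Frames

/-! ### From the involution to a normal 2-subgroup -/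

theorem isPGroup_closure {G : Type*} [Group G] {S : Set G} (hS : ∀ x ∈ S, ∀ y ∈ S, x * y = y * x)
    (h2 : ∀ x ∈ S, x * x = 1) : IsPGroup 2 (Subgroup.closure S) := by
  have h1 : Subgroup.closure S ≤ Subgroup.centralizer S := by
    rw [Subgroup.closure_le]
    intro x hx
    rw [SetLike.mem_coe, Subgroup.mem_centralizer_iff]
    exact fun y hy => hS y hy x hx
  have h3 : ∀ x ∈ Subgroup.closure S, x * x = 1 := by
    intro x hx
    induction hx using Subgroup.closure_induction with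
    | mem x hx => exact h2 x hx
    | one => exact one_mul 1
    | mul x y hx hy hx1 hy1 =>
      have h4 : Subgroup.closure S ≤ Subgroup.centralizer (Subgroup.closure S : Set G) := by
        rw [Subgroup.closure_le]
        intro s hs
        rw [SetLike.mem_coe, Subgroup.mem_centralizer_iff]
        intro t ht
        exact ((Subgroup.mem_centralizer_iff.mp (h1 ht)) s hs).symm
      have h5 : x * y = y * x := ((Subgroup.mem_centralizer_iff.mp (h4 hy)) x hx)
      calc x * y * (x * y) = x * y * (y * x) := by rw [← h5]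
        _ = x * (y * y) * x := by group
        _ = 1 := by rw [hy1, mul_one, hx1]
    | inv x hx hx1 => rw [← mul_inv_rev, hx1, inv_one]
  rintro ⟨x, hx⟩
  refine ⟨1, Subtype.ext ?_⟩
  show x ^ 2 ^ 1 = 1
  rw [pow_one, pow_two]
  exact h3 x hx

/-- the normal closure of an involution all conjugates of which commute -/
theorem exists_normal {G : Type*} [Group G] {z : G} (hz : z * z = 1) (hc : ∀ g : G, z * (g * z * g⁻¹) = g * z * g⁻¹ * z) :
    ∃ N : Subgroup G, N.Normal ∧ z ∈ N ∧ IsPGroup 2 N := by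
  refine ⟨Subgroup.normalClosure {z}, inferInstance, Subgroup.subset_normalClosure rfl, ?_⟩
  unfold Subgroup.normalClosure
  refine isPGroup_closure ?_ ?_
  · intro x hx y hy
    rw [Group.mem_conjugatesOfSet_iff] at hx hy
    obtain ⟨a, ha, hx⟩ := hx
    obtain ⟨b, hb, hy⟩ := hy
    rw [Set.mem_singleton_iff.mp ha] at hx
    rw [Set.mem_singleton_iff.mp hb] at hy
    obtain ⟨g, rfl⟩ := isConj_iff.mp hx
    obtain ⟨h, rfl⟩ := isConj_iff.mp hy
    have h1 := hc (g⁻¹ * h)
    have h3 : g * (z * (g⁻¹ * h * z * (g⁻¹ * h)⁻¹)) * g⁻¹ = g * (g⁻¹ * h * z * (g⁻¹ * h)⁻¹ * z) * g⁻¹ := by rw [h1]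
    have h4 : g * (z * (g⁻¹ * h * z * (g⁻¹ * h)⁻¹)) * g⁻¹ = g * z * g⁻¹ * (h * z * h⁻¹) := by group
    have h5 : g * (g⁻¹ * h * z * (g⁻¹ * h)⁻¹ * z) * g⁻¹ = h * z * h⁻¹ * (g * z * g⁻¹) := by group
    rw [← h4, ← h5, h3]
  · intro x hx
    rw [Group.mem_conjugatesOfSet_iff] at hx
    obtain ⟨a, ha, hx⟩ := hx
    rw [Set.mem_singleton_iff.mp ha] at hx
    obtain ⟨g, rfl⟩ := isConj_iff.mp hx
    calc g * z * g⁻¹ * (g * z * g⁻¹) = g * (z * z) * g⁻¹ := by group
      _ = 1 := by rw [hz, mul_one, mul_inv_cancel]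

/-- the odd part of a central extension of an abelian group of odd order by involutions -/
theorem exists_lift {K S : Type*} [Group K] [Finite K] [Group S] (φ : K →* S) (hφ : Function.Surjective φ)
    (hker : ∀ k, φ k = 1 → k * k = 1 ∧ ∀ g, g * k = k * g) {C H : Subgroup S} (hCH : C ≤ H) (hC1 : C ≠ ⊥) {n : ℕ}
    (hn : Odd n) (hCn : ∀ c ∈ C, c ^ n = 1) (hCa : ∀ a ∈ C, ∀ b ∈ C, a * b = b * a)
    (hCH' : ∀ h ∈ H, ∀ c ∈ C, h * c * h⁻¹ ∈ C) :
    ∃ A : Subgroup (H.comap φ), A.Normal ∧ A ≠ ⊥ ∧ (∀ a ∈ A, ∀ b ∈ A, a * b = b * a) ∧ Odd (Nat.card A) := by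
  have hcomm : ∀ x y : K, φ x ∈ C → φ y ∈ C → x ^ n = 1 → y ^ n = 1 → x * y = y * x := by
    intro x y hx hy hxn hyn
    have hk : φ (x * y * x⁻¹ * y⁻¹) = 1 := by
      rw [map_mul, map_mul, map_mul, map_inv, map_inv, hCa _ hx _ hy]
      group
    set k := x * y * x⁻¹ * y⁻¹ with hkdef
    obtain ⟨hk2, hkc⟩ := hker k hk
    have h1 : x * y * x⁻¹ = k * y := by rw [hkdef]; group
    have h3 : (k * y) ^ n = 1 := by
      rw [← h1, conj_pow, hyn]
      group
    have h4 : k ^ n = 1 := by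
      have h5 : Commute k y := (hkc y).symm
      rw [h5.mul_pow, hyn, mul_one] at h3
      exact h3
    have h5 : k = 1 := by
      obtain ⟨m, hm⟩ := hn
      rw [hm, pow_succ, pow_mul, pow_two, hk2, one_pow, one_mul] at h4
      exact h4
    rw [h5, one_mul] at h1
    calc x * y = (x * y * x⁻¹) * x := by group
      _ = y * x := by rw [h1]
  let A : Subgroup (H.comap φ) :=
    { carrier := {x | φ x ∈ C ∧ x ^ n = 1}
      one_mem' := ⟨by rw [OneMemClass.coe_one, map_one]; exact C.one_mem, one_pow n⟩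
      mul_mem' := by
        rintro x y ⟨hx, hxn⟩ ⟨hy, hyn⟩
        refine ⟨by rw [Subgroup.coe_mul, map_mul]; exact C.mul_mem hx hy, ?_⟩
        have h1 : Commute x y := Subtype.ext (hcomm x y hx hy (congrArg Subtype.val hxn) (congrArg Subtype.val hyn))
        rw [h1.mul_pow, hxn, hyn, one_mul]
      inv_mem' := by
        rintro x ⟨hx, hxn⟩
        exact ⟨by rw [Subgroup.coe_inv, map_inv]; exact C.inv_mem hx, by rw [inv_pow, hxn, inv_one]⟩ }
  refine ⟨A, ⟨?_⟩, ?_, ?_, ?_⟩
  · rintro x ⟨hx, hxn⟩ g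
    refine ⟨?_, ?_⟩
    · rw [Subgroup.coe_mul, Subgroup.coe_mul, Subgroup.coe_inv, map_mul, map_mul, map_inv]
      exact hCH' _ g.2 _ hx
    · rw [conj_pow, hxn, mul_one, mul_inv_cancel]
  · obtain ⟨⟨c, hc⟩, hc1⟩ := (Subgroup.ne_bot_iff_exists_ne_one).mp hC1
    obtain ⟨x, rfl⟩ := hφ c
    intro hbot
    have hx : φ (x ^ n) = 1 := by rw [map_pow, hCn _ hc]
    obtain ⟨h1, -⟩ := hker _ hx
    have hmem : x * x ∈ H.comap φ := by
      show φ (x * x) ∈ H
      rw [map_mul]
      exact hCH (C.mul_mem hc hc)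
    have h3 : (⟨x * x, hmem⟩ : H.comap φ) ∈ A := by
      refine ⟨?_, Subtype.ext ?_⟩
      · show φ (x * x) ∈ C
        rw [map_mul]
        exact C.mul_mem hc hc
      · show (x * x) ^ n = 1
        rw [(Commute.refl x).mul_pow, h1]
    rw [hbot, Subgroup.mem_bot] at h3
    have h4 : x * x = 1 := congrArg Subtype.val h3
    have h5 : φ x * φ x = 1 := by rw [← map_mul, h4, map_one]
    have h6 : φ x = 1 := by
      have h7 := hCn _ hc
      obtain ⟨m, hm⟩ := hn
      rw [hm, pow_succ, pow_mul, pow_two, h5, one_pow, one_mul] at h7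
      exact h7
    exact hc1 (Subtype.ext h6)
  · rintro x ⟨hx, hxn⟩ y ⟨hy, hyn⟩
    exact Subtype.ext (hcomm x y hx hy (congrArg Subtype.val hxn) (congrArg Subtype.val hyn))
  · by_contra hcon
    rw [Nat.not_odd_iff_even, even_iff_two_dvd] at hcon
    have : Fact (Nat.Prime 2) := ⟨Nat.prime_two⟩
    obtain ⟨⟨x, hx, hxn⟩, hx2⟩ := exists_prime_orderOf_dvd_card' (G := A) 2 hcon
    have h1 : orderOf (⟨x, hx, hxn⟩ : A) ∣ n := orderOf_dvd_of_pow_eq_one (Subtype.ext hxn)
    rw [hx2] at h1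
    exact absurd h1 (Nat.two_dvd_ne_zero.mpr (Nat.odd_iff.mp hn))

/-- **the theorem in `POmega`** -/
theorem nAt_of_odd {S : Type*} [Group S] [Finite S] {F : Type} [Field F] [Finite F] {p : ℕ} [CharP F p]
    (hp : p.Prime) (h2 : (2 : F) ≠ 0) {ι : Type} [Fintype ι] [DecidableEq ι] {Q : QuadraticForm F (ι → F)}
    (hQ : GoodQ Q) (hN : 5 ≤ Fintype.card ι) {Q' : (ι → F) → F} (hQQ : ⇑Q = Q') (e : S ≃* Cfsg.POmega F Q')
    {H : Subgroup S} (hH : ¬ 2 ∣ H.index) (hpH : ¬ p ∣ Nat.card H) {r : ℕ} (hr : r.Prime) (hr2 : r ≠ 2)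
    {B : Subgroup S} (hBH : B ≤ H) (hB1 : B ≠ ⊥) (hBr : IsPGroup r B) (hBn : ∀ h ∈ H, ∀ b ∈ B, h * b * h⁻¹ ∈ B) :
    Cfsg.Agent.H165.RV.NAt H := by
  subst hQQ
  have hfin : Finite (Cfsg.Omega F (⇑Q)) := inferInstance
  have := Fact.mk hr
  let φ : Cfsg.Omega F (⇑Q) →* S :=
    (e.symm : Cfsg.POmega F (⇑Q) →* S).comp
      (QuotientGroup.mk' (Subgroup.center (Cfsg.Omega F (⇑Q))))
  have hφ : Function.Surjective φ :=
    e.symm.surjective.comp (QuotientGroup.mk'_surjective _)
  have hφc : ∀ k, φ k = 1 → k ∈ Subgroup.center (Cfsg.Omega F (⇑Q)) := by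
    intro k h
    rw [← QuotientGroup.eq_one_iff]
    exact e.symm.injective (h.trans (map_one e.symm).symm)
  have hφ0 : ∀ k, φ k = 1 → inc (⇑Q) k = 1 ∨ inc (⇑Q) k = -1 := fun k h =>
    (Cfsg.Agent.LieClassical.OmegaCenter.mem_center_omega_iff Q hQ.nd hQ.card hQ.sing k).mp (hφc k h)
  have hφ1 : ∀ k, φ k = 1 → k * k = 1 := by
    intro k hk
    apply inc_injective
    rw [map_mul, map_one]
    rcases hφ0 k hk with h | h
    · rw [h, one_mul]
    · rw [h, neg_mul_neg, one_mul]
  -- the centre of `B`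
  have hBfin : Finite B := inferInstance
  have hBnt : Nontrivial B := (Subgroup.nontrivial_iff_ne_bot B).mpr hB1
  have hZ : Nontrivial (Subgroup.center B) := hBr.center_nontrivial
  let C : Subgroup S := (Subgroup.center B).map B.subtype
  have hCB : C ≤ B := Subgroup.map_subtype_le _
  have hC1 : C ≠ ⊥ := by
    intro h
    rw [Subgroup.map_eq_bot_iff_of_injective _ B.subtype_injective] at h
    exact (Subgroup.nontrivial_iff_ne_bot _).mp hZ h
  have hCB' : ∀ c ∈ C, ∀ b ∈ B, c * b = b * c := by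
    rintro _ ⟨c, hc, rfl⟩ b hb
    exact (congrArg Subtype.val (Subgroup.mem_center_iff.mp hc ⟨b, hb⟩)).symm
  have hCn : ∀ h ∈ H, ∀ c ∈ C, h * c * h⁻¹ ∈ C := by
    intro h hh c hc
    have h1 : h * c * h⁻¹ ∈ B := hBn h hh c (hCB hc)
    refine ⟨⟨h * c * h⁻¹, h1⟩, ?_, rfl⟩
    rw [SetLike.mem_coe, Subgroup.mem_center_iff]
    rintro ⟨b, hb⟩
    apply Subtype.ext
    show b * (h * c * h⁻¹) = h * c * h⁻¹ * b
    have h3 : h⁻¹ * b * h ∈ B := by
      have := hBn h⁻¹ (H.inv_mem hh) b hb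
      rwa [inv_inv] at this
    have h4 := hCB' c hc _ h3
    calc b * (h * c * h⁻¹) = h * (h⁻¹ * b * h * c) * h⁻¹ := by group
      _ = h * (c * (h⁻¹ * b * h)) * h⁻¹ := by rw [h4]
      _ = h * c * h⁻¹ * b := by group
  have hodd : Odd (Nat.card B) := by
    obtain ⟨m, hm⟩ := hBr.exists_card_eq
    rw [hm]
    exact (hr.odd_of_ne_two hr2).pow
  obtain ⟨A, hAn, hA1, hAa, hAo⟩ := exists_lift φ hφ (fun k hk => ⟨hφ1 k hk, fun g =>
    Subgroup.mem_center_iff.mp (hφc k hk) g⟩) (hCB.trans hBH) hC1 hodd (fun c hc => by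
      have := pow_card_eq_one' (x := (⟨c, hCB hc⟩ : B))
      exact congrArg Subtype.val this) (fun a ha b hb => hCB' a ha b (hCB hb)) hCn
  -- the preimage
  have hcard : (Nat.card (H.comap φ) : F) ≠ 0 := by
    intro h0
    rw [CharP.cast_eq_zero_iff F p] at h0
    have := Fact.mk hp
    obtain ⟨x, hx⟩ := exists_prime_orderOf_dvd_card' (G := H.comap φ) p h0
    by_cases h1 : φ (x : Cfsg.Omega F (⇑Q)) = 1
    · have h3 : x * x = 1 := Subtype.ext (hφ1 _ h1)
      have h4 : p ∣ 2 := by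
        rw [← hx]
        exact orderOf_dvd_of_pow_eq_one (by rw [pow_two]; exact h3)
      have h5 := (Nat.prime_dvd_prime_iff_eq hp Nat.prime_two).mp h4
      apply h2
      have h6 := CharP.cast_eq_zero F p
      rw [h5] at h6
      exact_mod_cast h6
    · apply hpH
      let z : H := ⟨φ x, x.2⟩
      have h3 : z ^ p = 1 := by
        apply Subtype.ext
        show (φ x) ^ p = 1
        rw [← map_pow]
        have : x ^ p = 1 := by rw [← hx, pow_orderOf_eq_one]
        have h4 : (x : Cfsg.Omega F (⇑Q)) ^ p = 1 := congrArg Subtype.val this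
        rw [h4, map_one]
      have h4 : orderOf z = p := orderOf_eq_prime h3 fun h => h1 (congrArg Subtype.val h)
      rw [← h4]
      exact orderOf_dvd_natCard z
  obtain ⟨z, hz1, hz2, ⟨v, hv0, hv⟩, w, hw0, hw⟩ := exists_invol hQ h2 hN (H := H.comap φ)
    (by rw [Subgroup.index_comap_of_surjective H hφ]; exact hH) hcard hA1 hAa hAo
  obtain ⟨N, hN1, hzN, hN2⟩ := exists_normal hz1 hz2
  let ψ : H.comap φ →* S := φ.comp (H.comap φ).subtype
  refine Cfsg.Agent.H165.RV.NAt.of_isPGroup (N := N.map ψ) ?_ ?_ (hN2.map ψ) ?_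
  · intro h
    have h1 : ψ z ∈ N.map ψ := ⟨z, hzN, rfl⟩
    rw [h, Subgroup.mem_bot] at h1
    rcases hφ0 (z : Cfsg.Omega F (⇑Q)) h1 with h3 | h3
    · have h4 : rep (inc (⇑Q)) (z : Cfsg.Omega F (⇑Q)) w = w := by
        have h5 : (z : Cfsg.Omega F (⇑Q)) = 1 := inc_injective (h3.trans (map_one _).symm)
        rw [h5, one_ap]
      rw [hw] at h4
      have h5 : (2 : F) • w = 0 := by
        rw [two_smul]
        nth_rewrite 1 [← h4]
        exact neg_add_cancel w
      exact hw0 ((smul_eq_zero.mp h5).resolve_left h2)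
    · have h4 : rep (inc (⇑Q)) (z : Cfsg.Omega F (⇑Q)) v = -v := by
        rw [rep_apply, h3, Matrix.neg_mulVec, Matrix.one_mulVec]
      rw [hv] at h4
      have h5 : (2 : F) • v = 0 := by
        rw [two_smul]
        nth_rewrite 1 [h4]
        exact neg_add_cancel v
      exact hv0 ((smul_eq_zero.mp h5).resolve_left h2)
  · rintro _ ⟨n, -, rfl⟩
    exact n.2
  · rintro h hh _ ⟨n, hn, rfl⟩
    obtain ⟨g, rfl⟩ := hφ h
    let g' : H.comap φ := ⟨g, hh⟩
    refine ⟨g' * n * g'⁻¹, hN1.conj_mem n hn g', ?_⟩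
    rw [map_mul, map_mul, map_inv]
    rfl

end Cfsg.Agent.H556.OddCore
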