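import Cfsg.Agent.H571.RM.RowS

/-!
# S3849 (helper556), part I: `RowM` from the alternative in a central extension by involutions

`Alt A H` : either every `1 ≠ x ∈ A` has `C(x) ≤ C(A)`, or `H ∩ C(A)` contains a 2-group `⟨Z⟩` such that `A` commutes with
every conjugate of `A` normalised by `Z`.
-/

set_option autoImplicit false
set_option linter.unusedSectionVars false

namespace Cfsg.Agent.H556.Over

open Subgroup Cfsg Cfsg.Agent.H988.CPi Cfsg.Agent.H571.DExt Cfsg.Agent.H571.RV Cfsg.Agent.H571.RM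
open Cfsg.Agent.Solvable.SZ
open scoped Pointwise

universe u

/-- the alternative -/
def Alt {X : Type*} [Group X] (A H : Subgroup X) : Prop :=
  (∀ x ∈ A, x ≠ 1 → ∀ y : X, y * x = x * y → ∀ a ∈ A, y * a = a * y) ∨
    ∃ Z : Set X, (∀ z ∈ Z, z ∈ H ∧ ∀ a ∈ A, z * a = a * z) ∧ IsPGroup 2 (Subgroup.closure Z) ∧
      ∀ g : X, (∀ z ∈ Z, ∀ a ∈ A, ∃ b ∈ A, z * (g * a * g⁻¹) * z⁻¹ = g * b * g⁻¹) →
        ∀ a ∈ A, ∀ b ∈ A, a * (g * b * g⁻¹) = g * b * g⁻¹ * a

variable {π : Set ℕ} {S : Type u} [Group S] [Finite S] {H A : Subgroup S}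

/-- elements of order prime to `r` of `H` lie in `A` -/
theorem HA.mem_of_odd {r : ℕ} (d : HA π r H A) {h : S} (hh : h ∈ H) (ho : (orderOf h).Coprime r) : h ∈ A := by
  have hn : (A.subgroupOf H).Normal := (normal_subgroupOf_iff_le_normalizer d.ale).mpr d.nor
  have h1 : (⟨h, hh⟩ : H) ^ (A.subgroupOf H).index ∈ A.subgroupOf H := Subgroup.pow_index_mem _ _
  have h2 : h ^ A.relIndex H ∈ A := h1
  have h3 : (orderOf h).Coprime (A.relIndex H) := by
    refine Nat.coprime_of_dvd fun p hp hd1 hd2 => ?_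
    have h4 := d.idx p hp hd2
    rw [h4] at hd1
    exact d.hr.one_lt.ne' (Nat.dvd_one.mp (by rw [← ho]; exact Nat.dvd_gcd hd1 dvd_rfl))
  have h4 : ∃ m : ℕ, (h ^ A.relIndex H) ^ m = h := by
    obtain ⟨m, hm⟩ := exists_pow_eq_self_of_coprime h3.symm
    exact ⟨m, hm⟩
  obtain ⟨m, hm⟩ := h4
  rw [← hm]
  exact A.pow_mem h2 m

/-- **`RowM` from the alternative** -/
theorem rowM_of_alt {X : Type*} [Group X] [Finite X] (f : X →* S) (hf : Function.Surjective f)
    (hker : f.ker ≤ Subgroup.center X) (hk2 : ∀ k, f k = 1 → k * k = 1) (d : HA π 2 H A) (h2π : 2 ∈ π)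
    (hAlt : ∀ A' : Subgroup X, (∀ a ∈ A', ∀ b ∈ A', a * b = b * a) → Nat.card A' = Nat.card A → A' ≤ H.comap f →
      (∀ h ∈ H.comap f, ∀ a ∈ A', h * a * h⁻¹ ∈ A') → (∀ y ∈ H.comap f, Odd (orderOf y) → y ∈ A') →
      Alt A' (H.comap f)) : RowM π S := by
  have : Fact (Nat.Prime 2) := ⟨Nat.prime_two⟩
  have hAodd : Odd (Nat.card A) := by
    rw [← Nat.not_even_iff_odd, even_iff_two_dvd]
    exact d.rA
  have hker2 : IsPGroup 2 f.ker := by
    rintro ⟨k, hk⟩
    refine ⟨1, Subtype.ext ?_⟩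
    show k ^ 2 ^ 1 = 1
    rw [pow_one, pow_two]
    exact hk2 k hk
  have hcop : (Nat.card A).Coprime (Nat.card f.ker) := by
    obtain ⟨m, hm⟩ := hker2.exists_card_eq
    rw [hm]
    exact (Nat.coprime_two_right.mpr hAodd).pow_right m
  obtain ⟨A', hmap, hab, hcard, hmem, hnor⟩ := exists_lift_A f hf hker d.ab hcop
  have hA'H : A' ≤ H.comap f := by
    intro a ha
    have h1 : f a ∈ A := by rw [← hmap]; exact ⟨a, ha, rfl⟩
    exact d.ale h1
  have hnor' : ∀ h ∈ H.comap f, ∀ a ∈ A', h * a * h⁻¹ ∈ A' := fun h hh a ha =>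
    (mem_normalizer_iff.mp (hnor h (d.nor hh)) a).mp ha
  have hodd' : ∀ y ∈ H.comap f, Odd (orderOf y) → y ∈ A' := by
    intro y hy hyo
    have h1 : f y ∈ A := by
      refine HA.mem_of_odd d hy ?_
      exact Nat.coprime_two_right.mpr (hyo.of_dvd_nat (orderOf_map_dvd f y))
    refine (hmem y).mp ⟨h1, ?_⟩
    have h2 : f (y ^ Nat.card A) = 1 := by
      rw [map_pow]
      have h3 : (⟨f y, h1⟩ : A) ^ Nat.card A = 1 := pow_card_eq_one'
      exact congrArg Subtype.val h3
    have h3 := hk2 _ h2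
    rw [← orderOf_eq_one_iff]
    have h4 : orderOf (y ^ Nat.card A) ∣ 2 := orderOf_dvd_of_pow_eq_one (by rw [pow_two]; exact h3)
    have h5 : Odd (orderOf (y ^ Nat.card A)) := hyo.of_dvd_nat (orderOf_pow_dvd _)
    rcases (Nat.dvd_prime Nat.prime_two).mp h4 with h6 | h6
    · exact h6
    · rw [h6] at h5
      exact absurd h5 (by decide)
  -- `f` is injective on `A'`
  have hinj : ∀ x ∈ A', f x = 1 → x = 1 := by
    intro x hx h1
    have h2 : orderOf x ∣ Nat.card A := by
      rw [← hcard]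
      have := orderOf_dvd_natCard (⟨x, hx⟩ : A')
      rwa [Subgroup.orderOf_mk] at this
    have h3 : orderOf x ∣ 2 := orderOf_dvd_of_pow_eq_one (by rw [pow_two]; exact hk2 x h1)
    have h4 : Odd (orderOf x) := hAodd.of_dvd_nat h2
    rcases (Nat.dvd_prime Nat.prime_two).mp h3 with h6 | h6
    · exact orderOf_eq_one_iff.mp h6
    · rw [h6] at h4
      exact absurd h4 (by decide)
  rcases hAlt A' hab hcard hA'H hnor' hodd' with hII | ⟨Z, hZ1, hZ2, hZ3⟩
  · -- case II
    refine rowM_of_cent d fun _ Y hYA hY => ?_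
    refine le_trans ?_ (centralizer_le_normalizer (A : Set S))
    intro s hs
    obtain ⟨⟨x₁, hx₁⟩, hx₁1⟩ := (Subgroup.ne_bot_iff_exists_ne_one).mp hY
    obtain ⟨y, rfl⟩ := hf s
    obtain ⟨x, hxA', hx⟩ : x₁ ∈ A'.map f := by rw [hmap]; exact hYA hx₁
    have hx1 : x ≠ 1 := by
      rintro rfl
      apply hx₁1
      apply Subtype.ext
      rw [map_one] at hx
      exact hx.symm
    have hys : f y * x₁ = x₁ * f y := (mem_centralizer_iff.mp hs x₁ hx₁).symm
    have h1 : f (y * x * y⁻¹) = x₁ := by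
      rw [map_mul, map_mul, map_inv, hx, hys, mul_inv_cancel_right]
    have h2 : y * x * y⁻¹ ∈ A' := by
      refine (hmem _).mp ⟨by rw [h1]; exact hYA hx₁, ?_⟩
      rw [conj_pow, ((hmem x).mpr hxA').2, mul_one, mul_inv_cancel]
    have h3 : y * x * y⁻¹ * x⁻¹ = 1 := by
      refine hinj _ (A'.mul_mem h2 (A'.inv_mem hxA')) ?_
      rw [map_mul, h1, map_inv, hx, mul_inv_cancel]
    have h4 : y * x = x * y := by
      have h5 := mul_inv_eq_one.mp h3
      rw [mul_inv_eq_iff_eq_mul] at h5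
      exact h5
    rw [mem_centralizer_iff]
    intro a ha
    obtain ⟨a', ha', rfl⟩ : a ∈ A'.map f := by rw [hmap]; exact ha
    rw [← map_mul, ← map_mul, hII x hxA' hx1 y h4 a' ha']
  · -- case I
    refine rowM_of_fdM d fun hD M hHM _ Y hYA _ => ?_
    set C := centralizer (Y : Set S) ⊓ M with hC
    set B : Subgroup S := (closure Z).map f with hB
    have hB2 : IsPGroup 2 B := hZ2.map f
    have hBH : B ≤ H := by
      rw [hB, map_le_iff_le_comap, closure_le]
      exact fun z hz => (hZ1 z hz).1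
    have hBC : B ≤ C := by
      refine le_inf ?_ (hBH.trans hHM)
      rw [hB, map_le_iff_le_comap, closure_le]
      intro z hz
      show f z ∈ centralizer (Y : Set S)
      rw [mem_centralizer_iff]
      intro y hy
      obtain ⟨a', ha', rfl⟩ : y ∈ A'.map f := by rw [hmap]; exact hYA hy
      rw [← map_mul, ← map_mul, (hZ1 z hz).2 a' ha']
    -- a Sylow subgroup of `C` containing `B`
    obtain ⟨P, hP⟩ := (hB2.comap_subtype (K := C)).exists_le_sylow
    set Q : Subgroup S := (P : Subgroup C).map C.subtype with hQ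
    have hQC : Q ≤ C := map_subtype_le _
    have hQ2 : IsPGroup 2 Q := P.isPGroup'.map _
    have hBQ : B ≤ Q := by
      intro b hb
      exact ⟨⟨b, hBC hb⟩, hP hb, rfl⟩
    -- `Q ≤ H^g`
    obtain ⟨g, -, hg⟩ := (d.dfw hD).dom Q le_top (piN_of_pgroup Nat.prime_two h2π hQ2)
    obtain ⟨g', rfl⟩ := hf g
    have hcomm := hZ3 g' (by
      intro z hz a ha
      have h1 : f z ∈ MulAut.conj (f g') • H := hg (hBQ ⟨z, subset_closure hz, rfl⟩)
      rw [mem_smul_iff', ← map_inv, ← map_mul, ← map_mul] at h1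
      have h2 := hnor' _ h1 a ha
      refine ⟨_, h2, ?_⟩
      group)
    have hAg : MulAut.conj (f g') • A ≤ centralizer (A : Set S) := by
      rintro _ ⟨b, hb, rfl⟩
      show f g' * b * (f g')⁻¹ ∈ centralizer (A : Set S)
      rw [mem_centralizer_iff]
      intro a ha
      obtain ⟨a', ha', rfl⟩ : a ∈ A'.map f := by rw [hmap]; exact ha
      obtain ⟨b', hb', rfl⟩ : b ∈ A'.map f := by rw [hmap]; exact hb
      have h1 := congrArg f (hcomm a' ha' b' hb')
      simpa only [map_mul, map_inv] using h1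
    have hAC : A ≤ centralizer (A : Set S) := by
      intro a ha
      rw [mem_centralizer_iff]
      exact fun x hx => d.ab x hx a ha
    obtain ⟨m, hm, hle⟩ := wiel (d.dfw hD) hAC hAg (by
      rw [card_conj_smul]; exact PiN.of_dvd d.hall.1 (card_dvd_of_le d.ale)) (by rw [card_conj_smul]; exact d.rA)
    have hmA : MulAut.conj m • A = A := by
      ext x
      rw [mem_smul_iff']
      constructor
      · intro h1
        have h2 := (mem_centralizer_iff.mp hm _ h1)
        have h3 : m⁻¹ * x * m = x := by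
          have h4 : m⁻¹ * x * m * m = x * m := by rw [h2]; group
          exact mul_right_cancel h4
        rw [h3] at h1
        exact h1
      · intro h1
        have h2 := (mem_centralizer_iff.mp hm _ h1)
        have h3 : m⁻¹ * x * m = x := by
          rw [mul_assoc, h2]; group
        rw [h3]
        exact h1
    rw [hmA] at hle
    have heq : MulAut.conj (f g') • A = A := eq_of_le_of_card_ge hle (by rw [card_conj_smul])
    have hQN : Q ≤ normalizer (A : Set S) := by
      rw [le_normalizer_iff]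
      intro q hq a ha
      rw [← heq] at ha ⊢
      rw [mem_smul_iff'] at ha ⊢
      have h1 := hg hq
      rw [mem_smul_iff'] at h1
      have h2 := (le_normalizer_iff.mp d.nor) _ h1 _ ha
      have h3 : (f g')⁻¹ * q * f g' * ((f g')⁻¹ * a * f g') * ((f g')⁻¹ * q * f g')⁻¹ =
        (f g')⁻¹ * (q * a * q⁻¹) * f g' := by group
      rwa [h3] at h2
    -- conclusion
    intro hd
    have h1 : (normalizer (A : Set S)).relIndex C ∣ Q.relIndex C := relIndex_dvd_of_le_left C hQN
    have h2 : Q.relIndex C = (P : Subgroup C).index := by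
      rw [relIndex, hQ, subgroupOf, comap_map_eq_self_of_injective C.subtype_injective]
    rw [h2] at h1
    exact P.not_dvd_index (hd.trans h1)

end Cfsg.Agent.H556.Over
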