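import Cfsg.Agent.H556.OverH
import Cfsg.Agent.H556.OverI
import Cfsg.Agent.H556.FHallOmega

/-!
# S3849, the orthogonal rows (helper556): `RowM π S` for `S = PΩ_N(q)`, `2 ∈ π`, `3, p ∉ π`
-/

set_option autoImplicit false
set_option linter.unusedSectionVars false

namespace Cfsg.Agent.H556.Over

open Module QuadraticMap Cfsg.Agent.H556.Om Cfsg.Agent.H167.OP Cfsg.Agent.H170.HL Cfsg.Agent.H170.HL.OmRow
open Subgroup Cfsg Cfsg.Agent.H988.CPi Cfsg.Agent.H571.DExt Cfsg.Agent.H571.RV Cfsg.Agent.H571.RM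

universe u

variable {π : Set ℕ} {S : Type u} [Group S] [Finite S]

theorem rowM_omega (h2π : 2 ∈ π) (h3π : 3 ∉ π) {F : Type} [Field F] [Finite F] {p : ℕ}
    [CharP F p] (hp : p.Prime) (hpπ : p ∉ π) {ι : Type} [Fintype ι] (hN : 7 ≤ Fintype.card ι)
    [DecidableEq ι] {Q : QuadraticForm F (ι → F)} (hQ : GoodQ Q) {Q' : (ι → F) → F}
    (hQQ : ⇑Q = Q') (e : S ≃* Cfsg.POmega F Q') : RowM π S := by
  intro hsm hD
  obtain ⟨H, hH, hdom⟩ := id hD
  have hT : Cfsg.Agent.H556.FH.TwoAt H := two_omega h2π h3π hH hp hpπ hQ hQQ e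
  obtain ⟨A, hAH, hAn, hAab, hA2, hAidx⟩ := hT
  have d : HA π 2 H A := ⟨Nat.prime_two, hH, hAH, hAn, hAab, hA2, hAidx⟩
  refine (?_ : RowM π S) hsm hD
  subst hQQ
  have hfin : Finite (Cfsg.Omega F (⇑Q)) := inferInstance
  have h2 : (2 : F) ≠ 0 := by
    intro h
    have h1 : ((2 : ℕ) : F) = 0 := by exact_mod_cast h
    rw [CharP.cast_eq_zero_iff F p, Nat.prime_dvd_prime_iff_eq hp Nat.prime_two] at h1
    exact hpπ (h1 ▸ h2π)
  let φ : Cfsg.Omega F (⇑Q) →* S :=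
    (e.symm : Cfsg.POmega F (⇑Q) →* S).comp
      (QuotientGroup.mk' (Subgroup.center (Cfsg.Omega F (⇑Q))))
  have hφ : Function.Surjective φ :=
    e.symm.surjective.comp (QuotientGroup.mk'_surjective _)
  have hφc : ∀ k, φ k = 1 → k ∈ Subgroup.center (Cfsg.Omega F (⇑Q)) := by
    intro k h
    rw [← QuotientGroup.eq_one_iff]
    exact e.symm.injective (h.trans (map_one e.symm).symm)
  have hφ1 : ∀ k, φ k = 1 → k * k = 1 := by
    intro k h
    have h1 := (Cfsg.Agent.LieClassical.OmegaCenter.mem_center_omega_iff Q hQ.nd hQ.card hQ.sing k).mp (hφc k h)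
    apply inc_injective
    rw [map_mul, map_one]
    have h1' : inc (⇑Q) k = 1 ∨ inc (⇑Q) k = -1 := h1
    rcases h1' with h | h
    · rw [h, one_mul]
    · rw [h, neg_mul_neg, one_mul]
  have hAπ : PiN π (Nat.card A) := PiN.of_dvd hH.1 (card_dvd_of_le hAH)
  refine rowM_of_alt φ hφ (fun k hk => hφc k hk) hφ1 d h2π fun A' hab hcard hA'H hnor hodd => ?_
  refine alternative hQ h2 hN hab ?_ ?_ hA'H hnor hodd ?_ ?_
  · rw [hcard, ← Nat.not_even_iff_odd, even_iff_two_dvd]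
    exact hA2
  · intro h0
    rw [hcard, CharP.cast_eq_zero_iff F p] at h0
    exact hpπ (hAπ p hp h0)
  · rw [Subgroup.index_comap_of_surjective H hφ]
    exact hH.2 2 Nat.prime_two h2π
  · intro t ht htd
    rw [hcard] at htd
    rw [Subgroup.index_comap_of_surjective H hφ]
    exact hH.2 t ht (hAπ t ht htd)

/-- **S3849, row `oOdd`** -/
theorem rowM_oOdd (h2π : 2 ∈ π) (h3π : 3 ∉ π) {p : ℕ} (hp : p.Prime) (hpπ : p ∉ π)
    (hG : IsPOmegaOddChar p S) : RowM π S := by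
  obtain ⟨F, _, _, hchar, m, hm, hoddF, ⟨e⟩⟩ := hG
  have h2 : (2 : F) ≠ 0 := by
    intro h
    have h1 : ((2 : ℕ) : F) = 0 := by exact_mod_cast h
    rw [CharP.cast_eq_zero_iff F p, Nat.prime_dvd_prime_iff_eq hp Nat.prime_two] at h1
    exact hpπ (h1 ▸ h2π)
  exact rowM_omega h2π h3π hp hpπ (by simp; omega) (goodQ_odd (by omega) h2)
    (Cfsg.Agent.LieClassical.OrthForms.coe_oddForm m F) e

/-- **S3849, row `oPlus`** -/
theorem rowM_oPlus (h2π : 2 ∈ π) (h3π : 3 ∉ π) {p : ℕ} (hp : p.Prime) (hpπ : p ∉ π)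
    (hG : IsPOmegaPlusChar p S) : RowM π S := by
  obtain ⟨F, _, _, hchar, m, hm, ⟨e⟩⟩ := hG
  exact rowM_omega h2π h3π hp hpπ (by simp; omega) (goodQ_plus (by omega))
    (Cfsg.Agent.LieClassical.OrthForms.coe_plusForm m F) e

/-- **S3849, row `oMinus`** -/
theorem rowM_oMinus (h2π : 2 ∈ π) (h3π : 3 ∉ π) {p : ℕ} (hp : p.Prime) (hpπ : p ∉ π)
    (hG : IsPOmegaMinusChar p S) : RowM π S := by
  obtain ⟨F, _, _, hchar, m, a, b, hm, hab, ⟨e⟩⟩ := hG
  exact rowM_omega h2π h3π hp hpπ (by simp; omega) (goodQ_minus (by omega) a b hab)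
    (Cfsg.Agent.LieClassical.OrthForms.coe_minusForm (m - 1) F a b) e

end Cfsg.Agent.H556.Over
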